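import Mathlib.GroupTheory.Perm.Cycle.Type
import Mathlib.Tactic.Group
import Mathlib.Tactic.Linarith

/-!
Every even permutation is a product of two involutions of the same cycle type, and of a permutation
`a` with two disjoint transpositions in its cycle decomposition by a conjugate of `a⁻¹`.
-/

set_option autoImplicit false
set_option linter.unusedSectionVars false

namespace Cfsg.Agent.H45.PermInvol

open Equiv Finset

variable {α : Type*} [DecidableEq α] [Fintype α]

theorem invol_cycleType {r : Perm α} (hr : r * r = 1) :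
    r.cycleType = Multiset.replicate (Multiset.card r.cycleType) 2 := by
  refine Multiset.eq_replicate.2 ⟨rfl, fun m hm => ?_⟩
  have h2 : orderOf r ∣ 2 := orderOf_dvd_of_pow_eq_one (by rw [pow_two, hr])
  exact le_antisymm (Nat.le_of_dvd (by norm_num) ((Perm.dvd_of_mem_cycleType hm).trans h2))
    (Perm.two_le_of_mem_cycleType hm)

theorem invol_card {r : Perm α} (hr : r * r = 1) :
    #r.support = 2 * Multiset.card r.cycleType := by
  rw [← Perm.sum_cycleType]
  conv_lhs => rw [invol_cycleType hr]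
  simp [mul_comm]

theorem invol_sign {r : Perm α} (hr : r * r = 1) :
    Perm.sign r = (-1 : ℤˣ) ^ Multiset.card r.cycleType := by
  rw [Perm.sign_of_cycleType, Perm.sum_cycleType, invol_card hr, pow_add, pow_mul]
  simp

theorem invol_isConj {r r' : Perm α} (hr : r * r = 1) (hr' : r' * r' = 1)
    (h : #r.support = #r'.support) : IsConj r r' := by
  rw [Perm.isConj_iff_cycleType_eq, invol_cycleType hr, invol_cycleType hr']
  rw [invol_card hr, invol_card hr'] at h
  congr 1
  omega

theorem invol_apply {r : Perm α} (hr : r * r = 1) (x : α) : r (r x) = x := by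
  rw [← Perm.mul_apply, hr, Perm.one_apply]

/-- `r` is an involution inverting `g`, supported inside the support of `g`. -/
structure Rev (g r : Perm α) : Prop where
  invol : r * r = 1
  invol' : r * g * (r * g) = 1
  supp : r.support ⊆ g.support

/-- The difference of the supports of the two involutions. -/
def D (g r : Perm α) : ℤ := (#r.support : ℤ) - #(r * g).support

/-- Some moved point of `g` is fixed by one of the two involutions. -/
def Touch (g r : Perm α) : Prop := ∃ x, g x ≠ x ∧ (r x = x ∨ r (g x) = x)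

theorem Rev.supp' {g r : Perm α} (h : Rev g r) : (r * g).support ⊆ g.support :=
  fun _ hx => (mem_union.1 ((Perm.support_mul_le r g) hx)).elim (fun hx' => h.supp hx') id

theorem Rev.flip_eq {g r : Perm α} (h : Rev g r) : r * g * g = g⁻¹ * r * g := by
  have hr : r⁻¹ = r := inv_eq_of_mul_eq_one_right h.invol
  have h1 : r * g = g⁻¹ * r := by
    rw [eq_inv_of_mul_eq_one_left h.invol', mul_inv_rev, hr]
  rw [h1]

theorem Rev.flip {g r : Perm α} (h : Rev g r) : Rev g (r * g) := by
  refine ⟨h.invol', ?_, h.supp'⟩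
  rw [h.flip_eq]
  calc g⁻¹ * r * g * (g⁻¹ * r * g) = g⁻¹ * (r * r) * g := by group
    _ = 1 := by rw [h.invol]; group

theorem Rev.D_flip {g r : Perm α} (h : Rev g r) : D g (r * g) = - D g r := by
  have : #(r * g * g).support = #r.support := by
    rw [h.flip_eq]
    conv_lhs => rw [show g⁻¹ * r * g = g⁻¹ * r * (g⁻¹)⁻¹ by rw [inv_inv]]
    exact Perm.card_support_conj
  unfold D
  rw [this]
  ring

theorem Rev.touch_flip {g r : Perm α} (h : Rev g r) (ht : Touch g r) : Touch g (r * g) := by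
  obtain ⟨x, hx, h1 | h2⟩ := ht
  · refine ⟨g⁻¹ x, fun e => hx ?_, Or.inr ?_⟩
    · calc g x = g (g (g⁻¹ x)) := by simp
        _ = g (g⁻¹ x) := congrArg g e
        _ = x := by simp
    · rw [← Perm.mul_apply, h.flip_eq, Perm.mul_apply, Perm.mul_apply]
      simp [h1]
  · exact ⟨x, hx, Or.inl (by rw [Perm.mul_apply, h2])⟩

theorem Rev.mul {σ τ r₁ r₂ : Perm α} (hd : Perm.Disjoint σ τ) (h₁ : Rev σ r₁) (h₂ : Rev τ r₂) :
    Rev (σ * τ) (r₁ * r₂) ∧ D (σ * τ) (r₁ * r₂) = D σ r₁ + D τ r₂ ∧
      (Touch σ r₁ → Touch (σ * τ) (r₁ * r₂)) := by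
  have hs : Disjoint σ.support τ.support := Perm.disjoint_iff_disjoint_support.1 hd
  have d1 : Perm.Disjoint r₁ r₂ := Perm.disjoint_iff_disjoint_support.2 (hs.mono h₁.supp h₂.supp)
  have d2 : Perm.Disjoint σ r₂ := Perm.disjoint_iff_disjoint_support.2 (hs.mono le_rfl h₂.supp)
  have d3 : Perm.Disjoint (r₁ * σ) (r₂ * τ) :=
    Perm.disjoint_iff_disjoint_support.2 (hs.mono h₁.supp' h₂.supp')
  have e : r₁ * r₂ * (σ * τ) = r₁ * σ * (r₂ * τ) := by
    rw [mul_assoc, ← mul_assoc r₂, ← d2.commute.eq]; group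
  refine ⟨⟨?_, ?_, ?_⟩, ?_, ?_⟩
  · rw [d1.commute.symm.mul_mul_mul_comm, h₁.invol, h₂.invol, one_mul]
  · rw [e, d3.commute.symm.mul_mul_mul_comm, h₁.invol', h₂.invol', one_mul]
  · rw [d1.support_mul, hd.support_mul]
    exact union_subset_union h₁.supp h₂.supp
  · unfold D
    rw [e, d1.card_support_mul, d3.card_support_mul]
    push_cast
    ring
  · rintro ⟨x, hx, hor⟩
    have hxσ : x ∈ σ.support := Perm.mem_support.2 hx
    have hτ : τ x = x := (hd x).resolve_left hx
    have hr₂ : r₂ x = x := Perm.notMem_support.1 fun h => disjoint_left.1 hs hxσ (h₂.supp h)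
    have hr₂' : r₂ (σ x) = σ x := Perm.notMem_support.1 fun h =>
      disjoint_left.1 hs (Perm.apply_mem_support.2 hxσ) (h₂.supp h)
    refine ⟨x, by rw [Perm.mul_apply, hτ]; exact hx, ?_⟩
    rcases hor with h | h
    · exact Or.inl (by rw [Perm.mul_apply, hr₂, h])
    · exact Or.inr (by rw [Perm.mul_apply, Perm.mul_apply, hτ, hr₂', h])

/-- An involution inverting a cycle and fixing one of its points. -/
theorem exists_cycle_rev {σ : Perm α} (hσ : σ.IsCycle) {x₀ : α} (hx₀ : σ x₀ ≠ x₀) :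
    ∃ r : Perm α, Rev σ r ∧ ∀ i : ℤ, r ((σ ^ i) x₀) = (σ ^ (-i)) x₀ := by
  classical
  have wd : ∀ i j : ℤ, (σ ^ i) x₀ = (σ ^ j) x₀ → (σ ^ (-i)) x₀ = (σ ^ (-j)) x₀ := by
    intro i j h
    have : (σ ^ (-i - j)) ((σ ^ i) x₀) = (σ ^ (-i - j)) ((σ ^ j) x₀) := by rw [h]
    simp only [← Perm.mul_apply, ← zpow_add] at this
    rw [show -i - j + i = -j by ring, show -i - j + j = -i by ring] at this
    exact this.symm
  let f : α → α := fun y => if h : σ.SameCycle x₀ y then (σ ^ (-Classical.choose h)) x₀ else y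
  have hf : ∀ i : ℤ, f ((σ ^ i) x₀) = (σ ^ (-i)) x₀ := fun i => by
    have h : σ.SameCycle x₀ ((σ ^ i) x₀) := ⟨i, rfl⟩
    simp only [f, dif_pos h]
    exact wd _ _ (Classical.choose_spec h)
  have hout : ∀ y, σ y = y → f y = y := fun y hy => by
    refine dif_neg fun h => ?_
    exact hx₀ ((Perm.SameCycle.apply_eq_self_iff h).2 hy)
  have hinv : Function.Involutive f := fun y => by
    by_cases hy : σ y = y
    · rw [hout y hy, hout y hy]
    · obtain ⟨i, rfl⟩ := hσ.sameCycle hx₀ hy
      rw [hf, hf, neg_neg]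
  have hr : hinv.toPerm f * hinv.toPerm f = 1 := by
    ext y
    exact hinv y
  refine ⟨hinv.toPerm f, ⟨hr, ?_, ?_⟩, hf⟩
  · ext y
    show f (σ (f (σ y))) = y
    by_cases hy : σ y = y
    · rw [hy, hout y hy, hy, hout y hy]
    · obtain ⟨i, rfl⟩ := hσ.sameCycle hx₀ hy
      rw [← Perm.mul_apply, ← zpow_one_add, hf, ← Perm.mul_apply, ← zpow_one_add, hf]
      congr 2
      ring
  · intro y hy
    rw [Perm.mem_support] at hy ⊢
    exact fun e => hy (hout y e)

/-- A cycle and a candidate involution: at most two points with a given exponent parity. -/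
theorem card_fix_le_two {σ : Perm α} {x₀ : α} (hσ : σ.IsCycle) (hx₀ : σ x₀ ≠ x₀) (c : ℤ)
    (S : Finset α) (hS : ∀ y ∈ S, ∃ i : ℤ, y = (σ ^ i) x₀ ∧ (σ ^ (2 * i + c)) x₀ = x₀) :
    #S ≤ 2 := by
  rcases S.eq_empty_or_nonempty with rfl | ⟨y₁, hy₁⟩
  · simp
  obtain ⟨i, rfl, hi⟩ := hS y₁ hy₁
  set m := orderOf σ with hm
  have hmpos : (0 : ℤ) < m := by exact_mod_cast orderOf_pos σ
  refine (card_le_card (t := {(σ ^ i) x₀, (σ ^ (i + ((m / 2 : ℕ) : ℤ))) x₀}) ?_).trans card_le_two
  intro y hy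
  obtain ⟨j, rfl, hj⟩ := hS y hy
  have h1 : (σ ^ (2 * (j - i))) x₀ = x₀ := by
    have e : (σ ^ (2 * (j - i))) ((σ ^ (2 * i + c)) x₀) = (σ ^ (2 * j + c)) x₀ := by
      rw [← Perm.mul_apply, ← zpow_add]; congr 2; ring
    rwa [hi, hj] at e
  obtain ⟨k, hk⟩ : ∃ k : ℕ, ((k : ℤ)) = 2 * (j - i) % m :=
    ⟨_, Int.toNat_of_nonneg (Int.emod_nonneg _ hmpos.ne')⟩
  have h2 : (σ ^ k) x₀ = x₀ := by
    rw [← zpow_natCast, hk, zpow_mod_orderOf]; exact h1
  have h3 : (m : ℤ) ∣ 2 * (j - i) := by
    refine orderOf_dvd_iff_zpow_eq_one.2 ?_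
    rw [← zpow_mod_orderOf, ← hm, ← hk, zpow_natCast]
    exact (hσ.pow_eq_one_iff' hx₀).2 h2
  have key : (σ ^ (j - i)) = 1 ∨ σ ^ (j - i) = σ ^ ((m / 2 : ℕ) : ℤ) := by
    rw [← zpow_mod_orderOf σ (j - i), ← hm]
    have e0 : 0 ≤ (j - i) % m := Int.emod_nonneg _ hmpos.ne'
    have e1 : (j - i) % m < m := Int.emod_lt_of_pos _ hmpos
    have e2 : (m : ℤ) ∣ 2 * ((j - i) % m) := by
      rw [Int.emod_def, mul_sub, ← mul_assoc 2, mul_comm 2 (m : ℤ), mul_assoc]
      exact dvd_sub h3 (dvd_mul_right _ _)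
    obtain ⟨q, hq⟩ := e2
    have : q = 0 ∨ q = 1 := by
      have : 0 ≤ q := by nlinarith
      have : q < 2 := by nlinarith
      omega
    rcases this with rfl | rfl
    · left
      rw [show (j - i) % (m : ℤ) = 0 by omega, zpow_zero]
    · right
      congr 1
      omega
  rw [mem_insert, mem_singleton]
  have hji : (σ ^ j) x₀ = (σ ^ (j - i)) ((σ ^ i) x₀) := by
    rw [← Perm.mul_apply, ← zpow_add]; congr 2; ring
  rcases key with h | h
  · exact Or.inl (by rw [hji, h, Perm.one_apply])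
  · exact Or.inr (by rw [hji, h, ← Perm.mul_apply, ← zpow_add, add_comm])

theorem exists_cycle_D {σ : Perm α} (hσ : σ.IsCycle) :
    ∃ r, Rev σ r ∧ Touch σ r ∧
      (Perm.sign σ = 1 → D σ r = 0) ∧ (Perm.sign σ = -1 → D σ r = 2 ∨ D σ r = -2) := by
  obtain ⟨x₀, hx₀, -⟩ := id hσ
  obtain ⟨r, hR, hr⟩ := exists_cycle_rev hσ hx₀
  refine ⟨r, hR, ⟨x₀, hx₀, Or.inl (by simpa using hr 0)⟩, ?_⟩
  have hsc : ∀ y ∈ σ.support, ∃ i : ℤ, (σ ^ i) x₀ = y := fun y hy =>
    hσ.sameCycle hx₀ (Perm.mem_support.1 hy)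
  have f1 : #(σ.support \ r.support) ≤ 2 := by
    refine card_fix_le_two hσ hx₀ 0 _ fun y hy => ?_
    rw [mem_sdiff, Perm.notMem_support] at hy
    obtain ⟨i, rfl⟩ := hsc y hy.1
    refine ⟨i, rfl, ?_⟩
    have e := hy.2
    rw [hr] at e
    have : (σ ^ i) ((σ ^ i) x₀) = (σ ^ i) ((σ ^ (-i)) x₀) := by rw [e]
    simp only [← Perm.mul_apply, ← zpow_add] at this
    rw [show i + -i = 0 by ring, zpow_zero, Perm.one_apply] at this
    rw [show 2 * i + 0 = i + i by ring]
    exact this
  have f2 : #(σ.support \ (r * σ).support) ≤ 2 := by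
    refine card_fix_le_two hσ hx₀ 1 _ fun y hy => ?_
    rw [mem_sdiff, Perm.notMem_support] at hy
    obtain ⟨i, rfl⟩ := hsc y hy.1
    refine ⟨i, rfl, ?_⟩
    have e := hy.2
    have h1i : σ ((σ ^ i) x₀) = (σ ^ (1 + i)) x₀ := by rw [zpow_one_add, Perm.mul_apply]
    rw [Perm.mul_apply, h1i, hr] at e
    have : (σ ^ (1 + i)) ((σ ^ i) x₀) = (σ ^ (1 + i)) ((σ ^ (-(1 + i))) x₀) := by rw [e]
    simp only [← Perm.mul_apply, ← zpow_add] at this
    rw [show 1 + i + -(1 + i) = 0 by ring, zpow_zero, Perm.one_apply] at this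
    rw [show 2 * i + 1 = 1 + i + i by ring]
    exact this
  have c1 := card_sdiff_add_card_eq_card hR.supp
  have c2 := card_sdiff_add_card_eq_card hR.supp'
  have s1 := invol_card hR.invol
  have s2 := invol_card hR.invol'
  have hsg : Perm.sign σ =
      (-1 : ℤˣ) ^ (Multiset.card r.cycleType + Multiset.card (r * σ).cycleType) := by
    have : Perm.sign σ = Perm.sign r * Perm.sign (r * σ) := by
      rw [← map_mul, ← mul_assoc, hR.invol, one_mul]
    rw [this, invol_sign hR.invol, invol_sign hR.invol', pow_add]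
  have hsc' := hσ.sign
  constructor
  · intro h
    rw [h] at hsg hsc'
    have hev := neg_one_pow_eq_one_iff_even (show (-1 : ℤˣ) ≠ 1 by decide) |>.1 hsg.symm
    have hodd : ¬ Even #σ.support := fun he => by
      rw [he.neg_one_pow] at hsc'; exact absurd hsc' (by decide)
    rw [Nat.even_iff] at hev hodd
    unfold D
    omega
  · intro h
    rw [h] at hsg hsc'
    have hev : ¬ Even (Multiset.card r.cycleType + Multiset.card (r * σ).cycleType) := fun he => by
      rw [he.neg_one_pow] at hsg; exact absurd hsg (by decide)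
    have heven : Even #σ.support := by
      by_contra he
      rw [(Nat.not_even_iff_odd.1 he).neg_one_pow] at hsc'; exact absurd hsc' (by decide)
    rw [Nat.even_iff] at hev heven
    unfold D
    omega

/-- The inductive statement. -/
def Good (g : Perm α) : Prop :=
  (Perm.sign g = 1 → ∃ r, Rev g r ∧ D g r = 0 ∧ (g ≠ 1 → Touch g r)) ∧
  (Perm.sign g = -1 → ∀ e : ℤ, (e = 2 ∨ e = -2) → ∃ r, Rev g r ∧ D g r = e ∧ (g ≠ 1 → Touch g r))

theorem good_cycle {σ : Perm α} (hσ : σ.IsCycle) : Good σ := by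
  obtain ⟨r, hR, ht, h1, h2⟩ := exists_cycle_D hσ
  refine ⟨fun h => ⟨r, hR, h1 h, fun _ => ht⟩, fun h e he => ?_⟩
  by_cases hD : D σ r = e
  · exact ⟨r, hR, hD, fun _ => ht⟩
  · refine ⟨r * σ, hR.flip, ?_, fun _ => hR.touch_flip ht⟩
    rw [hR.D_flip]
    rcases h2 h with h3 | h3 <;> omega

theorem good (g : Perm α) : Good g := by
  induction g using Perm.cycle_induction_on with
  | base_one =>
    refine ⟨fun _ => ⟨1, ⟨by simp, by simp, by simp⟩, by simp [D], fun h => absurd rfl h⟩,
      fun h => absurd h ?_⟩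
    rw [map_one]; decide
  | base_cycles σ hσ => exact good_cycle hσ
  | induction_disjoint σ τ hd hc ihσ ihτ =>
    have mk : ∀ {r₁ r₂ : Perm α} {a b e : ℤ}, Rev σ r₁ → D σ r₁ = a → (σ ≠ 1 → Touch σ r₁) →
        Rev τ r₂ → D τ r₂ = b → a + b = e →
        ∃ r, Rev (σ * τ) r ∧ D (σ * τ) r = e ∧ (σ * τ ≠ 1 → Touch (σ * τ) r) := by
      intro r₁ r₂ a b e h₁ ha ht h₂ hb he
      obtain ⟨hR, hD, hT⟩ := h₁.mul hd h₂
      exact ⟨r₁ * r₂, hR, by rw [hD, ha, hb, he], fun _ => hT (ht hc.ne_one)⟩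
    rcases Int.units_eq_one_or (Perm.sign σ) with hs | hs <;>
      rcases Int.units_eq_one_or (Perm.sign τ) with ht | ht <;> constructor <;> intro h
    all_goals first
      | (rw [map_mul, hs, ht] at h; exact absurd h (by decide))
      | skip
    · obtain ⟨r₁, a1, a2, a3⟩ := ihσ.1 hs
      obtain ⟨r₂, b1, b2, -⟩ := ihτ.1 ht
      exact mk a1 a2 a3 b1 b2 (by norm_num)
    · intro e he
      obtain ⟨r₁, a1, a2, a3⟩ := ihσ.1 hs
      obtain ⟨r₂, b1, b2, -⟩ := ihτ.2 ht e he
      exact mk a1 a2 a3 b1 b2 (by ring)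
    · intro e he
      obtain ⟨r₁, a1, a2, a3⟩ := ihσ.2 hs e he
      obtain ⟨r₂, b1, b2, -⟩ := ihτ.1 ht
      exact mk a1 a2 a3 b1 b2 (by ring)
    · obtain ⟨r₁, a1, a2, a3⟩ := ihσ.2 hs 2 (Or.inl rfl)
      obtain ⟨r₂, b1, b2, -⟩ := ihτ.2 ht (-2) (Or.inr rfl)
      exact mk a1 a2 a3 b1 b2 (by norm_num)

theorem conj_apply {b r r' : Perm α} (h : b * r * b⁻¹ = r') (x : α) : b (r x) = r' (b x) := by
  rw [← h]; simp [Perm.mul_apply]

/-- Conjugate `r₁` to `r₂`, exchanging `x` and `y`. -/
theorem exists_swap_conj {r₁ r₂ : Perm α} (h₁ : r₁ * r₁ = 1) (h₂ : r₂ * r₂ = 1)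
    (hc : #r₁.support = #r₂.support) {x y : α} (hx1 : r₁ x = x) (hx2 : r₂ x ≠ x) (hy1 : r₁ y ≠ y)
    (hy2 : r₂ y = y) : ∃ b : Perm α, b * r₁ * b⁻¹ = r₂ ∧ b x = y ∧ b y = x := by
  obtain ⟨b₀, hb₀⟩ := isConj_iff.1 (invol_isConj h₁ h₂ hc)
  have hfix : r₂ (b₀ x) = b₀ x := by rw [← conj_apply hb₀, hx1]
  -- move `b₀ x` to `y` inside the fixed points of `r₂`
  have c1 : swap (b₀ x) y * r₂ * (swap (b₀ x) y)⁻¹ = r₂ := by
    have := Equiv.swap_apply_apply r₂ (b₀ x) y
    rw [hfix, hy2] at this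
    have hcom : swap (b₀ x) y * r₂ = r₂ * swap (b₀ x) y := by
      calc _ = r₂ * swap (b₀ x) y * r₂⁻¹ * r₂ := by rw [← this]
        _ = _ := by group
    rw [hcom, mul_inv_cancel_right]
  set b₁ := swap (b₀ x) y * b₀ with hb₁
  have hb₁r : b₁ * r₁ * b₁⁻¹ = r₂ := by
    rw [hb₁, mul_inv_rev]
    calc _ = swap (b₀ x) y * (b₀ * r₁ * b₀⁻¹) * (swap (b₀ x) y)⁻¹ := by group
      _ = r₂ := by rw [hb₀, c1]
  have hb₁x : b₁ x = y := by rw [hb₁, Perm.mul_apply, swap_apply_left]
  set u := b₁ y with hu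
  have hu2 : r₂ u ≠ u := by
    rw [hu, ← conj_apply hb₁r]
    exact fun e => hy1 (b₁.injective e)
  -- a permutation commuting with `r₂`, fixing `y` and sending `u` to `x`
  have huy : u ≠ y := fun e => hu2 (by rw [e, hy2])
  have hxy : x ≠ y := fun e => hx2 (by rw [e, hy2])
  have main : ∀ c : Perm α, c * r₂ * c⁻¹ = r₂ → c y = y → c u = x →
      ∃ b : Perm α, b * r₁ * b⁻¹ = r₂ ∧ b x = y ∧ b y = x := fun c hc' hy hcu =>
    ⟨c * b₁, by
      calc c * b₁ * r₁ * (c * b₁)⁻¹ = c * (b₁ * r₁ * b₁⁻¹) * c⁻¹ := by group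
        _ = r₂ := by rw [hb₁r, hc'],
      by rw [Perm.mul_apply, hb₁x, hy], by rw [Perm.mul_apply, ← hu, hcu]⟩
  have conjswap : ∀ p q, swap (r₂ p) (r₂ q) = r₂ * swap p q * r₂ := fun p q => by
    conv_rhs => arg 2; rw [← inv_eq_of_mul_eq_one_right h₂]
    exact Equiv.swap_apply_apply r₂ p q
  by_cases h1 : u = x
  · exact main 1 (by simp) (by simp) (by simp [h1])
  by_cases h3 : u = r₂ x
  · refine main (swap x (r₂ x)) ?_ ?_ ?_
    · have e := conjswap x (r₂ x)
      rw [invol_apply h₂, swap_comm] at e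
      rw [swap_inv]
      calc swap x (r₂ x) * r₂ * swap x (r₂ x)
          = swap x (r₂ x) * r₂ * (r₂ * swap x (r₂ x) * r₂) := by rw [← e]
        _ = swap x (r₂ x) * (r₂ * r₂) * swap x (r₂ x) * r₂ := by group
        _ = r₂ := by rw [h₂, mul_one, swap_mul_self, one_mul]
    · rw [swap_apply_of_ne_of_ne hxy.symm (fun e => hxy (r₂.injective (e.symm.trans hy2.symm)))]
    · rw [h3, swap_apply_right]
  · have hv1 : r₂ u ≠ x := fun e => h3 (by rw [← e, invol_apply h₂])
    have hv2 : r₂ u ≠ r₂ x := fun e => h1 (r₂.injective e)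
    have hv3 : y ≠ r₂ u := fun e => huy (r₂.injective (e.symm.trans hy2.symm))
    have hv4 : y ≠ r₂ x := fun e => hxy (r₂.injective (e.symm.trans hy2.symm))
    refine main (swap u x * swap (r₂ u) (r₂ x)) ?_ ?_ ?_
    · have hcm : Commute (swap u x) (swap (r₂ u) (r₂ x)) := by
        refine (Perm.disjoint_iff_eq_or_eq.2 fun a => ?_).commute
        by_cases ha : a = u ∨ a = x
        · right
          rcases ha with rfl | rfl
          · exact swap_apply_of_ne_of_ne hu2.symm h3
          · exact swap_apply_of_ne_of_ne hv1.symm hx2.symm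
        · left
          rw [not_or] at ha
          exact swap_apply_of_ne_of_ne ha.1 ha.2
      rw [conjswap] at hcm
      rw [conjswap, mul_inv_eq_iff_eq_mul]
      calc swap u x * (r₂ * swap u x * r₂) * r₂ = swap u x * r₂ * swap u x * (r₂ * r₂) := by group
        _ = r₂ * r₂ * (swap u x * r₂ * swap u x) := by rw [h₂, mul_one, one_mul]
        _ = r₂ * (r₂ * swap u x * r₂ * swap u x) := by group
        _ = r₂ * (swap u x * (r₂ * swap u x * r₂)) := by rw [hcm.eq]
    · rw [Perm.mul_apply, swap_apply_of_ne_of_ne hv3 hv4, swap_apply_of_ne_of_ne huy.symm hxy.symm]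
    · rw [Perm.mul_apply, swap_apply_of_ne_of_ne hu2.symm h3, swap_apply_left]

/-- Two transposition pairs of a permutation. -/
def HasTwoPairs (a : Perm α) : Prop :=
  ∃ p q u v : α, p ≠ q ∧ p ≠ u ∧ p ≠ v ∧ q ≠ u ∧ q ≠ v ∧ u ≠ v ∧ a p = q ∧ a q = p ∧ a u = v ∧ a v = u

theorem exists_pairs {r : Perm α} (hr : r * r = 1) (T : Finset α) (hT : ∀ z ∈ T, r z ∈ T)
    (hc : #T + 4 ≤ #r.support) (a : Perm α) (ha : ∀ z, z ∉ T → r z ≠ z → a z = r z) :
    HasTwoPairs a := by
  have h1 : 0 < #(r.support \ T) := by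
    have := Finset.le_card_sdiff T r.support
    omega
  obtain ⟨p, hp⟩ := card_pos.1 h1
  rw [mem_sdiff, Perm.mem_support] at hp
  have h2 : 0 < #(r.support \ (T ∪ {p, r p})) := by
    have := Finset.le_card_sdiff (T ∪ {p, r p}) r.support
    have := Finset.card_union_le T {p, r p}
    have := Finset.card_le_two (a := p) (b := r p)
    omega
  obtain ⟨u, hu⟩ := card_pos.1 h2
  rw [mem_sdiff, Perm.mem_support, mem_union, mem_insert, mem_singleton, not_or, not_or] at hu
  have hq : r p ∉ T := fun h => hp.2 (by simpa [invol_apply hr] using hT _ h)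
  have hv : r u ∉ T := fun h => hu.2.1 (by simpa [invol_apply hr] using hT _ h)
  have hqq : r (r p) ≠ r p := fun h => hp.1 (r.injective h)
  have hvv : r (r u) ≠ r u := fun h => hu.1 (r.injective h)
  refine ⟨p, r p, u, r u, hp.1.symm, fun e => hu.2.2.1 e.symm, ?_, fun e => hu.2.2.2 e.symm, ?_,
    hu.1.symm, ha p hp.2 hp.1, by rw [ha _ hq hqq, invol_apply hr], ha u hu.2.1 hu.1,
    by rw [ha _ hv hvv, invol_apply hr]⟩
  · exact fun e => hu.2.2.2 (by rw [e, invol_apply hr])
  · exact fun e => hu.2.2.1 (r.injective e).symm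

theorem hasTwoPairs_swaps {p q u v : α} (h1 : p ≠ q) (h2 : p ≠ u) (h3 : p ≠ v) (h4 : q ≠ u)
    (h5 : q ≠ v) (h6 : u ≠ v) : HasTwoPairs (swap p q * swap u v) := by
  refine ⟨p, q, u, v, h1, h2, h3, h4, h5, h6, ?_, ?_, ?_, ?_⟩ <;>
    simp only [Perm.mul_apply, swap_apply_of_ne_of_ne h2 h3, swap_apply_of_ne_of_ne h4 h5,
      swap_apply_left, swap_apply_right, swap_apply_of_ne_of_ne h3.symm h5.symm,
      swap_apply_of_ne_of_ne h2.symm h4.symm]

theorem swaps_invol {p q u v : α} (h2 : p ≠ u) (h3 : p ≠ v) (h4 : q ≠ u) (h5 : q ≠ v) :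
    swap p q * swap u v * (swap p q * swap u v) = 1 := by
  have hcm : Commute (swap p q) (swap u v) := by
    refine (Perm.disjoint_iff_eq_or_eq.2 fun a => ?_).commute
    by_cases ha : a = p ∨ a = q
    · right
      rcases ha with rfl | rfl
      · exact swap_apply_of_ne_of_ne h2 h3
      · exact swap_apply_of_ne_of_ne h4 h5
    · left
      rw [not_or] at ha
      exact swap_apply_of_ne_of_ne ha.1 ha.2
  rw [hcm.symm.mul_mul_mul_comm, swap_mul_self, swap_mul_self, one_mul]

theorem swaps_card {p q u v : α} (h1 : p ≠ q) (h2 : p ≠ u) (h3 : p ≠ v) (h4 : q ≠ u)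
    (h5 : q ≠ v) (h6 : u ≠ v) : #(swap p q * swap u v).support = 4 := by
  rw [Perm.Disjoint.card_support_mul, Perm.card_support_swap h1, Perm.card_support_swap h6]
  refine Perm.disjoint_iff_disjoint_support.2 ?_
  rw [Perm.support_swap h1, Perm.support_swap h6]
  simp [h2.symm, h3.symm, h4.symm, h5.symm]

/-- The decomposition. -/
theorem exists_decomp {g : Perm α} (hg : Perm.sign g = 1) (hg1 : g ≠ 1)
    (hn : 5 ≤ Fintype.card α) :
    ∃ a a' : Perm α, a * a' = g ∧ Perm.sign a = 1 ∧ IsConj a⁻¹ a' ∧ HasTwoPairs a := by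
  obtain ⟨r, hR, hD, hT⟩ := (good g).1 hg
  have hcard : #r.support = #(r * g).support := by unfold D at hD; omega
  have hprod : r * (r * g) = g := by rw [← mul_assoc, hR.invol, one_mul]
  have hrinv : r⁻¹ = r := inv_eq_of_mul_eq_one_right hR.invol
  rcases Nat.even_or_odd (Multiset.card r.cycleType) with he | ho
  · refine ⟨r, r * g, hprod, by rw [invol_sign hR.invol, he.neg_one_pow],
      by rw [hrinv]; exact invol_isConj hR.invol hR.invol' hcard, ?_⟩
    refine exists_pairs hR.invol ∅ (by simp) ?_ r (fun _ _ _ => rfl)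
    have hne : #r.support ≠ 0 := fun h => by
      rw [h, eq_comm, card_eq_zero, Perm.support_eq_empty_iff] at hcard
      rw [card_eq_zero, Perm.support_eq_empty_iff] at h
      exact hg1 (by rw [← hprod, hcard, h, one_mul])
    have := invol_card hR.invol
    obtain ⟨l, hl⟩ := he
    simp only [card_empty]
    omega
  · obtain ⟨x₁, hx₁, hor⟩ := hT hg1
    -- a fixed point of one involution moved by the other
    have hne : r.support ≠ (r * g).support := by
      intro e
      rcases hor with h | h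
      · have : r x₁ = x₁ ∧ (r * g) x₁ = x₁ := ⟨h, Perm.notMem_support.1
          (by rw [← e]; exact Perm.notMem_support.2 h)⟩
        exact hx₁ (by rw [← hprod, Perm.mul_apply, this.2, this.1])
      · have h' : r x₁ = x₁ := Perm.notMem_support.1
          (by rw [e]; exact Perm.notMem_support.2 h)
        exact hx₁ (by rw [← hprod, Perm.mul_apply, show (r * g) x₁ = x₁ from h, h'])
    obtain ⟨y, hy⟩ : (r.support \ (r * g).support).Nonempty := by
      rw [sdiff_nonempty]
      exact fun h => hne (eq_of_subset_of_card_le h hcard.ge)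
    obtain ⟨x, hx⟩ : ((r * g).support \ r.support).Nonempty := by
      rw [sdiff_nonempty]
      exact fun h => hne (eq_of_subset_of_card_le h hcard.le).symm
    rw [mem_sdiff, Perm.mem_support, Perm.notMem_support] at hx hy
    have hxy : x ≠ y := fun e => hy.1 (e ▸ hx.2)
    by_cases h3 : 3 ≤ Multiset.card r.cycleType
    · obtain ⟨b, hb, hbx, hby⟩ :=
        exists_swap_conj hR.invol hR.invol' hcard hx.2 hx.1 hy.1 hy.2
      refine ⟨r * swap x y, swap x y * (r * g), ?_, ?_, ?_, ?_⟩
      · rw [mul_assoc, ← mul_assoc (swap x y), swap_mul_self, one_mul, hprod]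
      · rw [map_mul, invol_sign hR.invol, ho.neg_one_pow, Perm.sign_swap hxy]; decide
      · refine isConj_iff.2 ⟨b, ?_⟩
        rw [mul_inv_rev, swap_inv, hrinv]
        calc b * (swap x y * r) * b⁻¹ = b * swap x y * b⁻¹ * (b * r * b⁻¹) := by group
          _ = _ := by rw [hb, ← Equiv.swap_apply_apply, hbx, hby, swap_comm]
      · refine exists_pairs hR.invol {y, r y} ?_ ?_ _ ?_
        · simp [invol_apply hR.invol]
        · have := Finset.card_le_two (a := y) (b := r y)
          have := invol_card hR.invol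
          obtain ⟨l, hl⟩ := ho
          omega
        · intro z hz hzr
          rw [mem_insert, mem_singleton, not_or] at hz
          rw [Perm.mul_apply, swap_apply_of_ne_of_ne (fun e => hzr (by rw [e, hx.2])) hz.1]
    · -- both involutions are transpositions
      have ht : Multiset.card r.cycleType = 1 := by obtain ⟨l, hl⟩ := ho; omega
      have hs1 := invol_card hR.invol
      have hs2 : #(r * g).support = 2 := by omega
      have hs1' : #r.support = 2 := by omega
      obtain ⟨p', q', hpq', hr⟩ := Perm.card_support_eq_two.1 hs1'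
      obtain ⟨p'', q'', hpq'', hrg⟩ := Perm.card_support_eq_two.1 hs2
      have hr' : r = swap y (r y) := by
        have hyv := hy.1
        rw [hr] at hyv ⊢
        by_cases e1 : y = p'
        · rw [e1, swap_apply_left]
        · by_cases e2 : y = q'
          · rw [e2, swap_apply_right, swap_comm]
          · exact absurd (swap_apply_of_ne_of_ne e1 e2) hyv
      have hrg' : r * g = swap x ((r * g) x) := by
        have hxv := hx.1
        rw [hrg] at hxv ⊢
        by_cases e1 : x = p''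
        · rw [e1, swap_apply_left]
        · by_cases e2 : x = q''
          · rw [e2, swap_apply_right, swap_comm]
          · exact absurd (swap_apply_of_ne_of_ne e1 e2) hxv
      set p := r y with hp
      set q := (r * g) x with hq
      have hpy : y ≠ p := fun e => hy.1 e.symm
      have hqx : x ≠ q := fun e => hx.1 e.symm
      have hpx : p ≠ x := fun e => hxy (r.injective (e.trans hx.2.symm)).symm
      have hqy : q ≠ y := fun e => hxy ((r * g).injective (e.trans hy.2.symm))
      have hgg : g = swap y p * swap x q := by rw [← hr', ← hrg', hprod]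
      by_cases hpq : p = q
      · obtain ⟨d, hd, e, he, hde⟩ : ∃ d ∈ (univ : Finset α) \ {x, y, p},
            ∃ e ∈ (univ : Finset α) \ {x, y, p}, d ≠ e := by
          apply one_lt_card.1
          have := Finset.le_card_sdiff ({x, y, p} : Finset α) univ
          have := Finset.card_le_three (a := x) (b := y) (c := p)
          rw [card_univ] at *
          omega
        simp only [mem_sdiff, mem_univ, true_and, mem_insert, mem_singleton, not_or] at hd he
        refine ⟨swap y p * swap d e, swap d e * swap x p, ?_, ?_, ?_, ?_⟩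
        · rw [mul_assoc, ← mul_assoc (swap d e), swap_mul_self, one_mul, hgg, hpq]
        · rw [map_mul, Perm.sign_swap hpy, Perm.sign_swap hde]; decide
        · rw [mul_inv_rev, swap_inv, swap_inv]
          refine invol_isConj (swaps_invol hd.2.1 hd.2.2 he.2.1 he.2.2)
            (swaps_invol hd.1 hd.2.2 he.1 he.2.2) ?_
          rw [swaps_card hde hd.2.1 hd.2.2 he.2.1 he.2.2 hpy,
            swaps_card hde hd.1 hd.2.2 he.1 he.2.2 hpx.symm]
        · exact hasTwoPairs_swaps hpy (fun h => hd.2.1 h.symm) (fun h => he.2.1 h.symm)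
            (fun h => hd.2.2 h.symm) (fun h => he.2.2 h.symm) hde
      · -- `g` is a double transposition
        refine ⟨swap y x * swap p q, swap y q * swap p x, ?_, ?_, ?_, ?_⟩
        · rw [hgg]
          ext z
          rcases eq_or_ne z y with rfl | hzy
          · simp [Perm.mul_apply, swap_apply_of_ne_of_ne, hpy, hqx, hpx, hqy, hxy, hpq, hpy.symm, hqx.symm,
              hpx.symm, hqy.symm, hxy.symm, Ne.symm hpq]
          rcases eq_or_ne z x with rfl | hzx
          · simp [Perm.mul_apply, swap_apply_of_ne_of_ne, hpy, hqx, hpx, hqy, hxy, hpq, hpy.symm, hqx.symm,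
              hpx.symm, hqy.symm, hxy.symm, Ne.symm hpq]
          rcases eq_or_ne z p with rfl | hzp
          · simp [Perm.mul_apply, swap_apply_of_ne_of_ne, hpy, hqx, hpx, hqy, hxy, hpq, hpy.symm, hqx.symm,
              hpx.symm, hqy.symm, hxy.symm, Ne.symm hpq]
          rcases eq_or_ne z q with rfl | hzq
          · simp [Perm.mul_apply, swap_apply_of_ne_of_ne, hpy, hqx, hpx, hqy, hxy, hpq, hpy.symm, hqx.symm,
              hpx.symm, hqy.symm, hxy.symm, Ne.symm hpq]
          simp [Perm.mul_apply, swap_apply_of_ne_of_ne hzy hzx, swap_apply_of_ne_of_ne hzy hzp,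
            swap_apply_of_ne_of_ne hzy hzq, swap_apply_of_ne_of_ne hzp hzq, swap_apply_of_ne_of_ne hzp hzx,
            swap_apply_of_ne_of_ne hzx hzq]
        · rw [map_mul, Perm.sign_swap hxy.symm, Perm.sign_swap hpq]; decide
        · rw [mul_inv_rev, swap_inv, swap_inv]
          refine invol_isConj (swaps_invol hpy.symm hpx hqy (fun e => hqx e.symm))
            (swaps_invol hpy (fun e => hxy e.symm) (fun e => hpq e.symm) (fun e => hqx e.symm)) ?_
          rw [swaps_card hpq hpy.symm hpx hqy hqx.symm hxy.symm,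
            swaps_card hqy.symm hpy hxy.symm (Ne.symm hpq) hqx.symm hpx]
        · exact hasTwoPairs_swaps hxy.symm hpy hqy.symm hpx.symm hqx hpq

end Cfsg.Agent.H45.PermInvol
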