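import Cfsg.Agent.H17.AltStemBound
import Cfsg.Agent.H45.PermTwoInvolutions

/-!
The perfect double cover of an alternating group: lifts of double transpositions have order four,
lifts of two such generating a four-group anticommute, and every element is a commutator.
-/

set_option autoImplicit false
set_option linter.unusedSectionVars false
set_option linter.unusedSimpArgs false

namespace Cfsg.Agent.H45.AltCover

open Equiv Cfsg.Agent.H45.PermInvol

variable {G : Type*} [Group G] [Finite G] {n : ℕ} {σ : G →* alternatingGroup (Fin n)}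

/-- The setting. -/
structure Setting (σ : G →* alternatingGroup (Fin n)) (z : G) : Prop where
  n5 : 5 ≤ n
  stem : Cfsg.IsStemExtension σ
  z_ne : z ≠ 1
  z_mem : z ∈ σ.ker
  two : ∀ u ∈ σ.ker, u = 1 ∨ u = z

namespace Setting

variable {z : G} (h : Setting σ z)
include h

theorem z_comm (g : G) : Commute g z := Subgroup.mem_center_iff.1 (h.stem.2.1 h.z_mem) g

theorem z_sq : z * z = 1 :=
  (h.two _ (mul_mem h.z_mem h.z_mem)).resolve_right fun e => h.z_ne (mul_eq_left.1 e)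

theorem comm {u : G} (hu : u ∈ σ.ker) (g : G) : Commute g u :=
  Subgroup.mem_center_iff.1 (h.stem.2.1 hu) g

theorem sq_of_mem {u : G} (hu : u ∈ σ.ker) : u * u = 1 := by
  rcases h.two u hu with rfl | rfl
  · rw [one_mul]
  · exact h.z_sq

theorem exists_lift (π : Perm (Fin n)) (hπ : Perm.sign π = 1) :
    ∃ x : G, (σ x : Perm (Fin n)) = π := by
  obtain ⟨x, hx⟩ := h.stem.1 ⟨π, Perm.mem_alternatingGroup.2 hπ⟩
  exact ⟨x, by rw [hx]⟩

theorem diff {x y : G} (e : (σ x : Perm (Fin n)) = σ y) : ∃ u ∈ σ.ker, y = x * u :=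
  ⟨x⁻¹ * y, by rw [MonoidHom.mem_ker, map_mul, map_inv, Subtype.ext e, inv_mul_cancel], by group⟩

omit [Finite G] h in
theorem mem_ker_of {x : G} (e : (σ x : Perm (Fin n)) = 1) : x ∈ σ.ker :=
  MonoidHom.mem_ker.2 (Subtype.ext e)

theorem sq_mul_ker {u : G} (hu : u ∈ σ.ker) (x : G) : x * u * (x * u) = x * x := by
  calc x * u * (x * u) = x * (u * x) * u := by group
    _ = x * x * (u * u) := by rw [← (h.comm hu x).eq]; group
    _ = x * x := by rw [h.sq_of_mem hu, mul_one]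

theorem exists_cube_lift (x : G) (hx : (σ x : Perm (Fin n)) ^ 3 = 1) :
    ∃ y : G, σ y = σ x ∧ y ^ 3 = 1 := by
  have hk : x ^ 3 ∈ σ.ker := mem_ker_of (by rw [map_pow, Subgroup.coe_pow, hx])
  rcases h.two _ hk with e | e
  · exact ⟨x, rfl, e⟩
  · refine ⟨x * z, by rw [map_mul, MonoidHom.mem_ker.1 h.z_mem, mul_one], ?_⟩
    rw [(h.z_comm x).mul_pow, e, pow_succ z 2, pow_two, h.z_sq, one_mul, h.z_sq]

/-- Some lift of a double transposition has square `z`. -/
theorem exists_sq : ∃ p q u v : Fin n, ∃ x : G, p ≠ q ∧ p ≠ u ∧ p ≠ v ∧ q ≠ u ∧ q ≠ v ∧ u ≠ v ∧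
    (σ x : Perm (Fin n)) = swap p q * swap u v ∧ x * x = z := by
  by_contra hcon
  obtain ⟨k, rfl⟩ : ∃ k, n = k + 2 := ⟨n - 2, by have := h.n5; omega⟩
  have hroot : ∀ i : Fin k, ∃ y : G, σ y = H62.tauA k i ∧ y ^ 3 = 1 := fun i => by
    obtain ⟨x, hx⟩ := h.stem.1 (H62.tauA k i)
    obtain ⟨y, hy, hy3⟩ := h.exists_cube_lift x (by
      rw [hx, ← Subgroup.coe_pow, (H62.tau_relations k).1 i, Subgroup.coe_one])
    exact ⟨y, hy.trans hx, hy3⟩
  choose x hx hx3 using hroot
  have hle : σ.ker ≤ ⊥ := by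
    refine H17.AltStemBound.ker_le h.stem hx ⊥ bot_le (fun i => by rw [hx3]; exact one_mem _)
      fun i j hij => ?_
    obtain ⟨b0, b1⟩ := H62.basePt_ne k i
    obtain ⟨c0, c1⟩ := H62.basePt_ne k j
    have hne : H62.basePt k i ≠ H62.basePt k j :=
      fun e => hij (H17.AltStemBound.basePt_inj e)
    have e : H62.cyc3 0 1 (H62.basePt k i) * H62.cyc3 0 1 (H62.basePt k j) =
        swap 0 (H62.basePt k i) * swap 1 (H62.basePt k j) := by
      have h' := Equiv.swap_apply_apply (swap (0 : Fin (k + 2)) 1) 0 (H62.basePt k j)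
      rw [Equiv.swap_inv, Equiv.swap_apply_left,
        Equiv.swap_apply_of_ne_of_ne c0.symm c1.symm] at h'
      rw [h']
      simp only [H62.cyc3, mul_assoc]
    have hσ : (σ (x i * x j) : Perm (Fin (k + 2))) =
        swap 0 (H62.basePt k i) * swap 1 (H62.basePt k j) := by
      rw [map_mul, hx, hx, Subgroup.coe_mul, ← e]; rfl
    have hker : x i * x j * (x i * x j) ∈ σ.ker := mem_ker_of (by
      rw [map_mul, Subgroup.coe_mul, hσ]
      exact swaps_invol (H62.zero_ne_one' k) c0 b1.symm hne)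
    rcases h.two _ hker with e1 | e1
    · rw [Subgroup.mem_bot, pow_two, e1]
    · exact absurd ⟨0, H62.basePt k i, 1, H62.basePt k j, x i * x j, b0, H62.zero_ne_one' k, c0,
        b1.symm, hne, c1, hσ, e1⟩ hcon
  exact h.z_ne (Subgroup.mem_bot.1 (hle h.z_mem))

/-- Every lift of a double transposition has square `z`. -/
theorem sq_eq {p q u v : Fin n} (h1 : p ≠ q) (h2 : p ≠ u) (h3 : p ≠ v) (h4 : q ≠ u) (h5 : q ≠ v)
    (h6 : u ≠ v) {x : G} (hx : (σ x : Perm (Fin n)) = swap p q * swap u v) : x * x = z := by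
  obtain ⟨p', q', u', v', y, g1, g2, g3, g4, g5, g6, hy, hyy⟩ := h.exists_sq
  obtain ⟨b₀, hb₀⟩ := isConj_iff.1 (invol_isConj (swaps_invol g2 g3 g4 g5)
    (swaps_invol h2 h3 h4 h5)
    (by rw [swaps_card g1 g2 g3 g4 g5 g6, swaps_card h1 h2 h3 h4 h5 h6]))
  obtain ⟨b, hbs, hb⟩ : ∃ b : Perm (Fin n), Perm.sign b = 1 ∧
      b * (swap p' q' * swap u' v') * b⁻¹ = swap p q * swap u v := by
    rcases Int.units_eq_one_or (Perm.sign b₀) with hs | hs
    · exact ⟨b₀, hs, hb₀⟩
    · refine ⟨b₀ * swap p' q', by rw [map_mul, hs, Perm.sign_swap g1]; decide, ?_⟩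
      have hc : swap p' q' * (swap p' q' * swap u' v') =
          (swap p' q' * swap u' v') * swap p' q' := by
        have e := Equiv.swap_apply_apply (swap p' q') u' v'
        rw [swap_apply_of_ne_of_ne g2.symm g4.symm, swap_apply_of_ne_of_ne g3.symm g5.symm] at e
        conv_rhs => rw [e]
        rw [swap_inv]
        simp [mul_assoc]
      rw [mul_inv_rev, swap_inv]
      calc b₀ * swap p' q' * (swap p' q' * swap u' v') * (swap p' q' * b₀⁻¹)
          = b₀ * (swap p' q' * (swap p' q' * swap u' v') * swap p' q') * b₀⁻¹ := by group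
        _ = _ := by rw [hc, mul_assoc _ (swap p' q') (swap p' q'), swap_mul_self, mul_one, hb₀]
  obtain ⟨g, hg⟩ := h.exists_lift b hbs
  obtain ⟨w, hw, hw'⟩ := h.diff (x := g * y * g⁻¹) (y := x)
    (by rw [map_mul, map_mul, map_inv]; push_cast; rw [hg, hy, hb, hx])
  rw [hw', h.sq_mul_ker hw]
  calc g * y * g⁻¹ * (g * y * g⁻¹) = g * (y * y) * g⁻¹ := by group
    _ = z := by rw [hyy, (h.z_comm g).eq, mul_inv_cancel_right]

/-- Lifts of two double transpositions generating a four-group anticommute. -/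
theorem anticomm {p q u v : Fin n} (h1 : p ≠ q) (h2 : p ≠ u) (h3 : p ≠ v) (h4 : q ≠ u) (h5 : q ≠ v)
    (h6 : u ≠ v) {d c : G} (hd : (σ d : Perm (Fin n)) = swap p q * swap u v)
    (hc : (σ c : Perm (Fin n)) = swap p u * swap q v) : d * c = c * d * z := by
  have hdd := h.sq_eq h1 h2 h3 h4 h5 h6 hd
  have hcc := h.sq_eq h2 h1 h3 h4.symm h6 h5 hc
  have hdc : d * c * (d * c) = z := by
    refine h.sq_eq h3 h1 h2 h5.symm h6.symm h4 ?_
    rw [map_mul, Subgroup.coe_mul, hd, hc]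
    ext a
    congr 1
    rcases eq_or_ne a p with rfl | hp
    · simp [Perm.mul_apply, swap_apply_of_ne_of_ne, h1, h2, h3, h1.symm, h2.symm, h3.symm, h4.symm,
        h5.symm, h6, h4, h5, h6.symm]
    rcases eq_or_ne a q with rfl | hq
    · simp [Perm.mul_apply, swap_apply_of_ne_of_ne, h1, h2, h3, h1.symm, h2.symm, h3.symm, h4.symm,
        h5.symm, h6, h4, h5, h6.symm]
    rcases eq_or_ne a u with rfl | hu
    · simp [Perm.mul_apply, swap_apply_of_ne_of_ne, h1, h2, h3, h1.symm, h2.symm, h3.symm, h4.symm,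
        h5.symm, h6, h4, h5, h6.symm]
    rcases eq_or_ne a v with rfl | hv
    · simp [Perm.mul_apply, swap_apply_of_ne_of_ne, h1, h2, h3, h1.symm, h2.symm, h3.symm, h4.symm,
        h5.symm, h6, h4, h5, h6.symm]
    simp [Perm.mul_apply, swap_apply_of_ne_of_ne hp hq, swap_apply_of_ne_of_ne hu hv,
      swap_apply_of_ne_of_ne hp hu, swap_apply_of_ne_of_ne hq hv, swap_apply_of_ne_of_ne hp hv,
      swap_apply_of_ne_of_ne hq hu]
  have hd' : d⁻¹ = d * z := inv_eq_of_mul_eq_one_right (by rw [← mul_assoc, hdd, h.z_sq])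
  have hc' : c⁻¹ = c * z := inv_eq_of_mul_eq_one_right (by rw [← mul_assoc, hcc, h.z_sq])
  calc d * c = d * c * (d * c) * (c⁻¹ * d⁻¹) := by group
    _ = z * (c * z * (d * z)) := by rw [hdc, hc', hd']
    _ = c * z * (d * z) * z := (h.z_comm _).eq.symm
    _ = c * (z * d) * (z * z) := by group
    _ = c * d * z := by rw [h.z_sq, mul_one, ← (h.z_comm d).eq, mul_assoc]

/-- Lifts of a three-cycle and of a permutation commuting with it commute. -/
theorem comm_threeCycle {y a : G} (hy : (σ y : Perm (Fin n)) ^ 3 = 1)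
    (hc : Commute (σ a : Perm (Fin n)) (σ y)) : Commute a y := by
  obtain ⟨w, hw, hw'⟩ : ∃ w ∈ σ.ker, a * y * a⁻¹ = y * w := h.diff (by
    rw [map_mul, map_mul, map_inv]; push_cast; rw [hc.eq, mul_inv_cancel_right])
  have hk : y ^ 3 ∈ σ.ker := mem_ker_of (by rw [map_pow, Subgroup.coe_pow, hy])
  have h1 : (a * y * a⁻¹) ^ 3 = y ^ 3 := by
    rw [conj_pow, (h.comm hk a).eq, mul_inv_cancel_right]
  rw [hw', (h.comm hw y).mul_pow, mul_eq_left] at h1
  have hw1 : w = 1 := by
    rw [pow_succ, pow_two, h.sq_of_mem hw, one_mul] at h1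
    exact h1
  rw [hw1, mul_one, mul_inv_eq_iff_eq_mul] at hw'
  exact hw'

theorem sign_of_lift (x : G) : Perm.sign (σ x : Perm (Fin n)) = 1 :=
  Perm.mem_alternatingGroup.1 (σ x).2

/-- A lift of a permutation with two transposition pairs anticommutes with some lift. -/
theorem exists_anticomm {a : G} {p q u v : Fin n} (h1 : p ≠ q) (h2 : p ≠ u) (h3 : p ≠ v)
    (h4 : q ≠ u) (h5 : q ≠ v) (h6 : u ≠ v) (ap : (σ a : Perm (Fin n)) p = q)
    (aq : (σ a : Perm (Fin n)) q = p) (au : (σ a : Perm (Fin n)) u = v)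
    (av : (σ a : Perm (Fin n)) v = u) : ∃ c, a * c = c * a * z := by
  obtain ⟨d, hd⟩ := h.exists_lift (swap p q * swap u v)
    (by rw [map_mul, Perm.sign_swap h1, Perm.sign_swap h6]; decide)
  obtain ⟨t₁, ht₁⟩ := h.exists_lift (swap p u * swap u q)
    (by rw [map_mul, Perm.sign_swap h2, Perm.sign_swap h4.symm]; decide)
  obtain ⟨t₂, ht₂⟩ := h.exists_lift (swap u q * swap q v)
    (by rw [map_mul, Perm.sign_swap h4.symm, Perm.sign_swap h5]; decide)
  have hc : (σ (t₁ * t₂) : Perm (Fin n)) = swap p u * swap q v := by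
    rw [map_mul, Subgroup.coe_mul, ht₁, ht₂, mul_assoc, ← mul_assoc (swap u q), swap_mul_self,
      one_mul]
  set a₀ := a * d⁻¹ with ha₀
  have hdi : (swap p q * swap u v)⁻¹ = swap p q * swap u v :=
    inv_eq_of_mul_eq_one_right (swaps_invol h2 h3 h4 h5)
  have hfix : ∀ w, (w = p ∨ w = q ∨ w = u ∨ w = v) → (σ a₀ : Perm (Fin n)) w = w := by
    intro w hw
    rw [ha₀, map_mul, map_inv, Subgroup.coe_mul, Subgroup.coe_inv, hd, hdi, Perm.mul_apply,
      Perm.mul_apply]
    rcases hw with rfl | rfl | rfl | rfl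
    · rw [swap_apply_of_ne_of_ne h2 h3, swap_apply_left, aq]
    · rw [swap_apply_of_ne_of_ne h4 h5, swap_apply_right, ap]
    · rw [swap_apply_left, swap_apply_of_ne_of_ne h3.symm h5.symm, av]
    · rw [swap_apply_right, swap_apply_of_ne_of_ne h2.symm h4.symm, au]
  have hsw : ∀ r s, (r = p ∨ r = q ∨ r = u ∨ r = v) → (s = p ∨ s = q ∨ s = u ∨ s = v) →
      Commute (σ a₀ : Perm (Fin n)) (swap r s) := fun r s hr hs => by
    have e := Equiv.swap_apply_apply (σ a₀ : Perm (Fin n)) r s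
    rw [hfix r hr, hfix s hs] at e
    show (σ a₀ : Perm (Fin n)) * swap r s = swap r s * (σ a₀ : Perm (Fin n))
    conv_rhs => rw [e, inv_mul_cancel_right]
  have three : ∀ {r s t : Fin n}, r ≠ s → r ≠ t → s ≠ t → (swap r s * swap s t) ^ 3 = 1 := by
    intro r s t hrs hrt hst
    have := Perm.isThreeCycle_swap_mul_swap_same (a := s) (b := r) (c := t) hrs.symm hst hrt
    rw [swap_comm r s, ← this.orderOf]
    exact pow_orderOf_eq_one _
  have c1 : Commute a₀ t₁ := h.comm_threeCycle (by rw [ht₁]; exact three h2 h1 h4.symm)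
    (by rw [ht₁]; exact (hsw p u (by simp) (by simp)).mul_right (hsw u q (by simp) (by simp)))
  have c2 : Commute a₀ t₂ := h.comm_threeCycle (by rw [ht₂]; exact three h4.symm h6 h5)
    (by rw [ht₂]; exact (hsw u q (by simp) (by simp)).mul_right (hsw q v (by simp) (by simp)))
  refine ⟨t₁ * t₂, ?_⟩
  have hanti := h.anticomm h1 h2 h3 h4 h5 h6 hd hc
  calc a * (t₁ * t₂) = a₀ * (d * (t₁ * t₂)) := by rw [ha₀]; group
    _ = a₀ * (t₁ * t₂ * d * z) := by rw [hanti]
    _ = a₀ * (t₁ * t₂) * d * z := by group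
    _ = t₁ * t₂ * a₀ * d * z := by rw [(c1.mul_right c2).eq]
    _ = t₁ * t₂ * a * z := by rw [ha₀]; group

/-- If `a` anticommutes with some `c`, both lifts of `[a, b]` are commutators. -/
theorem both_signs {a b c : G} (hac : a * c = c * a * z) :
    a * (b * c) * a⁻¹ * (b * c)⁻¹ = a * b * a⁻¹ * b⁻¹ * z := by
  have e : c * a⁻¹ = a⁻¹ * c * z := by
    calc c * a⁻¹ = a⁻¹ * (a * c) * a⁻¹ := by group
      _ = a⁻¹ * (c * a * z) * a⁻¹ := by rw [hac]
      _ = a⁻¹ * c * (a * z * a⁻¹) := by group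
      _ = a⁻¹ * c * z := by rw [(h.z_comm a).eq, mul_inv_cancel_right]
  calc a * (b * c) * a⁻¹ * (b * c)⁻¹ = a * b * (c * a⁻¹) * c⁻¹ * b⁻¹ := by group
    _ = a * b * (a⁻¹ * c * z) * c⁻¹ * b⁻¹ := by rw [e]
    _ = a * b * a⁻¹ * (c * z * c⁻¹) * b⁻¹ := by group
    _ = a * b * a⁻¹ * (z * b⁻¹) := by rw [(h.z_comm c).eq, mul_inv_cancel_right, mul_assoc]
    _ = _ := by rw [← (h.z_comm b⁻¹).eq]; group

/-- Every element is a commutator. -/
theorem isCommutator (g : G) : ∃ a b : G, a * b * a⁻¹ * b⁻¹ = g := by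
  by_cases hg : (σ g : Perm (Fin n)) = 1
  · rcases h.two g (mem_ker_of hg) with rfl | rfl
    · exact ⟨1, 1, by simp⟩
    · have hn := h.n5
      obtain ⟨d, hd⟩ := h.exists_lift (swap (⟨0, by omega⟩ : Fin n) ⟨1, by omega⟩ *
        swap (⟨2, by omega⟩ : Fin n) ⟨3, by omega⟩)
        (by rw [map_mul, Perm.sign_swap (by simp), Perm.sign_swap (by simp)]; decide)
      obtain ⟨c, hc⟩ := h.exists_anticomm (a := d) (p := (⟨0, by omega⟩ : Fin n))
        (q := ⟨1, by omega⟩) (u := ⟨2, by omega⟩) (v := ⟨3, by omega⟩) (by simp) (by simp)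
        (by simp) (by simp) (by simp) (by simp)
        (by rw [hd]; simp [Perm.mul_apply, swap_apply_of_ne_of_ne])
        (by rw [hd]; simp [Perm.mul_apply, swap_apply_of_ne_of_ne])
        (by rw [hd]; simp [Perm.mul_apply, swap_apply_of_ne_of_ne])
        (by rw [hd]; simp [Perm.mul_apply, swap_apply_of_ne_of_ne])
      refine ⟨d, 1 * c, ?_⟩
      rw [h.both_signs hc]
      simp
  · obtain ⟨a, a', he, hsa, hconj, p, q, u, v, h1, h2, h3, h4, h5, h6, ap, aq, au, av⟩ :=
      exists_decomp (h.sign_of_lift g) hg (by rw [Fintype.card_fin]; exact h.n5)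
    obtain ⟨b₀, hb₀⟩ := isConj_iff.1 hconj
    obtain ⟨b, hbs, hb⟩ : ∃ b : Perm (Fin n), Perm.sign b = 1 ∧ b * a⁻¹ * b⁻¹ = a' := by
      rcases Int.units_eq_one_or (Perm.sign b₀) with hs | hs
      · exact ⟨b₀, hs, hb₀⟩
      · refine ⟨b₀ * swap p q, by rw [map_mul, hs, Perm.sign_swap h1]; decide, ?_⟩
        have e := Equiv.swap_apply_apply a p q
        rw [ap, aq, swap_comm] at e
        have hcom : swap p q * a⁻¹ = a⁻¹ * swap p q := by
          conv_lhs => rw [e]
          conv_rhs => rw [e]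
          rw [show a * swap p q * a⁻¹ * a⁻¹ = a * swap p q * a⁻¹ * a⁻¹ from rfl]
          have e' : a⁻¹ * swap p q = swap p q * a⁻¹ := by
            conv_lhs => rw [e]
            group
          rw [← e]
          exact e'.symm
        rw [mul_inv_rev, swap_inv]
        calc b₀ * swap p q * a⁻¹ * (swap p q * b₀⁻¹)
            = b₀ * (swap p q * a⁻¹ * swap p q) * b₀⁻¹ := by group
          _ = a' := by rw [hcom, mul_assoc a⁻¹, swap_mul_self, mul_one, hb₀]
    obtain ⟨A, hA⟩ := h.exists_lift a hsa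
    obtain ⟨B, hB⟩ := h.exists_lift b hbs
    obtain ⟨c, hc⟩ := h.exists_anticomm (a := A) h1 h2 h3 h4 h5 h6 (by rw [hA, ap])
      (by rw [hA, aq]) (by rw [hA, au]) (by rw [hA, av])
    obtain ⟨w, hw, hw'⟩ := h.diff (x := A * B * A⁻¹ * B⁻¹) (y := g) (by
      rw [map_mul, map_mul, map_mul, map_inv, map_inv]
      push_cast
      rw [hA, hB, mul_assoc a, mul_assoc a, hb, he])
    rcases h.two w hw with rfl | rfl
    · exact ⟨A, B, by rw [hw', mul_one]⟩
    · exact ⟨A, B * c, by rw [hw', h.both_signs hc]⟩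

end Setting

end Cfsg.Agent.H45.AltCover
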