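import Cfsg.Agent.H24.MaxClass
import Cfsg.Agent.H22.TateComplement
import Cfsg.Agent.H19.MinimalNormal
import Cfsg.Agent.H19.Cores
import Cfsg.Agent.H37.MinimalNormal

/-!
# Sylow subgroups with derived subgroup of index `p²`
-/

set_option autoImplicit false

universe u

open scoped commutatorElement Pointwise

namespace Cfsg.Agent.H45.DerivedSq

variable {G : Type u} [Group G] [Finite G] {p : ℕ} [hp : Fact p.Prime]

/-- A subgroup supplementing the derived subgroup of a `p`-subgroup is the whole of it. -/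
theorem eq_of_sup_commutator {P X : Subgroup G} (hP : IsPGroup p P) (hX : X ≤ P)
    (h : X ⊔ ⁅P, P⁆ = P) : X = P := by
  have h1 : X.subgroupOf P ⊔ commutator P = ⊤ := by
    apply Subgroup.map_injective P.subtype_injective
    rw [Subgroup.map_sup, Subgroup.map_subgroupOf_eq_of_le hX, Subgroup.map_subtype_commutator, h,
      ← MonoidHom.range_eq_map, Subgroup.range_subtype]
  have h2 : X.subgroupOf P = ⊤ := by
    refine frattini_nongenerating ?_
    rw [eq_top_iff, ← h1]
    exact sup_le_sup_left (H24.commutator_le_frattini hP) _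
  exact le_antisymm hX (Subgroup.subgroupOf_eq_top.1 h2)

omit [Finite G] hp in
/-- The index of the derived subgroup is that of the commutator. -/
theorem relIndex_commutator_eq (P : Subgroup G) : ⁅P, P⁆.relIndex P = (commutator P).index := by
  rw [Subgroup.relIndex, ← Subgroup.map_subtype_commutator, Subgroup.subgroupOf,
    Subgroup.comap_map_eq_self_of_injective P.subtype_injective]

/-- If some `p`-element has centralizer with `p`-part `p²`, then `|P : P'| = p²`. -/
theorem relIndex_of_centralizer (hbig : p ^ 2 ∣ Nat.card G) (P : Sylow p G) {x : G}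
    (hx : ∃ k : ℕ, orderOf x = p ^ k)
    (h2 : (Nat.card (Subgroup.centralizer ({x} : Set G))).factorization p = 2) :
    ⁅(P : Subgroup G), (P : Subgroup G)⁆.relIndex (P : Subgroup G) = p ^ 2 := by
  set C := Subgroup.centralizer ({x} : Set G) with hC
  have hxC : x ∈ C := Subgroup.mem_centralizer_singleton_iff.2 rfl
  obtain ⟨k, hk⟩ := hx
  obtain ⟨R⟩ : Nonempty (Sylow p C) := inferInstance
  set R' : Subgroup G := (R : Subgroup C).map C.subtype with hR'
  have hR'p : IsPGroup p R' := R.2.map C.subtype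
  have hR'card : Nat.card R' = p ^ 2 := by
    rw [hR', Subgroup.card_subtype, Sylow.card_eq_multiplicity, h2]
  have hxR : x ∈ R' := by
    set X : Subgroup C := Subgroup.zpowers ⟨x, hxC⟩
    have hXn : X.Normal := by
      refine ⟨fun y hy c => ?_⟩
      obtain ⟨i, rfl⟩ := hy
      have hc : c * (⟨x, hxC⟩ : C) * c⁻¹ = ⟨x, hxC⟩ := by
        refine Subtype.ext ?_
        show (c : G) * x * (c : G)⁻¹ = x
        rw [Subgroup.mem_centralizer_singleton_iff.1 c.2, mul_inv_cancel_right]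
      exact ⟨i, by rw [← conj_zpow, hc]⟩
    have hXp : IsPGroup p X := IsPGroup.of_card (n := k) (by
      rw [Nat.card_zpowers, ← Subgroup.orderOf_coe]; exact hk)
    exact ⟨⟨x, hxC⟩, (H19.le_pCore hXn hXp).trans (H19.pCore_le_sylow R)
      (Subgroup.mem_zpowers _), rfl⟩
  obtain ⟨P1, hP1⟩ := hR'p.exists_le_sylow
  set A : Subgroup ↥(P1 : Subgroup G) := R'.subgroupOf (P1 : Subgroup G) with hA
  have hAcard : Nat.card A = p ^ 2 :=
    (Nat.card_congr (Subgroup.subgroupOfEquivOfLe hP1).toEquiv).trans hR'card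
  haveI := IsPGroup.isMulCommutative_of_card_eq_prime_sq hR'card
  have hcent : Subgroup.centralizer (A : Set ↥(P1 : Subgroup G)) = A := by
    refine le_antisymm (fun y hy => ?_) (fun y hy => Subgroup.mem_centralizer_iff.2 fun z hz =>
      Subtype.ext (show (z : G) * y = y * z from
        (congrArg Subtype.val (mul_comm' (⟨(z : G), hz⟩ : R') ⟨(y : G), hy⟩) :)))
    have hyx : (x : G) * y = y * x := congrArg Subtype.val
      (Subgroup.mem_centralizer_iff.1 hy ⟨x, hP1 hxR⟩ hxR)
    have hyC : (y : G) ∈ C := Subgroup.mem_centralizer_singleton_iff.2 hyx.symm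
    set S : Subgroup G := (P1 : Subgroup G) ⊓ C
    have hS : IsPGroup p (S.subgroupOf C) :=
      (P1.2.to_le inf_le_left).of_equiv (Subgroup.subgroupOfEquivOfLe inf_le_right).symm
    have hle : (R : Subgroup C) ≤ S.subgroupOf C := by
      intro z hz
      exact ⟨hP1 ⟨z, hz, rfl⟩, z.2⟩
    exact ⟨⟨y, hyC⟩, (R.is_maximal' hS hle).le ⟨y.2, hyC⟩, rfl⟩
  obtain ⟨a, ha⟩ := P1.2.exists_card_eq
  have h2a : 2 ≤ a := by
    have : p ^ 2 ∣ Nat.card (P1 : Subgroup G) := by
      rw [← hR'card]; exact Subgroup.card_dvd_of_le hP1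
    rw [ha] at this
    exact (Nat.pow_dvd_pow_iff_le_right hp.out.one_lt).1 this
  have hmax := (H24.index_commutator_of_max_class (P1 : Subgroup G) p a ha h2a
    (H24.class_eq_of_self_centralizing (P1 : Subgroup G) p a ha A hAcard hcent)).1
  rw [relIndex_commutator_eq]
  have e : ↥(P1 : Subgroup G) ≃* ↥(P : Subgroup G) := Sylow.equiv P1 P
  have hmap : (commutator ↥(P1 : Subgroup G)).map e.toMonoidHom = commutator ↥(P : Subgroup G) := by
    rw [_root_.commutator_def, Subgroup.map_commutator, ← MonoidHom.range_eq_map,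
      MonoidHom.range_eq_top.mpr e.surjective, _root_.commutator_def]
  rw [← hmap, Subgroup.index_map_of_bijective e.bijective, hmax]

/-- An element outside an abelian subgroup of index `p` that is cut out by a normal subgroup. -/
theorem exists_centralizer_of_trace (P : Sylow p G) (N : Subgroup G) [N.Normal]
    (hab : ∀ a ∈ N ⊓ (P : Subgroup G), ∀ c ∈ N ⊓ (P : Subgroup G), a * c = c * a)
    (hidx : (N ⊓ (P : Subgroup G)).relIndex (P : Subgroup G) = p)
    (hsq : ⁅(P : Subgroup G), (P : Subgroup G)⁆.relIndex (P : Subgroup G) = p ^ 2) :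
    ∃ x : G, (∃ k : ℕ, orderOf x = p ^ k) ∧
      (Nat.card (Subgroup.centralizer ({x} : Set G))).factorization p = 2 := by
  obtain ⟨b, hb, hbA⟩ : ∃ b ∈ (P : Subgroup G), b ∉ N := by
    by_contra hcon
    push Not at hcon
    rw [inf_eq_right.2 (fun x hx => hcon x hx), Subgroup.relIndex_self] at hidx
    exact hp.out.ne_one hidx.symm
  -- the count inside an arbitrary Sylow subgroup containing `b`
  have count : ∀ P1 : Sylow p G, b ∈ (P1 : Subgroup G) →
      Nat.card ↥((P1 : Subgroup G) ⊓ Subgroup.centralizer ({b} : Set G)) = p ^ 2 := by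
    intro P1 hb1
    obtain ⟨g, hg⟩ := MulAction.exists_smul_eq G P P1
    have hmem : ∀ y, y ∈ (P1 : Subgroup G) ↔ g⁻¹ * y * g ∈ (P : Subgroup G) := fun y => by
      rw [← hg, Sylow.coe_subgroup_smul, Subgroup.mem_pointwise_smul_iff_inv_smul_mem, ← map_inv,
        MulAut.smul_def, MulAut.conj_apply, inv_inv]
    set T : Subgroup G := (P1 : Subgroup G) with hT
    set A : Subgroup G := N ⊓ T with hA
    have hsmul : T = MulAut.conj g • (P : Subgroup G) := by
      rw [hT, ← hg, Sylow.coe_subgroup_smul]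
    have hAab : ∀ a ∈ A, ∀ c ∈ A, a * c = c * a := by
      intro a ha c hc
      have h := hab (g⁻¹ * a * g) ⟨by simpa using ‹N.Normal›.conj_mem a ha.1 g⁻¹, (hmem a).1 ha.2⟩
        (g⁻¹ * c * g) ⟨by simpa using ‹N.Normal›.conj_mem c hc.1 g⁻¹, (hmem c).1 hc.2⟩
      have h' : g⁻¹ * (a * c) * g = g⁻¹ * (c * a) * g := by
        calc g⁻¹ * (a * c) * g = g⁻¹ * a * g * (g⁻¹ * c * g) := by group
          _ = g⁻¹ * c * g * (g⁻¹ * a * g) := h
          _ = g⁻¹ * (c * a) * g := by group
      exact mul_left_cancel (mul_right_cancel h')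
    let φ : G ≃* G := MulAut.conj g
    have hPT : (P : Subgroup G).map φ.toMonoidHom = T := hsmul.symm
    have hNφ : N.map φ.toMonoidHom = N := Subgroup.Normal.map_conj_eq N g
    have hAidx : A.relIndex T = p := by
      rw [hA, ← hPT]
      conv_lhs => rw [← hNφ]
      rw [← Subgroup.map_inf _ _ _ φ.injective,
        Subgroup.relIndex_map_map_of_injective _ _ φ.injective, hidx]
    have hTsq : ⁅T, T⁆.relIndex T = p ^ 2 := by
      rw [← hPT, ← Subgroup.map_commutator,
        Subgroup.relIndex_map_map_of_injective _ _ φ.injective, hsq]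
    have hAT : A ≤ T := inf_le_right
    have hbn : ∀ a ∈ A, b * a * b⁻¹ ∈ A := fun a ha =>
      ⟨‹N.Normal›.conj_mem a ha.1 b, T.mul_mem (T.mul_mem hb1 ha.2) (T.inv_mem hb1)⟩
    have hTgen : ∀ y ∈ T, ∃ i : ℕ, ∃ a ∈ A, y = b ^ i * a := by
      intro y hy
      haveI : (A.subgroupOf T).Normal := ⟨fun a ha c => Subgroup.mem_subgroupOf.2
        ⟨‹N.Normal›.conj_mem _ (Subgroup.mem_subgroupOf.1 ha).1 _, (c * a * c⁻¹).2⟩⟩
      have hcard : Nat.card (↥T ⧸ A.subgroupOf T) = p := by
        rw [← Subgroup.index_eq_card]; exact hAidx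
      have hbne : ((⟨b, hb1⟩ : T) : ↥T ⧸ A.subgroupOf T) ≠ 1 := fun h =>
        hbA ((Subgroup.mem_subgroupOf.1 ((QuotientGroup.eq_one_iff _).1 h)).1)
      obtain ⟨i, hi⟩ := mem_powers_iff_mem_zpowers.2
        (mem_zpowers_of_prime_card (g' := ((⟨y, hy⟩ : T) : ↥T ⧸ A.subgroupOf T)) hcard hbne)
      simp only [← QuotientGroup.mk_pow, QuotientGroup.eq, Subgroup.mem_subgroupOf,
        Subgroup.coe_mul, Subgroup.coe_inv, Subgroup.coe_pow] at hi
      exact ⟨i, _, hi, by group⟩
    let δ : ↥A →* ↥A := MonoidHom.mk' (fun a => a * ⟨b * (a : G)⁻¹ * b⁻¹, hbn _ (A.inv_mem a.2)⟩)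
      fun a c => Subtype.ext (by
        show (a : G) * c * (b * ((a : G) * c)⁻¹ * b⁻¹) =
          (a : G) * (b * (a : G)⁻¹ * b⁻¹) * ((c : G) * (b * (c : G)⁻¹ * b⁻¹))
        rw [show b * ((a : G) * c)⁻¹ * b⁻¹ = (b * (c : G)⁻¹ * b⁻¹) * (b * (a : G)⁻¹ * b⁻¹) by group]
        have e1 : ((a : G) * c) = c * a := hAab _ a.2 _ c.2
        have e2 := hAab _ (hbn _ (A.inv_mem c.2)) _ (hbn _ (A.inv_mem a.2))
        have e3 := hAab _ c.2 _ (hbn _ (A.inv_mem a.2))
        rw [e2, show (a : G) * c * (b * (a : G)⁻¹ * b⁻¹ * (b * (c : G)⁻¹ * b⁻¹)) =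
          (a : G) * (c * (b * (a : G)⁻¹ * b⁻¹)) * (b * (c : G)⁻¹ * b⁻¹) by group, e3]
        group)
    set D : Subgroup G := δ.range.map A.subtype with hD
    have hDA : D ≤ A := Subgroup.map_subtype_le _
    have hDb : ∀ d ∈ D, ∀ c ∈ T, c * d * c⁻¹ ∈ D := by
      have hbD : ∀ d ∈ D, ∀ i : ℕ, b ^ i * d * (b ^ i)⁻¹ ∈ D := by
        intro d hd i
        induction i with
        | zero => simpa using hd
        | succ i ih =>
          obtain ⟨_, ⟨a, rfl⟩, e⟩ := ih
          rw [pow_succ', show b * b ^ i * d * (b * b ^ i)⁻¹ = b * (b ^ i * d * (b ^ i)⁻¹) * b⁻¹ by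
            group, ← e]
          exact ⟨δ ⟨b * a * b⁻¹, hbn a a.2⟩, ⟨_, rfl⟩, by
            show b * a * b⁻¹ * (b * (b * a * b⁻¹)⁻¹ * b⁻¹) =
              b * ((a : G) * (b * (a : G)⁻¹ * b⁻¹)) * b⁻¹
            group⟩
      intro d hd c hc
      obtain ⟨i, a, ha, rfl⟩ := hTgen c hc
      rw [show b ^ i * a * d * (b ^ i * a)⁻¹ = b ^ i * (a * d * a⁻¹) * (b ^ i)⁻¹ by group,
        hAab a ha d (hDA hd), mul_inv_cancel_right]
      exact hbD d hd i
    have hTD : ⁅T, T⁆ ≤ D := by
      have hcm : ∀ a ∈ A, ⁅a, b⁆ ∈ D := fun a ha => ⟨δ ⟨a, ha⟩, ⟨_, rfl⟩, by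
        show a * (b * a⁻¹ * b⁻¹) = ⁅a, b⁆
        rw [commutatorElement_def]; group⟩
      haveI : (D.subgroupOf T).Normal := ⟨fun d hd c => Subgroup.mem_subgroupOf.2
        (hDb _ (Subgroup.mem_subgroupOf.1 hd) c c.2)⟩
      set π := QuotientGroup.mk' (D.subgroupOf T)
      set β : ↥T ⧸ D.subgroupOf T := π ⟨b, hb1⟩
      have hAβ : ∀ a : ↥T, (a : G) ∈ A → π a * β = β * π a := by
        intro a ha
        rw [← commutatorElement_eq_one_iff_mul_comm, ← map_commutatorElement]
        exact (QuotientGroup.eq_one_iff _).2 (Subgroup.mem_subgroupOf.2 (hcm a ha))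
      rw [Subgroup.commutator_le]
      intro u hu v hv
      obtain ⟨i, a, ha, rfl⟩ := hTgen u hu
      obtain ⟨j, c, hc, rfl⟩ := hTgen v hv
      set u' : ↥T := ⟨b, hb1⟩ ^ i * ⟨a, ha.2⟩
      set v' : ↥T := ⟨b, hb1⟩ ^ j * ⟨c, hc.2⟩
      have h1 : π u' * π v' = π v' * π u' := by
        have e1 : Commute (π ⟨a, ha.2⟩) (π ⟨c, hc.2⟩) := by
          rw [Commute, SemiconjBy, ← map_mul, ← map_mul,
            show (⟨a, ha.2⟩ : T) * ⟨c, hc.2⟩ = ⟨c, hc.2⟩ * ⟨a, ha.2⟩ from
              Subtype.ext (hAab a ha c hc)]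
        have e2 : Commute (π ⟨a, ha.2⟩) β := hAβ _ ha
        have e3 : Commute (π ⟨c, hc.2⟩) β := hAβ _ hc
        simp only [u', v', map_mul, map_pow]
        exact (((Commute.refl β).pow_pow i j).mul_left (e2.pow_right j)).mul_right
          ((e3.symm.pow_left i).mul_left e1)
      have h2 : ⁅u', v'⁆ ∈ D.subgroupOf T := by
        rw [← QuotientGroup.eq_one_iff]
        show π ⁅u', v'⁆ = 1
        rw [map_commutatorElement, commutatorElement_eq_one_iff_mul_comm]
        exact h1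
      simpa [u', v', Subgroup.mem_subgroupOf, commutatorElement_def] using h2
    have hDT : D ≤ ⁅T, T⁆ := by
      rintro _ ⟨_, ⟨a, rfl⟩, rfl⟩
      have : ⁅(a : G), b⁆ ∈ ⁅T, T⁆ := Subgroup.commutator_mem_commutator (hAT a.2) hb1
      show (a : G) * (b * (a : G)⁻¹ * b⁻¹) ∈ ⁅T, T⁆
      rw [show (a : G) * (b * (a : G)⁻¹ * b⁻¹) = ⁅(a : G), b⁆ by rw [commutatorElement_def]; group]
      exact this
    have hDeq : D = ⁅T, T⁆ := le_antisymm hDT hTD
    have hker : Nat.card δ.ker = p := by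
      have e1 := δ.ker.card_mul_index
      rw [Subgroup.index_ker] at e1
      have e2 : Nat.card D = Nat.card δ.range := Subgroup.card_subtype _ _
      have e3 : D.relIndex A = p := by
        have h := Subgroup.relIndex_mul_relIndex D A T hDA hAT
        rw [hAidx, hDeq, hTsq, pow_two] at h
        rw [hDeq]
        exact Nat.eq_of_mul_eq_mul_right hp.out.pos h
      have e4 := Subgroup.relIndex_mul_relIndex ⊥ D A bot_le hDA
      rw [Subgroup.relIndex_bot_left, Subgroup.relIndex_bot_left, e3, e2, ← e1, mul_comm] at e4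
      exact (Nat.eq_of_mul_eq_mul_right Nat.card_pos e4).symm
    set C := T ⊓ Subgroup.centralizer ({b} : Set G)
    have hCA : C ⊓ A = δ.ker.map A.subtype := by
      ext y
      constructor
      · rintro ⟨⟨-, hy⟩, hyA⟩
        refine ⟨⟨y, hyA⟩, ?_, rfl⟩
        refine Subtype.ext ?_
        show y * (b * y⁻¹ * b⁻¹) = 1
        rw [show y * (b * y⁻¹ * b⁻¹) = (y * b) * y⁻¹ * b⁻¹ by group,
          Subgroup.mem_centralizer_singleton_iff.1 hy]
        group
      · rintro ⟨a, ha, rfl⟩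
        refine ⟨⟨hAT a.2, Subgroup.mem_centralizer_singleton_iff.2 ?_⟩, a.2⟩
        have h : (a : G) * (b * (a : G)⁻¹ * b⁻¹) = 1 := congrArg Subtype.val ha
        calc (a : G) * b = (a : G) * (b * (a : G)⁻¹ * b⁻¹) * (b * a) := by group
          _ = b * a := by rw [h, one_mul]
    have hrel : A.relIndex C = p := by
      have hne : A.relIndex C ≠ 1 := fun h => hbA
        (Subgroup.relIndex_eq_one.1 h ⟨hb1, Subgroup.mem_centralizer_singleton_iff.2 rfl⟩).1
      have hd : A.relIndex C ∣ p := by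
        haveI : (A.subgroupOf T).Normal := ⟨fun a ha c => Subgroup.mem_subgroupOf.2
          ⟨‹N.Normal›.conj_mem _ (Subgroup.mem_subgroupOf.1 ha).1 _, (c * a * c⁻¹).2⟩⟩
        rw [← hAidx, ← Subgroup.relIndex_subgroupOf (inf_le_left : C ≤ T)]
        exact Subgroup.relIndex_dvd_index_of_normal _ _
      exact ((Nat.dvd_prime hp.out).1 hd).resolve_left hne
    have hcard := Subgroup.relIndex_mul_relIndex ⊥ (C ⊓ A) C bot_le inf_le_left
    rw [Subgroup.relIndex_bot_left, Subgroup.relIndex_bot_left, inf_comm,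
      Subgroup.inf_relIndex_right, hrel, inf_comm, hCA, Subgroup.card_subtype, hker] at hcard
    rw [← hcard, pow_two]
  obtain ⟨k, hk⟩ := P.2 ⟨b, hb⟩
  obtain ⟨l, -, hl⟩ := (Nat.dvd_prime_pow hp.out).1
    (orderOf_dvd_of_pow_eq_one (show b ^ p ^ k = 1 from congrArg Subtype.val hk))
  refine ⟨b, ⟨l, hl⟩, ?_⟩
  set C := Subgroup.centralizer ({b} : Set G) with hC
  have hbC : b ∈ C := Subgroup.mem_centralizer_singleton_iff.2 rfl
  obtain ⟨R⟩ : Nonempty (Sylow p C) := inferInstance
  set R' : Subgroup G := (R : Subgroup C).map C.subtype with hR'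
  have hbR : b ∈ R' := by
    set X : Subgroup C := Subgroup.zpowers ⟨b, hbC⟩
    have hXn : X.Normal := by
      refine ⟨fun y hy c => ?_⟩
      obtain ⟨i, rfl⟩ := hy
      have hc : c * (⟨b, hbC⟩ : C) * c⁻¹ = ⟨b, hbC⟩ := by
        refine Subtype.ext ?_
        show (c : G) * b * (c : G)⁻¹ = b
        rw [Subgroup.mem_centralizer_singleton_iff.1 c.2, mul_inv_cancel_right]
      exact ⟨i, by rw [← conj_zpow, hc]⟩
    have hXp : IsPGroup p X := IsPGroup.of_card (n := l) (by
      rw [Nat.card_zpowers, ← Subgroup.orderOf_coe]; exact hl)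
    exact ⟨⟨b, hbC⟩, (H19.le_pCore hXn hXp).trans (H19.pCore_le_sylow R)
      (Subgroup.mem_zpowers _), rfl⟩
  obtain ⟨P1, hP1⟩ := (R.2.map C.subtype).exists_le_sylow
  have hle : Nat.card R' ≤ p ^ 2 := by
    rw [← count P1 (hP1 hbR)]
    exact Nat.card_le_card_of_injective _
      (Subgroup.inclusion_injective (le_inf hP1 (Subgroup.map_subtype_le _)))
  have hge : p ^ 2 ∣ Nat.card C := by
    rw [← count P hb]; exact Subgroup.card_dvd_of_le inf_le_right
  rw [hR', Subgroup.card_subtype, Sylow.card_eq_multiplicity] at hle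
  exact le_antisymm ((Nat.pow_le_pow_iff_right hp.out.one_lt).1 hle)
    ((hp.out.pow_dvd_iff_le_factorization Nat.card_pos.ne').1 hge)

end Cfsg.Agent.H45.DerivedSq
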