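import Cfsg.Agent.H45.DerivedIndexSq

/-!
# An abelian trace of a minimal normal subgroup on a Sylow subgroup
-/

set_option autoImplicit false

universe u

open scoped commutatorElement Pointwise

namespace Cfsg.Agent.H45.DerivedSq

variable {G : Type u} [Group G] [Finite G] {p : ℕ} [hp : Fact p.Prime]

omit [Finite G] hp in
/-- A subgroup generated by an abelian-mod-`D` subgroup and one element has derived subgroup in
`D`. -/
theorem commutator_le_of_gen {T A D : Subgroup G} {b : G} (hb : b ∈ T) (hAT : A ≤ T)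
    (hgen : ∀ y ∈ T, ∃ i : ℕ, ∃ a ∈ A, y = b ^ i * a) (hD : ∀ d ∈ D, ∀ c ∈ T, c * d * c⁻¹ ∈ D)
    (h1 : ∀ a ∈ A, ∀ c ∈ A, ⁅a, c⁆ ∈ D) (h2 : ∀ a ∈ A, ⁅a, b⁆ ∈ D) : ⁅T, T⁆ ≤ D := by
  haveI : (D.subgroupOf T).Normal := ⟨fun d hd c => Subgroup.mem_subgroupOf.2
    (hD _ (Subgroup.mem_subgroupOf.1 hd) c c.2)⟩
  set π := QuotientGroup.mk' (D.subgroupOf T)
  set β : ↥T ⧸ D.subgroupOf T := π ⟨b, hb⟩
  have hcm : ∀ u v : ↥T, ⁅(u : G), (v : G)⁆ ∈ D → π u * π v = π v * π u := by
    intro u v huv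
    rw [← commutatorElement_eq_one_iff_mul_comm, ← map_commutatorElement]
    refine (QuotientGroup.eq_one_iff _).2 (Subgroup.mem_subgroupOf.2 ?_)
    simpa [commutatorElement_def] using huv
  rw [Subgroup.commutator_le]
  intro u hu v hv
  obtain ⟨i, a, ha, rfl⟩ := hgen u hu
  obtain ⟨j, c, hc, rfl⟩ := hgen v hv
  set u' : ↥T := ⟨b, hb⟩ ^ i * ⟨a, hAT ha⟩
  set v' : ↥T := ⟨b, hb⟩ ^ j * ⟨c, hAT hc⟩
  have h : π u' * π v' = π v' * π u' := by
    have e1 : Commute (π ⟨a, hAT ha⟩) (π ⟨c, hAT hc⟩) := hcm _ _ (h1 a ha c hc)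
    have e2 : Commute (π ⟨a, hAT ha⟩) β := hcm _ _ (h2 a ha)
    have e3 : Commute (π ⟨c, hAT hc⟩) β := hcm _ _ (h2 c hc)
    simp only [u', v', map_mul, map_pow]
    exact (((Commute.refl β).pow_pow i j).mul_left (e2.pow_right j)).mul_right
      ((e3.symm.pow_left i).mul_left e1)
  have h' : ⁅u', v'⁆ ∈ D.subgroupOf T := by
    rw [← QuotientGroup.eq_one_iff]
    show π ⁅u', v'⁆ = 1
    rw [map_commutatorElement, commutatorElement_eq_one_iff_mul_comm]
    exact h
  simpa [u', v', Subgroup.mem_subgroupOf, commutatorElement_def] using h'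

omit [Finite G] in
/-- An element outside a normal subgroup of index `p` generates the group with it. -/
theorem exists_pow_mul {T A : Subgroup G} (hAT : A ≤ T) (hn : ∀ a ∈ A, ∀ c ∈ T, c * a * c⁻¹ ∈ A)
    (hidx : A.relIndex T = p) {b : G} (hb : b ∈ T) (hbA : b ∉ A) :
    ∀ y ∈ T, ∃ i : ℕ, ∃ a ∈ A, y = b ^ i * a := by
  intro y hy
  haveI : (A.subgroupOf T).Normal := ⟨fun a ha c => Subgroup.mem_subgroupOf.2
    (hn _ (Subgroup.mem_subgroupOf.1 ha) c c.2)⟩
  have hcard : Nat.card (↥T ⧸ A.subgroupOf T) = p := by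
    rw [← Subgroup.index_eq_card]; exact hidx
  haveI : Finite (↥T ⧸ A.subgroupOf T) :=
    Nat.finite_of_card_ne_zero (hcard ▸ hp.out.ne_zero)
  have hbne : ((⟨b, hb⟩ : T) : ↥T ⧸ A.subgroupOf T) ≠ 1 := fun h =>
    hbA (Subgroup.mem_subgroupOf.1 ((QuotientGroup.eq_one_iff _).1 h))
  obtain ⟨i, hi⟩ := mem_powers_iff_mem_zpowers.2
    (mem_zpowers_of_prime_card (g' := ((⟨y, hy⟩ : T) : ↥T ⧸ A.subgroupOf T)) hcard hbne)
  simp only [← QuotientGroup.mk_pow, QuotientGroup.eq, Subgroup.mem_subgroupOf,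
    Subgroup.coe_mul, Subgroup.coe_inv, Subgroup.coe_pow] at hi
  exact ⟨i, _, hi, by group⟩

/-- The trace of a normal subgroup that is neither inside `P'` nor contains `P`. -/
theorem trace_spec (P : Sylow p G) (N : Subgroup G) [N.Normal]
    (hsq : ⁅(P : Subgroup G), (P : Subgroup G)⁆.relIndex (P : Subgroup G) = p ^ 2)
    (hnot : ¬ N ⊓ (P : Subgroup G) ≤ ⁅(P : Subgroup G), (P : Subgroup G)⁆)
    (hPN : ¬ (P : Subgroup G) ≤ N) :
    ⁅(P : Subgroup G), (P : Subgroup G)⁆ ≤ N ⊓ (P : Subgroup G) ∧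
      (N ⊓ (P : Subgroup G)).relIndex (P : Subgroup G) = p := by
  set T : Subgroup G := (P : Subgroup G) with hT
  set A := N ⊓ T with hA
  set T' : Subgroup G := ⁅T, T⁆ with hT'
  have hT'T : T' ≤ T := Subgroup.commutator_le_self T
  have hAT : A ≤ T := inf_le_right
  have hAn : ∀ a ∈ A, ∀ c ∈ T, c * a * c⁻¹ ∈ A := fun a ha c hc =>
    ⟨‹N.Normal›.conj_mem a ha.1 c, T.mul_mem (T.mul_mem hc ha.2) (T.inv_mem hc)⟩
  set B := A ⊔ T'
  have hBT : B ≤ T := sup_le hAT hT'T
  have h1 := Subgroup.relIndex_mul_relIndex T' B T le_sup_right hBT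
  rw [hsq] at h1
  have hne1 : T'.relIndex B ≠ 1 := fun h =>
    hnot (le_trans (le_sup_left : A ≤ B) (Subgroup.relIndex_eq_one.1 h))
  have hne2 : B.relIndex T ≠ 1 := fun h => hPN (fun y hy =>
    ((eq_of_sup_commutator P.2 hAT (le_antisymm hBT (Subgroup.relIndex_eq_one.1 h))).symm.le hy).1)
  obtain ⟨i, -, hi⟩ := (Nat.dvd_prime_pow hp.out).1 (Dvd.intro_left _ h1 : B.relIndex T ∣ p ^ 2)
  obtain ⟨j, -, hj⟩ := (Nat.dvd_prime_pow hp.out).1 (Dvd.intro _ h1 : T'.relIndex B ∣ p ^ 2)
  rw [hi, hj, ← pow_add] at h1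
  have hij := Nat.pow_right_injective hp.out.two_le h1
  have hi1 : i = 1 := by
    rcases Nat.eq_zero_or_pos i with rfl | h
    · exact absurd (by simpa using hi) hne2
    rcases Nat.eq_zero_or_pos j with rfl | h'
    · exact absurd (by simpa using hj) hne1
    omega
  have hidxB : B.relIndex T = p := by rw [hi, hi1, pow_one]
  obtain ⟨b, hb, hbB⟩ : ∃ b ∈ T, b ∉ B := by
    by_contra h
    push Not at h
    exact hne2 (Subgroup.relIndex_eq_one.2 h)
  have hBn : ∀ a ∈ B, ∀ c ∈ T, c * a * c⁻¹ ∈ B := fun a ha c hc => by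
    rw [show c * a * c⁻¹ = ⁅c, a⁆ * a by rw [commutatorElement_def]; group]
    exact B.mul_mem ((le_sup_right : T' ≤ B) (Subgroup.commutator_mem_commutator hc (hBT ha))) ha
  set X : Subgroup G := A ⊔ Subgroup.zpowers b
  have hXT : X ≤ T := sup_le hAT (Subgroup.zpowers_le.2 hb)
  have hgen := exists_pow_mul hBT hBn hidxB hb hbB
  have hXtop : X ⊔ T' = T := by
    refine le_antisymm (sup_le hXT hT'T) fun y hy => ?_
    obtain ⟨k, a, ha, rfl⟩ := hgen y hy
    exact mul_mem (Subgroup.mem_sup_left ((le_sup_right : Subgroup.zpowers b ≤ X)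
      (Subgroup.pow_mem _ (Subgroup.mem_zpowers b) k)))
      ((sup_le (le_sup_left.trans le_sup_left) le_sup_right : B ≤ X ⊔ T') ha)
  have hXe := eq_of_sup_commutator P.2 hXT hXtop
  have hgenA : ∀ y ∈ T, ∃ k : ℕ, ∃ a ∈ A, y = b ^ k * a := by
    intro y hy
    have hy' : y ∈ ((Subgroup.zpowers b ⊔ A : Subgroup G) : Set G) := by
      rw [sup_comm]
      exact hXe.symm.le hy
    rw [Subgroup.coe_mul_of_left_le_normalizer_right (Subgroup.zpowers b) A
      (Subgroup.zpowers_le.2 (Subgroup.mem_normalizer_iff.2 fun a => ⟨fun ha => hAn a ha b hb,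
        fun ha => by
          have := hAn _ ha b⁻¹ (T.inv_mem hb)
          rwa [show b⁻¹ * (b * a * b⁻¹) * b⁻¹⁻¹ = a by group] at this⟩))] at hy'
    obtain ⟨w, hw, a, ha, rfl⟩ := hy'
    obtain ⟨k, rfl⟩ := mem_powers_iff_mem_zpowers.2 hw
    exact ⟨k, a, ha, rfl⟩
  have hT'A : T' ≤ A := commutator_le_of_gen hb hAT hgenA hAn
    (fun a ha c hc => by
      rw [commutatorElement_def]
      exact A.mul_mem (A.mul_mem (A.mul_mem ha hc) (A.inv_mem ha)) (A.inv_mem hc))
    (fun a ha => by
      rw [commutatorElement_def, show a * b * a⁻¹ * b⁻¹ = a * (b * a⁻¹ * b⁻¹) by group]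
      exact A.mul_mem ha (hAn _ (A.inv_mem ha) b hb))
  exact ⟨hT'A, by rw [← sup_eq_left.2 hT'A]; exact hidxB⟩

omit hp in
/-- The index of the trace on a normal subgroup divides the index. -/
theorem relIndex_normal_dvd_index (T N : Subgroup G) [N.Normal] : T.relIndex N ∣ T.index := by
  have h1 := Subgroup.relIndex_mul_relIndex (N ⊓ T) T (N ⊔ T) inf_le_right le_sup_right
  have h2 := Subgroup.relIndex_mul_relIndex (N ⊓ T) N (N ⊔ T) inf_le_left le_sup_left
  rw [Subgroup.inf_relIndex_right] at h1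
  rw [Subgroup.inf_relIndex_left, sup_comm N T, Subgroup.relIndex_sup_right] at h2
  rw [sup_comm N T] at h1
  have hpos : 0 < N.relIndex T := Nat.pos_of_ne_zero Subgroup.index_ne_zero_of_finite
  have h3 : T.relIndex (T ⊔ N) = T.relIndex N :=
    Nat.eq_of_mul_eq_mul_left hpos ((h1.trans h2.symm).trans (mul_comm _ _))
  rw [← h3]
  exact Subgroup.relIndex_dvd_index_of_le le_sup_left

omit [Finite G] in
/-- A `p`-group whose abelianization has order at most `p` is abelian. -/
theorem comm_of_card_abelianization {S : Type*} [Group S] [Finite S] (hS : IsPGroup p S)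
    (h : Nat.card (Abelianization S) ≤ p) : IsMulCommutative S := by
  obtain ⟨k, hk⟩ := (hS.to_quotient (commutator S)).exists_card_eq
  have hk1 : k ≤ 1 := by
    have h' : Nat.card (S ⧸ commutator S) ≤ p := h
    rw [hk] at h'
    exact (Nat.pow_le_pow_iff_right hp.out.one_lt).1 (h'.trans_eq (pow_one p).symm)
  haveI := H24.isCyclic_of_card_pow_le hk hk1
  haveI := H24.isCyclic_of_quotient (commutator S) (H24.commutator_le_frattini hS)
  exact IsCyclic.isMulCommutative

/-- A minimal normal subgroup whose trace on `P` is abelian of index `p`. -/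
theorem exists_trace (hcore : Cfsg.pPrimeCore p G = ⊥) (P : Sylow p G)
    (hna : ¬ IsMulCommutative (P : Subgroup G))
    (hcore' : (⁅(P : Subgroup G), (P : Subgroup G)⁆).normalCore = ⊥)
    (hnas : ¬ ∃ S : Subgroup G, S.Normal ∧ IsSimpleGroup S ∧ ¬ IsMulCommutative S ∧
      Subgroup.centralizer (S : Set G) = ⊥)
    (hsq : ⁅(P : Subgroup G), (P : Subgroup G)⁆.relIndex (P : Subgroup G) = p ^ 2) :
    ∃ N : Subgroup G, N.Normal ∧
      (∀ a ∈ N ⊓ (P : Subgroup G), ∀ c ∈ N ⊓ (P : Subgroup G), a * c = c * a) ∧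
      (N ⊓ (P : Subgroup G)).relIndex (P : Subgroup G) = p := by
  classical
  set T : Subgroup G := (P : Subgroup G) with hT
  set T' : Subgroup G := ⁅T, T⁆ with hT'
  obtain ⟨x, hx, hx1⟩ : ∃ x ∈ T', x ≠ 1 := by
    by_contra h
    push Not at h
    exact hna ⟨⟨fun a b => Subtype.ext (commutatorElement_eq_one_iff_mul_comm.1
      (h _ (Subgroup.commutator_mem_commutator a.2 b.2)))⟩⟩
  have htop : (⊤ : Subgroup G) ≠ ⊥ := fun h => hx1 (Subgroup.mem_bot.1 (h ▸ Subgroup.mem_top x))
  haveI := H19.pPrimeCore_normal p G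
  haveI := H19.pCore_normal p G
  -- the trace of a minimal normal subgroup is not inside `T'`
  have trace : ∀ N : Subgroup G, N.Normal → N ≠ ⊥ →
      (∀ L : Subgroup G, L.Normal → L ≤ N → L = ⊥ ∨ L = N) → ¬ N ⊓ T ≤ T' := by
    intro N hN hN1 hmin hle
    haveI := hN
    have hfr : N ⊓ T ≤ (frattini T).map T.subtype :=
      hle.trans (by rw [hT', ← Subgroup.map_subtype_commutator]
                    exact Subgroup.map_mono (H24.commutator_le_frattini P.2))
    obtain ⟨S, K, hK, hKS⟩ := H22.hasNormalPComplement_of_inf_le_frattini P N hfr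
    have hcop : (Nat.card K).Coprime p := by
      rw [← hKS.index_eq_card]
      exact ((Nat.Prime.coprime_iff_not_dvd hp.out).2 S.not_dvd_index).symm
    have hK1 : K = ⊥ := by
      rw [eq_bot_iff]
      intro y hy
      have h1 : (y : G) ∈ Cfsg.pPrimeCore p G :=
        H19.map_pPrimeCore_le N ⟨y, H19.le_pPrimeCore hK hcop hy, rfl⟩
      rw [hcore, Subgroup.mem_bot] at h1
      exact Subgroup.mem_bot.2 (Subtype.ext h1)
    subst hK1
    have hStop : (S : Subgroup N) = ⊤ := Subgroup.isComplement'_bot_left.1 hKS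
    have hNp : IsPGroup p N := by
      intro y
      obtain ⟨k, hk⟩ := S.2 ⟨y, hStop ▸ Subgroup.mem_top y⟩
      exact ⟨k, (congrArg Subtype.val hk :)⟩
    have hNT : N ≤ T := (H19.le_pCore hN hNp).trans (H19.pCore_le_sylow P)
    refine hN1 (le_bot_iff.1 ?_)
    rw [← hcore']
    exact Subgroup.normal_le_normalCore.2 (fun y hy => hle ⟨hy, hNT hy⟩)
  obtain ⟨N, hN, hN1, -, hmin⟩ := H19.exists_minimalNormal_le (⊤ : Subgroup G) htop
  by_cases hsolv : ∃ M : Subgroup G, M.Normal ∧ M ≠ ⊥ ∧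
      (∀ L : Subgroup G, L.Normal → L ≤ M → L = ⊥ ∨ L = M) ∧ ∀ a ∈ M, ∀ b ∈ M, a * b = b * a
  · obtain ⟨M, hM, hM1, hMmin, hcomm⟩ := hsolv
    haveI := hM
    have hTM : ¬ T ≤ M := fun h => hna ⟨⟨fun a b => Subtype.ext (hcomm a (h a.2) b (h b.2))⟩⟩
    exact ⟨M, hM, fun a ha c hc => hcomm a ha.1 c hc.1,
      (trace_spec P M hsq (trace M hM hM1 hMmin) hTM).2⟩
  push Not at hsolv
  haveI := hN
  have hnot := trace N hN hN1 hmin
  obtain ⟨a₀, ha₀, b₀, hb₀, hab₀⟩ := hsolv N hN hN1 hmin
  -- `N` is the only minimal normal subgroup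
  have huniq : ∀ M : Subgroup G, M.Normal → M ≠ ⊥ →
      (∀ L : Subgroup G, L.Normal → L ≤ M → L = ⊥ ∨ L = M) → M = N := by
    intro M hM hM1 hMmin
    haveI := hM
    by_contra hne
    have hdis : M ⊓ N = ⊥ := by
      rcases hMmin (M ⊓ N) inferInstance inf_le_left with h | h
      · exact h
      · exact absurd ((hmin M hM (inf_eq_left.1 h)).resolve_left hM1) hne
    have hnM := trace M hM hM1 hMmin
    have hone : ∀ y, y ∈ M → y ∈ N → y ∈ T' := fun y h1 h2 => by
      have : y ∈ M ⊓ N := ⟨h1, h2⟩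
      rw [hdis, Subgroup.mem_bot] at this
      exact this ▸ T'.one_mem
    by_cases hTM : T ≤ M
    · exact hnot fun y hy => hone y (hTM hy.2) hy.1
    by_cases hTN : T ≤ N
    · exact hnM fun y hy => hone y hy.1 (hTN hy.2)
    have : x ∈ M ⊓ N := ⟨((trace_spec P M hsq hnM hTM).1 hx).1,
      ((trace_spec P N hsq hnot hTN).1 hx).1⟩
    rw [hdis, Subgroup.mem_bot] at this
    exact hx1 this
  have hcent : Subgroup.centralizer (N : Set G) = ⊥ := by
    by_contra hne
    obtain ⟨M, hM, hM1, hMle, hMmin⟩ :=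
      H19.exists_minimalNormal_le (Subgroup.centralizer (N : Set G)) hne
    have hMN := huniq M hM hM1 hMmin
    exact hab₀ (Subgroup.mem_centralizer_iff.1 (hMle (hMN.symm.le hb₀)) a₀ ha₀)
  obtain ⟨K₀, s, hK₀s, hs, hind, hsup⟩ := H37.minimalNormal_structure N hN1 hmin
  obtain ⟨e, he⟩ := H37.mulEquiv_pi_of_iSupIndep s (fun K hK => (hs K hK).1) hind hsup
  let π : (K : s) → (↥N →* ↥(K : Subgroup N)) := fun K =>
    (Pi.evalMonoidHom _ K).comp e.symm.toMonoidHom
  have hπext : ∀ {u v : N}, (∀ K : s, π K u = π K v) → u = v := fun h =>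
    e.symm.injective (funext h)
  have hπ1 : ∀ (K : s) (u : (K : Subgroup N)), π K (u : N) = u := fun K u => by
    show e.symm (u : N) K = u
    rw [← he K u, MulEquiv.symm_apply_apply, Pi.mulSingle_eq_same]
  have hπ0 : ∀ (K L : s) (u : (L : Subgroup N)), L ≠ K → π K (u : N) = 1 := fun K L u h => by
    show e.symm (u : N) K = 1
    rw [← he L u, MulEquiv.symm_apply_apply, Pi.mulSingle_eq_of_ne (Ne.symm h)]
  have hiso : ∀ K L : s, Nonempty ((K : Subgroup N) ≃* (L : Subgroup N)) := by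
    intro K L
    obtain ⟨g, hg⟩ := (hs K K.2).2.2
    obtain ⟨g', hg'⟩ := (hs L L.2).2.2
    exact ⟨(MulEquiv.subgroupCongr hg).trans
      ((((MulAut.conjNormal g : MulAut N).subgroupMap K₀).symm.trans
        ((MulAut.conjNormal g' : MulAut N).subgroupMap K₀)).trans
          (MulEquiv.subgroupCongr hg').symm)⟩
  have hKna : ∀ K : s, ¬ IsMulCommutative (K : Subgroup N) := by
    intro K hKc
    refine hab₀ (congrArg Subtype.val (show (⟨a₀, ha₀⟩ : N) * ⟨b₀, hb₀⟩ = ⟨b₀, hb₀⟩ * ⟨a₀, ha₀⟩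
      from hπext fun L => ?_) :)
    obtain ⟨f⟩ := hiso L K
    apply f.injective
    rw [map_mul, map_mul, map_mul, map_mul]
    exact hKc.is_comm.comm _ _
  -- simple normal subgroups of `N` are among the factors
  have hfac : ∀ M : Subgroup N, M.Normal → IsSimpleGroup M → ¬ IsMulCommutative M → M ∈ s := by
    intro M hM hMs hMna
    by_contra hMns
    refine hMna ⟨⟨fun u v => Subtype.ext ?_⟩⟩
    have hcomm : ∀ L : s, ∀ w ∈ (L : Subgroup N), ∀ y ∈ M, w * y = y * w := by
      intro L w hw y hy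
      haveI := (hs L L.2).1
      haveI := (hs L L.2).2.1
      have hdis : (L : Subgroup N) ⊓ M = ⊥ := by
        rcases ((inferInstance : ((((L : Subgroup N) ⊓ M)).subgroupOf M).Normal)).eq_bot_or_eq_top
          with h | h
        · rw [Subgroup.subgroupOf_eq_bot, disjoint_iff] at h
          rwa [inf_assoc, inf_idem] at h
        · rw [Subgroup.subgroupOf_eq_top] at h
          have hML : M ≤ (L : Subgroup N) := h.trans inf_le_left
          rcases ((inferInstance : (M.subgroupOf (L : Subgroup N)).Normal)).eq_bot_or_eq_top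
            with h' | h'
          · rw [Subgroup.subgroupOf_eq_bot, disjoint_iff] at h'
            rwa [inf_comm]
          · rw [Subgroup.subgroupOf_eq_top] at h'
            exact absurd L.2 (le_antisymm hML h' ▸ hMns)
      exact (Subgroup.commute_of_normal_of_disjoint _ _ (hs L L.2).1 hM (disjoint_iff.2 hdis)
        w y hw hy).eq
    have hall : ∀ w : N, w * (v : N) = (v : N) * w := by
      intro w
      have hw : w ∈ ⨆ K : s, (K : Subgroup N) := hsup ▸ Subgroup.mem_top w
      induction hw using Subgroup.iSup_induction' with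
      | hp L y hy => exact hcomm L y hy v v.2
      | h1 => simp
      | hmul y z _ _ hy hz => rw [mul_assoc, hz, ← mul_assoc, hy, mul_assoc]
    exact hall u
  -- at least two factors
  have htwo : ∀ K : s, ∃ L : s, L ≠ K := by
    intro K
    by_contra h
    push Not at h
    have hbij : Function.Bijective (π K) :=
      ⟨fun u v huv => hπext fun L => by rw [h L]; exact huv, fun u => ⟨(u : N), hπ1 K u⟩⟩
    haveI := (hs K K.2).2.1
    haveI : Nontrivial N := (Subgroup.nontrivial_iff_ne_bot N).2 hN1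
    refine hnas ⟨N, hN, IsSimpleGroup.isSimpleGroup_of_surjective
      (MulEquiv.ofBijective _ hbij).symm.toMonoidHom (MulEquiv.ofBijective _ hbij).symm.surjective,
      fun hc => hab₀ (congrArg Subtype.val (hc.is_comm.comm ⟨a₀, ha₀⟩ ⟨b₀, hb₀⟩) :), hcent⟩
  -- the trace `A` of `N` as a Sylow subgroup of `N`
  set A : Subgroup N := T.subgroupOf N with hAdef
  have hAp : IsPGroup p A := P.2.comap_of_injective N.subtype N.subtype_injective
  have hAidx : ¬ p ∣ A.index := fun h =>
    P.not_dvd_index (h.trans (relIndex_normal_dvd_index T N))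
  let AS : Sylow p N := hAp.toSylow hAidx
  let SK : (K : s) → Sylow p (K : Subgroup N) := fun K =>
    AS.mapSurjective (f := π K) fun u => ⟨u, hπ1 K u⟩
  have hSKmem : ∀ (K : s) (u : (K : Subgroup N)), u ∈ (SK K).toSubgroup ↔ ∃ w ∈ A, π K w = u :=
    fun K u => Iff.rfl
  have hSKA : ∀ (K : s) (u : (K : Subgroup N)), u ∈ (SK K).toSubgroup → (u : N) ∈ A := by
    intro K u hu
    haveI := (hs K K.2).1
    have hp1 : IsPGroup p ↥(A.subgroupOf (K : Subgroup N)) :=
      hAp.comap_of_injective (K : Subgroup N).subtype (K : Subgroup N).subtype_injective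
    have hle : A.subgroupOf (K : Subgroup N) ≤ (SK K).toSubgroup :=
      fun z hz => ⟨(z : N), Subgroup.mem_subgroupOf.1 hz, hπ1 K z⟩
    have hidx : ¬ p ∣ (A.subgroupOf (K : Subgroup N)).index := fun h =>
      hAidx (h.trans (relIndex_normal_dvd_index A (K : Subgroup N)))
    have heq := (hp1.toSylow hidx).is_maximal' (SK K).2 hle
    have : u ∈ A.subgroupOf (K : Subgroup N) := heq.le hu
    exact Subgroup.mem_subgroupOf.1 this
  have hSKne : ∀ K : s, ∃ u : (K : Subgroup N), u ∈ (SK K).toSubgroup ∧ u ≠ 1 := by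
    intro K
    by_contra h
    push Not at h
    have hA1 : A = ⊥ := by
      rw [Subgroup.eq_bot_iff_forall]
      refine fun w hw => hπext fun L => ?_
      obtain ⟨f⟩ := hiso K L
      let S1 : Sylow p (L : Subgroup N) := (SK K).mapSurjective (f := f.toMonoidHom) f.surjective
      let g := Sylow.equiv (SK L) S1
      obtain ⟨z, hz, e⟩ := (g ⟨π L w, w, hw, rfl⟩).2
      have h1 : g ⟨π L w, w, hw, rfl⟩ = 1 := Subtype.ext (by
        rw [← e, h z hz, map_one, Subgroup.coe_one])
      rw [map_one]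
      exact congrArg Subtype.val (g.injective (h1.trans (map_one g).symm))
    refine hnot fun y hy => ?_
    have : (⟨y, hy.1⟩ : N) ∈ A := hy.2
    rw [hA1, Subgroup.mem_bot] at this
    rw [show y = 1 from congrArg Subtype.val this]
    exact T'.one_mem
  -- it is enough that one factor has abelian Sylow subgroups
  suffices hone : ∃ K : s, IsMulCommutative (SK K).toSubgroup by
    obtain ⟨K, hK⟩ := hone
    have hAc : ∀ a ∈ N ⊓ T, ∀ c ∈ N ⊓ T, a * c = c * a := by
      intro a ha c hc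
      refine congrArg Subtype.val (show (⟨a, ha.1⟩ : N) * ⟨c, hc.1⟩ = ⟨c, hc.1⟩ * ⟨a, ha.1⟩ from
        hπext fun L => ?_)
      obtain ⟨f⟩ := hiso K L
      let S1 : Sylow p (L : Subgroup N) := (SK K).mapSurjective (f := f.toMonoidHom) f.surjective
      let g := Sylow.equiv (SK L) S1
      have hcomm : ∀ u v : (SK L).toSubgroup, u * v = v * u := fun u v => g.injective (by
        refine (map_mul g u v).trans (Eq.trans ?_ (map_mul g v u).symm)
        obtain ⟨z, hz, e⟩ := (g u).2
        obtain ⟨z', hz', e'⟩ := (g v).2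
        refine Subtype.ext ?_
        show ((g u : ↥S1.toSubgroup) : (L : Subgroup N)) * ((g v : ↥S1.toSubgroup) : (L : Subgroup N))
          = ((g v : ↥S1.toSubgroup) : (L : Subgroup N)) * ((g u : ↥S1.toSubgroup) : (L : Subgroup N))
        rw [← e, ← e', ← map_mul, ← map_mul]
        exact congrArg f.toMonoidHom (congrArg Subtype.val (hK.is_comm.comm ⟨z, hz⟩ ⟨z', hz'⟩)))
      rw [map_mul, map_mul]
      exact congrArg Subtype.val (hcomm ⟨π L ⟨a, ha.1⟩, _, ha.2, rfl⟩ ⟨π L ⟨c, hc.1⟩, _, hc.2, rfl⟩)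
    have hTN : ¬ T ≤ N := fun h =>
      hna ⟨⟨fun a b => Subtype.ext (hAc a ⟨h a.2, a.2⟩ b ⟨h b.2, b.2⟩)⟩⟩
    exact ⟨N, hN, hAc, (trace_spec P N hsq hnot hTN).2⟩
  obtain ⟨K⟩ : Nonempty s := ⟨⟨K₀, hK₀s⟩⟩
  by_cases hTN : T ≤ N
  · -- two factors already use up `P / P'`
    obtain ⟨L, hLK⟩ := htwo K
    let θ : (M : s) → (↥T →* Abelianization ↥(SK M).toSubgroup) := fun M =>
      Abelianization.of.comp (((π M).comp (Subgroup.inclusion hTN)).codRestrict
        (SK M).toSubgroup fun y => ⟨Subgroup.inclusion hTN y, y.2, rfl⟩)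
    let Θ := (θ K).prod (θ L)
    have hΘ : Function.Surjective Θ := by
      rintro ⟨u, v⟩
      obtain ⟨u, rfl⟩ := QuotientGroup.mk'_surjective _ u
      obtain ⟨v, rfl⟩ := QuotientGroup.mk'_surjective _ v
      refine ⟨⟨((u : (K : Subgroup N)) : N), hSKA K u u.2⟩ *
        ⟨((v : (L : Subgroup N)) : N), hSKA L v v.2⟩, Prod.ext ?_ ?_⟩
      · show Abelianization.of (⟨π K (((u : (K : Subgroup N)) : N) * ((v : (L : Subgroup N)) : N)),
          _⟩ : (SK K).toSubgroup) = Abelianization.of u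
        exact congrArg Abelianization.of (Subtype.ext ((map_mul (π K) _ _).trans (by rw [hπ1, hπ0 K L v hLK, mul_one])))
      · show Abelianization.of (⟨π L (((u : (K : Subgroup N)) : N) * ((v : (L : Subgroup N)) : N)),
          _⟩ : (SK L).toSubgroup) = Abelianization.of v
        exact congrArg Abelianization.of
          (Subtype.ext ((map_mul (π L) _ _).trans (by rw [hπ1, hπ0 L K u (Ne.symm hLK), one_mul])))
    have hle : Nat.card (Abelianization ↥(SK K).toSubgroup) *
        Nat.card (Abelianization ↥(SK L).toSubgroup) ≤ p ^ 2 := by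
      rw [← Nat.card_prod]
      refine le_trans (Nat.card_le_card_of_surjective (Abelianization.lift Θ) fun z => ?_) ?_
      · obtain ⟨y, hy⟩ := hΘ z
        exact ⟨Abelianization.of y, (Abelianization.lift_apply_of Θ y).trans hy⟩
      · rw [← hsq, relIndex_commutator_eq, Subgroup.index_eq_card]
        exact le_rfl
    obtain ⟨v, hv, hv1⟩ := hSKne L
    have hL2 : p ≤ Nat.card (Abelianization ↥(SK L).toSubgroup) := by
      obtain ⟨k, hk⟩ := ((SK L).2.to_quotient (commutator ↥(SK L).toSubgroup)).exists_card_eq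
      show p ≤ Nat.card (↥(SK L).toSubgroup ⧸ commutator ↥(SK L).toSubgroup)
      rcases Nat.eq_zero_or_pos k with rfl | hk0
      · exfalso
        have htp : commutator ↥(SK L).toSubgroup = ⊤ := by
          rw [← Subgroup.index_eq_one, Subgroup.index_eq_card, hk, pow_zero]
        have hfr : frattini ↥(SK L).toSubgroup = ⊤ :=
          top_le_iff.1 (htp ▸ H24.commutator_le_frattini (SK L).2)
        have h0 : (⊥ : Subgroup ↥(SK L).toSubgroup) = ⊤ :=
          frattini_nongenerating (by rw [hfr, sup_top_eq])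
        exact hv1 (congrArg Subtype.val (Subgroup.mem_bot.1
          (h0.symm.le (Subgroup.mem_top (⟨v, hv⟩ : ↥(SK L).toSubgroup)))) :)
      · rw [hk]
        exact Nat.le_self_pow hk0.ne' p
    refine ⟨K, comm_of_card_abelianization (SK K).2 (Nat.le_of_mul_le_mul_right ?_ hp.out.pos)⟩
    calc Nat.card (Abelianization ↥(SK K).toSubgroup) * p
        ≤ _ * Nat.card (Abelianization ↥(SK L).toSubgroup) := Nat.mul_le_mul_left _ hL2
      _ ≤ p ^ 2 := hle
      _ = p * p := pow_two p
  obtain ⟨hT'A, hidxA⟩ := trace_spec P N hsq hnot hTN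
  obtain ⟨b, hb, hbN⟩ : ∃ b ∈ T, b ∉ N := by
    by_contra h
    push Not at h
    exact hTN h
  have hA'n : ∀ a ∈ N ⊓ T, ∀ c ∈ T, c * a * c⁻¹ ∈ N ⊓ T := fun a ha c hc =>
    ⟨hN.conj_mem a ha.1 c, T.mul_mem (T.mul_mem hc ha.2) (T.inv_mem hc)⟩
  have hgen := exists_pow_mul inf_le_right hA'n hidxA hb (fun h => hbN h.1)
  have hbp : b ^ p ∈ N ⊓ T := by
    haveI : ((N ⊓ T).subgroupOf T).Normal := ⟨fun a ha c => Subgroup.mem_subgroupOf.2
      (hA'n _ (Subgroup.mem_subgroupOf.1 ha) c c.2)⟩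
    have h := Subgroup.pow_index_mem ((N ⊓ T).subgroupOf T) (⟨b, hb⟩ : T)
    rw [show ((N ⊓ T).subgroupOf T).index = p from hidxA, Subgroup.mem_subgroupOf] at h
    exact h
  let c : ℕ → MulAut N := fun j => MulAut.conjNormal (b ^ j)
  have hcA : ∀ (j : ℕ) (w : N), w ∈ A → c j w ∈ A := by
    intro j w hw
    show ((MulAut.conjNormal (b ^ j) : MulAut N) w : G) ∈ T
    rw [MulAut.conjNormal_apply]
    exact T.mul_mem (T.mul_mem (T.pow_mem hb j) hw) (T.inv_mem (T.pow_mem hb j))
  have hpA : T'.relIndex (N ⊓ T) = p := by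
    have h := Subgroup.relIndex_mul_relIndex T' (N ⊓ T) T hT'A inf_le_right
    rw [hsq, hidxA, pow_two] at h
    exact Nat.eq_of_mul_eq_mul_right hp.out.pos h
  have hcv : ∀ (j : ℕ) (w : N), ((c j w : N) : G) = b ^ j * w * (b ^ j)⁻¹ := fun j w =>
    MulAut.conjNormal_apply (b ^ j) w
  by_cases hfix : ∀ M : s, (M : Subgroup N).map (c 1).toMonoidHom = (M : Subgroup N)
  · exfalso
    -- the kernels of the projections are normal in `T` and lie in `T'`
    have hπc : ∀ (M : s) (w : N), ((π M (c 1 w) : (M : Subgroup N)) : N) =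
        c 1 ((π M w : (M : Subgroup N)) : N) := by
      intro M w
      have hw : w ∈ ⨆ L : s, (L : Subgroup N) := hsup ▸ Subgroup.mem_top w
      induction hw using Subgroup.iSup_induction' with
      | hp L y hy =>
        have hcy : c 1 y ∈ (L : Subgroup N) := by
          rw [← hfix L]
          exact Subgroup.mem_map_of_mem _ hy
        by_cases hLM : L = M
        · subst hLM
          rw [hπ1 L ⟨_, hcy⟩, hπ1 L ⟨y, hy⟩]
        · rw [hπ0 M L ⟨_, hcy⟩ hLM, hπ0 M L ⟨y, hy⟩ hLM, Subgroup.coe_one, map_one]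
      | h1 => simp only [map_one, Subgroup.coe_one]
      | hmul y z _ _ hy hz => simp only [map_mul, Subgroup.coe_mul, hy, hz]
    have hU : ∀ (M : s) (w : N), w ∈ A → π M w = 1 → (w : G) ∈ T' := by
      intro M
      set U : Subgroup G := ((π M).ker ⊓ A).map N.subtype with hU
      suffices hUT : U ≤ T' from fun w hw hw1 => hUT ⟨w, ⟨hw1, hw⟩, rfl⟩
      have hUle : U ≤ N ⊓ T := by
        rintro _ ⟨w, hw, rfl⟩
        exact ⟨w.2, hw.2⟩
      have hUb : ∀ (i : ℕ), ∀ u ∈ U, b ^ i * u * (b ^ i)⁻¹ ∈ U := by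
        intro i
        induction i with
        | zero => intro u hu; simpa using hu
        | succ i ih =>
          rintro _ ⟨w, hw, rfl⟩
          have h1 : c 1 w ∈ (π M).ker ⊓ A := ⟨by
            refine Subtype.ext ?_
            rw [hπc M w, show π M w = 1 from hw.1, Subgroup.coe_one, map_one], hcA 1 w hw.2⟩
          have h2 := ih _ ⟨c 1 w, h1, rfl⟩
          rw [show N.subtype (c 1 w) = b ^ 1 * (w : G) * (b ^ 1)⁻¹ from hcv 1 w, pow_one] at h2
          rw [pow_succ, show b ^ i * b * N.subtype w * (b ^ i * b)⁻¹ =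
            b ^ i * (b * (w : G) * b⁻¹) * (b ^ i)⁻¹ by simp only [Subgroup.coe_subtype]; group]
          exact h2
      have hUn : ∀ u ∈ U, ∀ y ∈ T, y * u * y⁻¹ ∈ U := by
        intro u hu y hy
        obtain ⟨i, a, ha, rfl⟩ := hgen y hy
        obtain ⟨w, hw, rfl⟩ := hu
        have h1 : (⟨a, ha.1⟩ : N) * w * (⟨a, ha.1⟩ : N)⁻¹ ∈ (π M).ker ⊓ A :=
          ⟨(inferInstance : (π M).ker.Normal).conj_mem w hw.1 _,
            A.mul_mem (A.mul_mem (show (⟨a, ha.1⟩ : N) ∈ A from ha.2) hw.2)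
              (A.inv_mem (show (⟨a, ha.1⟩ : N) ∈ A from ha.2))⟩
        have h2 := hUb i _ ⟨_, h1, rfl⟩
        simp only [Subgroup.coe_subtype, Subgroup.coe_mul, Subgroup.coe_inv] at h2 ⊢
        rwa [show b ^ i * a * (w : G) * (b ^ i * a)⁻¹ = b ^ i * (a * w * a⁻¹) * (b ^ i)⁻¹ by group]
      by_contra hUT
      have hB : U ⊔ T' = N ⊓ T := by
        refine le_antisymm (sup_le hUle hT'A) (Subgroup.relIndex_eq_one.1 ?_)
        have h := Subgroup.relIndex_mul_relIndex T' (U ⊔ T') (N ⊓ T) le_sup_right (sup_le hUle hT'A)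
        rw [hpA] at h
        rcases (Nat.dvd_prime hp.out).1 (Dvd.intro _ h) with h' | h'
        · exact absurd (le_sup_left.trans (Subgroup.relIndex_eq_one.1 h')) hUT
        · rw [h'] at h
          exact Nat.eq_of_mul_eq_mul_left hp.out.pos (h.trans (mul_one p).symm)
      set X : Subgroup G := Subgroup.zpowers b ⊔ U
      have hXT : X ≤ T := sup_le (Subgroup.zpowers_le.2 hb) (hUle.trans inf_le_right)
      have hXtop : X ⊔ T' = T := by
        refine le_antisymm (sup_le hXT (Subgroup.commutator_le_self T)) fun y hy => ?_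
        obtain ⟨i, a, ha, rfl⟩ := hgen y hy
        exact mul_mem (Subgroup.mem_sup_left ((le_sup_left : Subgroup.zpowers b ≤ X)
          (Subgroup.pow_mem _ (Subgroup.mem_zpowers b) i)))
          ((sup_le (le_sup_right.trans le_sup_left) le_sup_right : U ⊔ T' ≤ X ⊔ T') (hB.symm.le ha))
      have hXe := eq_of_sup_commutator P.2 hXT hXtop
      have hgenU : ∀ y ∈ T, ∃ i : ℕ, ∃ u ∈ U, y = b ^ i * u := by
        intro y hy
        have hy' : y ∈ ((Subgroup.zpowers b ⊔ U : Subgroup G) : Set G) := hXe.symm.le hy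
        rw [Subgroup.coe_mul_of_left_le_normalizer_right (Subgroup.zpowers b) U
          (Subgroup.zpowers_le.2 (Subgroup.mem_normalizer_iff.2 fun u =>
            ⟨fun hu => hUn u hu b hb, fun hu => by
              have := hUn _ hu b⁻¹ (T.inv_mem hb)
              rwa [show b⁻¹ * (b * u * b⁻¹) * b⁻¹⁻¹ = u by group] at this⟩))] at hy'
        obtain ⟨z, hz, u, hu, rfl⟩ := hy'
        obtain ⟨i, rfl⟩ := mem_powers_iff_mem_zpowers.2 hz
        exact ⟨i, u, hu, rfl⟩
      have hT'U : T' ≤ U := commutator_le_of_gen hb (hUle.trans inf_le_right) hgenU hUn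
        (fun a ha d hd => by
          rw [commutatorElement_def]
          exact U.mul_mem (U.mul_mem (U.mul_mem ha hd) (U.inv_mem ha)) (U.inv_mem hd))
        (fun a ha => by
          rw [commutatorElement_def, show a * b * a⁻¹ * b⁻¹ = a * (b * a⁻¹ * b⁻¹) by group]
          exact U.mul_mem ha (hUn _ (U.inv_mem ha) b hb))
      obtain ⟨u, ⟨w, hw, hwu⟩, hu1⟩ := hSKne M
      obtain ⟨z, hz, hzw⟩ := (hB.symm.trans (sup_eq_left.2 hT'U)).le
        (show (w : G) ∈ N ⊓ T from ⟨w.2, hw⟩)
      rw [show z = w from Subtype.ext hzw] at hz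
      exact hu1 (hwu.symm.trans hz.1)
    obtain ⟨M⟩ : Nonempty s := ⟨⟨K₀, hK₀s⟩⟩
    obtain ⟨L, hLM⟩ := htwo M
    apply hnot
    intro y hy
    set w : N := ⟨y, hy.1⟩
    set u : N := ((π M w : (M : Subgroup N)) : N)
    have huA : u ∈ A := hSKA M _ ⟨w, hy.2, rfl⟩
    have h1 : (u : G) ∈ T' := hU L u huA (hπ0 L M _ (Ne.symm hLM))
    have h2 : ((u⁻¹ * w : N) : G) ∈ T' := hU M _ (A.mul_mem (A.inv_mem huA) hy.2) (by
      rw [map_mul, map_inv, show π M u = π M w from hπ1 M _, inv_mul_cancel])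
    have := T'.mul_mem h1 h2
    rwa [Subgroup.coe_mul, Subgroup.coe_inv, mul_inv_cancel_left] at this
  push Not at hfix
  obtain ⟨K, hK⟩ := hfix
  refine ⟨K, comm_of_card_abelianization (SK K).2 ?_⟩
  let ψ : ℕ → (↥A →* Abelianization ↥(SK K).toSubgroup) := fun j =>
    Abelianization.of.comp (((π K).comp ((c j).toMonoidHom.comp A.subtype)).codRestrict
      (SK K).toSubgroup fun w => ⟨c j w, hcA j w w.2, rfl⟩)
  let φ : ↥A →* Abelianization ↥(SK K).toSubgroup := ∏ j ∈ Finset.range p, ψ j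
  have hφ : ∀ w : A, φ w = ∏ j ∈ Finset.range p, ψ j w := fun w => MonoidHom.finset_prod_apply _ _ w
  have hψp : ∀ w : A, ψ p w = ψ 0 w := by
    intro w
    let q : A := ⟨⟨b ^ p, hbp.1⟩, hbp.2⟩
    have hq : c p (w : N) = (q : N) * w * (q : N)⁻¹ := Subtype.ext (hcv p w)
    have h0 : c 0 (w : N) = w := Subtype.ext (by rw [hcv]; simp)
    let toS : ↥A →* Abelianization ↥(SK K).toSubgroup :=
      Abelianization.of.comp (((π K).comp A.subtype).codRestrict (SK K).toSubgroup
        fun w => ⟨w, w.2, rfl⟩)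
    have e1 : ψ p w = toS (q * w * q⁻¹) :=
      congrArg Abelianization.of (Subtype.ext (congrArg (π K) hq))
    have e2 : ψ 0 w = toS w := congrArg Abelianization.of (Subtype.ext (congrArg (π K) h0))
    rw [e1, e2, map_mul, map_mul, map_inv, mul_inv_cancel_comm]
  have hφc : ∀ w : A, φ ⟨c 1 w, hcA 1 w w.2⟩ = φ w := by
    intro w
    have h : ∀ j, ψ j ⟨c 1 w, hcA 1 w w.2⟩ = ψ (j + 1) w := fun j =>
      congrArg Abelianization.of (Subtype.ext (congrArg (π K) (show c j (c 1 (w : N)) = c (j + 1) w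
        from by
          refine Subtype.ext ?_
          rw [hcv, hcv, hcv]
          group)))
    rw [hφ, hφ, Finset.prod_congr rfl fun j _ => h j]
    apply mul_right_cancel (b := ψ 0 w)
    rw [← Finset.prod_range_succ' (fun j => ψ j w), Finset.prod_range_succ, hψp]
  have hsurj : Function.Surjective φ := by
    intro z
    obtain ⟨u, rfl⟩ := QuotientGroup.mk'_surjective _ z
    refine ⟨⟨((u : (K : Subgroup N)) : N), hSKA K u u.2⟩, ?_⟩
    rw [hφ, Finset.prod_eq_single 0 (fun j hj hj0 => ?_)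
      (fun h => absurd (Finset.mem_range.2 hp.out.pos) h)]
    · refine congrArg Abelianization.of (Subtype.ext ?_)
      show π K (c 0 ((u : (K : Subgroup N)) : N)) = u
      rw [show c 0 ((u : (K : Subgroup N)) : N) = ((u : (K : Subgroup N)) : N) from
        Subtype.ext (by rw [hcv]; simp), hπ1]
    · rw [← map_one (Abelianization.of (G := ↥(SK K).toSubgroup))]
      refine congrArg Abelianization.of (Subtype.ext ?_)
      show π K (c j ((u : (K : Subgroup N)) : N)) = 1
      set M : Subgroup N := (K : Subgroup N).map (c j).toMonoidHom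
      haveI := (hs K K.2).1
      have hMn : M.Normal := Subgroup.Normal.map (hs K K.2).1 _ (c j).surjective
      let f : (K : Subgroup N) ≃* M := (c j).subgroupMap (K : Subgroup N)
      have hMna : ¬ IsMulCommutative M := fun h => hKna K ⟨⟨fun x y => f.injective (by
        rw [map_mul, map_mul]; exact h.is_comm.comm _ _)⟩⟩
      haveI := (hs K K.2).2.1
      haveI : Nontrivial M := f.symm.toEquiv.nontrivial
      have hMs := hfac M hMn
        (IsSimpleGroup.isSimpleGroup_of_surjective f.toMonoidHom f.surjective) hMna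
      have hMK : M ≠ (K : Subgroup N) := by
        intro e'
        apply hK
        let S : Subgroup G :=
          { carrier := {g | (K : Subgroup N).map (MulAut.conjNormal g : MulAut N).toMonoidHom = K}
            one_mem' := by
              show Subgroup.map _ _ = _
              rw [map_one]
              exact Subgroup.map_id _
            mul_mem' := fun {g g'} hg hg' => by
              show Subgroup.map _ _ = _
              have e0 : (MulAut.conjNormal (g * g') : MulAut N).toMonoidHom =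
                  (MulAut.conjNormal g : MulAut N).toMonoidHom.comp
                    (MulAut.conjNormal g' : MulAut N).toMonoidHom := by
                rw [map_mul]; rfl
              rw [e0, ← Subgroup.map_map, show Subgroup.map _ (K : Subgroup N) = _ from hg']
              exact hg
            inv_mem' := fun {g} hg => by
              show Subgroup.map _ _ = _
              conv_lhs => rw [← show Subgroup.map _ (K : Subgroup N) = _ from hg]
              rw [Subgroup.map_map]
              convert Subgroup.map_id (K : Subgroup N)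
              refine MonoidHom.ext fun y => ?_
              show (MulAut.conjNormal g⁻¹ : MulAut N) ((MulAut.conjNormal g : MulAut N) y) = y
              rw [← MulAut.mul_apply, ← map_mul, inv_mul_cancel, map_one, MulAut.one_apply] }
        have h1 : b ^ j ∈ S := e'
        have h2 : b ^ p ∈ S := by
          show Subgroup.map _ _ = _
          have e0 : ∀ y : N, (MulAut.conjNormal (b ^ p) : MulAut N) y =
              ⟨b ^ p, hbp.1⟩ * y * (⟨b ^ p, hbp.1⟩ : N)⁻¹ := fun y => Subtype.ext (hcv p y)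
          refine le_antisymm ?_ fun y hy => ?_
          · rintro _ ⟨y, hy, rfl⟩
            show (MulAut.conjNormal (b ^ p) : MulAut N) y ∈ (K : Subgroup N)
            rw [e0]
            exact (hs K K.2).1.conj_mem y hy _
          · refine ⟨(⟨b ^ p, hbp.1⟩ : N)⁻¹ * y * (⟨b ^ p, hbp.1⟩ : N)⁻¹⁻¹,
              (hs K K.2).1.conj_mem y hy _, ?_⟩
            show (MulAut.conjNormal (b ^ p) : MulAut N) _ = y
            rw [e0]
            group
        have hcop : Nat.Coprime j p := Nat.Coprime.symm ((Nat.Prime.coprime_iff_not_dvd hp.out).2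
          fun hd => absurd (Nat.le_of_dvd (Nat.pos_of_ne_zero hj0) hd)
            (not_le.2 (Finset.mem_range.1 hj)))
        have h3 : (b ^ 1 : G) ∈ S := by
          have hz : (1 : ℤ) = j * Nat.gcdA j p + p * Nat.gcdB j p := by
            rw [← Nat.gcd_eq_gcd_ab, hcop]; rfl
          rw [pow_one, ← zpow_one b, hz, zpow_add, zpow_mul, zpow_mul, zpow_natCast, zpow_natCast]
          exact S.mul_mem (S.zpow_mem h1 _) (S.zpow_mem h2 _)
        exact h3
      exact hπ0 K ⟨M, hMs⟩ ⟨c j _, Subgroup.mem_map_of_mem _ (u : (K : Subgroup N)).2⟩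
        (fun e' => hMK (congrArg Subtype.val e'))
  set D : Subgroup G := (φ.ker.map A.subtype).map N.subtype with hD
  have hDmem : ∀ (w : A), φ w = 1 → ((w : N) : G) ∈ D := fun w h => ⟨w, ⟨w, h, rfl⟩, rfl⟩
  have hT'D : T' ≤ D := by
    have hbD : ∀ (i : ℕ) (w : A), φ w = 1 → b ^ i * ((w : N) : G) * (b ^ i)⁻¹ ∈ D := by
      intro i
      induction i with
      | zero => intro w hw; simpa using hDmem w hw
      | succ i ih =>
        intro w hw
        have h2 := ih ⟨c 1 w, hcA 1 w w.2⟩ ((hφc w).trans hw)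
        rw [show (((⟨c 1 w, hcA 1 w w.2⟩ : A) : N) : G) = _ from hcv 1 w, pow_one] at h2
        rw [pow_succ, show b ^ i * b * ((w : N) : G) * (b ^ i * b)⁻¹ =
          b ^ i * (b * ((w : N) : G) * b⁻¹) * (b ^ i)⁻¹ by group]
        exact h2
    refine commutator_le_of_gen hb inf_le_right hgen ?_ ?_ ?_
    · rintro _ ⟨_, ⟨w, hw, rfl⟩, rfl⟩ y hy
      obtain ⟨i, a, ha, rfl⟩ := hgen y hy
      let a' : A := ⟨⟨a, ha.1⟩, ha.2⟩
      have h1 : φ (a' * w * a'⁻¹) = 1 := by
        rw [map_mul, map_mul, map_inv, mul_inv_cancel_comm]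
        exact hw
      have h2 := hbD i _ h1
      simp only [Subgroup.coe_subtype, Subgroup.coe_mul, Subgroup.coe_inv, a'] at h2 ⊢
      rwa [show b ^ i * a * ((w : N) : G) * (b ^ i * a)⁻¹ =
        b ^ i * (a * w * a⁻¹) * (b ^ i)⁻¹ by group]
    · intro a ha d hd
      have := hDmem ⁅(⟨⟨a, ha.1⟩, ha.2⟩ : A), (⟨⟨d, hd.1⟩, hd.2⟩ : A)⁆
        (by rw [map_commutatorElement, commutatorElement_eq_one_iff_mul_comm, mul_comm])
      simpa [commutatorElement_def] using this
    · intro a ha
      let a' : A := ⟨⟨a, ha.1⟩, ha.2⟩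
      have h1 : φ (a' * (⟨c 1 (a' : N), hcA 1 a' a'.2⟩ : A)⁻¹) = 1 := by
        rw [map_mul, map_inv, hφc, mul_inv_cancel]
      have h2 := hDmem _ h1
      rw [commutatorElement_def]
      simp only [Subgroup.coe_mul, Subgroup.coe_inv, hcv, pow_one, a'] at h2
      rwa [show a * b * a⁻¹ * b⁻¹ = a * (b * a * b⁻¹)⁻¹ by group]
  have hmap : N ⊓ T = A.map N.subtype := by
    rw [hAdef, Subgroup.subgroupOf_map_subtype, inf_comm]
  have hdvd : D.relIndex (N ⊓ T) ∣ p := hpA ▸ Subgroup.relIndex_dvd_of_le_left _ hT'D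
  have hDidx : D.relIndex (N ⊓ T) = φ.ker.index := by
    rw [hD, hmap, Subgroup.relIndex_map_map_of_injective _ _ N.subtype_injective, Subgroup.relIndex,
      Subgroup.subgroupOf, Subgroup.comap_map_eq_self_of_injective A.subtype_injective]
  rw [hDidx, Subgroup.index_ker, MonoidHom.range_eq_top.2 hsurj, Subgroup.card_top] at hdvd
  exact Nat.le_of_dvd hp.out.pos hdvd

end Cfsg.Agent.H45.DerivedSq
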