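import Mathlib
import Cfsg.Agent.H21.UniqueSubgroup

/-!
`p`-groups in which any two subgroups of the same order are isomorphic: cyclic, of exponent `p`
and abelian, the quaternion group of order eight, or of order `p ^ 3` and exponent `p`.
-/

set_option autoImplicit false
set_option linter.unusedSectionVars false

open scoped Pointwise

namespace Cfsg.Agent.H45.EqualOrder

variable {P : Type*} [Group P]

/-- The join of two elementwise commuting subgroups with trivial meet. -/
theorem card_sup_of_commute [Finite P] {H K : Subgroup P}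
    (hc : ∀ h ∈ H, ∀ k ∈ K, Commute h k) (hd : H ⊓ K = ⊥) :
    Nat.card ↥(H ⊔ K) = Nat.card H * Nat.card K := by
  let f : ↥H × ↥K →* P :=
    MonoidHom.noncommCoprod H.subtype K.subtype fun h k => hc h h.2 k k.2
  have hf : Function.Injective f :=
    (MonoidHom.noncommCoprod_injective _ _ _).2
      ⟨H.subtype_injective, K.subtype_injective, by
        rw [H.range_subtype, K.range_subtype]; exact disjoint_iff.2 hd⟩
  have hr : f.range = H ⊔ K := by
    refine (MonoidHom.noncommCoprod_range _ _ _).trans ?_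
    rw [H.range_subtype, K.range_subtype]
  rw [← hr, Nat.card_congr (MonoidHom.ofInjective hf).toEquiv.symm, Nat.card_prod]

/-- The join of two commutative, elementwise commuting subgroups is commutative. -/
theorem comm_sup_of_commute {H K : Subgroup P}
    (hH : ∀ a ∈ H, ∀ b ∈ H, Commute a b) (hK : ∀ a ∈ K, ∀ b ∈ K, Commute a b)
    (hc : ∀ h ∈ H, ∀ k ∈ K, Commute h k) :
    ∀ a ∈ H ⊔ K, ∀ b ∈ H ⊔ K, Commute a b := by
  rw [Subgroup.sup_eq_closure]
  have hgen : ∀ a ∈ (H : Set P) ∪ K, ∀ b ∈ (H : Set P) ∪ K, Commute a b := by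
    rintro a (ha | ha) b (hb | hb)
    · exact hH a ha b hb
    · exact hc a ha b hb
    · exact (hc b hb a ha).symm
    · exact hK a ha b hb
  intro a ha b hb
  induction ha using Subgroup.closure_induction with
  | mem a ha =>
    induction hb using Subgroup.closure_induction with
    | mem b hb => exact hgen a ha b hb
    | one => exact Commute.one_right _
    | mul b c _ _ hb hc => exact hb.mul_right hc
    | inv b _ hb => exact hb.inv_right
  | one => exact Commute.one_left _
  | mul a c _ _ ha hc => exact ha.mul_left hc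
  | inv a _ ha => exact ha.inv_left

/-- The powers of an element commute. -/
theorem commute_of_mem_zpowers {x a b : P} (ha : a ∈ Subgroup.zpowers x)
    (hb : b ∈ Subgroup.zpowers x) : Commute a b := by
  obtain ⟨i, rfl⟩ := Subgroup.mem_zpowers_iff.1 ha
  obtain ⟨j, rfl⟩ := Subgroup.mem_zpowers_iff.1 hb
  exact (Commute.refl x).zpow_zpow i j

/-- An element of prime order outside a subgroup generates a subgroup meeting it trivially. -/
theorem inf_zpowers_eq_bot {p : ℕ} [hp : Fact p.Prime] {x : P} (hx : orderOf x = p)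
    {H : Subgroup P} (hxH : x ∉ H) : H ⊓ Subgroup.zpowers x = ⊥ := by
  rw [eq_bot_iff]
  intro y hy
  rw [Subgroup.mem_bot]
  by_contra hy1
  obtain ⟨i, rfl⟩ := Subgroup.mem_zpowers_iff.1 hy.2
  have hi : ¬ (p : ℤ) ∣ i := fun h => hy1 (orderOf_dvd_iff_zpow_eq_one.1 (by rwa [hx]))
  obtain ⟨u, v, huv⟩ := ((Nat.prime_iff_prime_int.1 hp.out).coprime_iff_not_dvd.2 hi)
  have hxp : x ^ (p : ℤ) = 1 := by rw [zpow_natCast, ← hx, pow_orderOf_eq_one]
  have : x = (x ^ i) ^ v := by
    rw [← zpow_mul]
    calc x = x ^ (u * (p : ℤ) + v * i) := by rw [huv, zpow_one]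
      _ = x ^ (i * v) := by rw [zpow_add, mul_comm u, zpow_mul x (p : ℤ), hxp, one_zpow, one_mul, mul_comm v]
  exact hxH (this ▸ H.zpow_mem hy.1 v)

variable [Finite P] {p : ℕ} [hp : Fact p.Prime]

/-- A nontrivial element killed by `p` has order `p`. -/
theorem orderOf_eq_of_pow_eq_one {x : P} (hx : x ^ p = 1) (h1 : x ≠ 1) : orderOf x = p :=
  orderOf_eq_prime hx h1

/-- A noncommutative `p`-group has order at least `p ^ 3`. -/
theorem three_le_of_noncomm {Q : Type*} [Group Q] [Finite Q] {n : ℕ}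
    (hn : Nat.card Q = p ^ n) (hnc : ∃ a b : Q, ¬ Commute a b) : 3 ≤ n := by
  obtain ⟨a, b, hab⟩ := hnc
  by_contra hlt
  rcases Nat.lt_or_ge n 2 with h | h
  · have hc : IsCyclic Q := by
      rcases Nat.eq_zero_or_pos n with rfl | hpos
      · rw [pow_zero, Nat.card_eq_one_iff_unique] at hn
        haveI := hn.1
        infer_instance
      · obtain rfl : n = 1 := by omega
        exact isCyclic_of_prime_card (p := p) (by rw [hn, pow_one])
    obtain ⟨g, hg⟩ := hc.exists_generator
    exact hab (commute_of_mem_zpowers (hg a) (hg b))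
  · obtain rfl : n = 2 := by omega
    haveI : IsMulCommutative Q := IsPGroup.isMulCommutative_of_card_eq_prime_sq hn
    exact hab (Std.Commutative.comm (op := (· * ·)) a b)

variable (hiso : ∀ H K : Subgroup P, Nat.card H = Nat.card K → Nonempty (H ≃* K))

include hiso

omit hp in
/-- A commutative and a noncommutative subgroup cannot have the same order. -/
theorem comm_of_card_eq {H K : Subgroup P} (h : Nat.card H = Nat.card K)
    (hH : ∀ a ∈ H, ∀ b ∈ H, Commute a b) : ∀ a ∈ K, ∀ b ∈ K, Commute a b := by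
  obtain ⟨e⟩ := hiso H K h
  intro a ha b hb
  have h1 : e.symm ⟨a, ha⟩ * e.symm ⟨b, hb⟩ = e.symm ⟨b, hb⟩ * e.symm ⟨a, ha⟩ :=
    Subtype.ext (hH _ (e.symm ⟨a, ha⟩).2 _ (e.symm ⟨b, hb⟩).2)
  rw [← map_mul, ← map_mul] at h1
  exact congrArg Subtype.val (e.symm.injective h1)

/-- The structure of such a group of exponent `p`. -/
theorem exponent_case (hP : IsPGroup p P) (hexp : ∀ x : P, x ^ p = 1)
    (hnc : ∃ a b : P, ¬ Commute a b) : p ≠ 2 ∧ Nat.card P = p ^ 3 := by
  constructor
  · rintro rfl
    obtain ⟨a, b, hab⟩ := hnc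
    have inv_eq : ∀ x : P, x⁻¹ = x := fun x =>
      inv_eq_of_mul_eq_one_right (by rw [← pow_two]; exact hexp x)
    exact hab (by
      show a * b = b * a
      calc a * b = (a * b)⁻¹ := (inv_eq _).symm
        _ = b * a := by rw [mul_inv_rev, inv_eq, inv_eq])
  obtain ⟨n, hn⟩ := IsPGroup.iff_card.1 hP
  have h3 : 3 ≤ n := three_le_of_noncomm hn hnc
  by_contra hne
  have h4 : 4 ≤ n := by
    rcases Nat.lt_or_ge n 4 with h | h
    · exact absurd (by rw [hn]; congr 1; omega) hne
    · exact h
  haveI : Nontrivial P := by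
    obtain ⟨a, b, hab⟩ := hnc
    exact ⟨⟨a, 1, fun h => hab (h ▸ Commute.one_left b)⟩⟩
  set Z := Subgroup.center P with hZ
  -- an element of the second centre outside the centre
  have hZtop : Z ≠ ⊤ := fun h => by
    obtain ⟨a, b, hab⟩ := hnc
    exact hab (Subgroup.mem_center_iff.1 (by rw [← hZ, h]; trivial : b ∈ Subgroup.center P) a)
  haveI : Nontrivial (P ⧸ Z) :=
    (QuotientGroup.nontrivial_iff (N := Z)).2 hZtop
  haveI := (hP.to_quotient Z).center_nontrivial
  obtain ⟨q, hq⟩ := exists_ne (1 : Subgroup.center (P ⧸ Z))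
  obtain ⟨x, hx⟩ := QuotientGroup.mk_surjective q.1
  have hxZ : x ∉ Z := fun h => hq (Subtype.ext (by
    rw [← hx]; exact (QuotientGroup.eq_one_iff x).2 h))
  have hxc : ∀ g : P, x * g * x⁻¹ * g⁻¹ ∈ Z := fun g => by
    rw [← QuotientGroup.eq_one_iff (N := Z)]
    have := Subgroup.mem_center_iff.1 q.2 (g : P ⧸ Z)
    rw [← hx] at this
    simp only [QuotientGroup.mk_mul, QuotientGroup.mk_inv]
    rw [← this]
    group
  have hx1 : x ≠ 1 := fun h => hxZ (h ▸ one_mem _)
  have hox : orderOf x = p := orderOf_eq_of_pow_eq_one (hexp x) hx1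
  obtain ⟨z, hz⟩ := exists_prime_orderOf_dvd_card' (G := Z) p
    (by
      obtain ⟨k, hk⟩ := IsPGroup.iff_card.1 (hP.to_subgroup Z)
      haveI := hP.center_nontrivial
      have h1 : 1 < Nat.card Z := Finite.one_lt_card
      rw [hk] at h1 ⊢
      exact dvd_pow_self p (by rintro rfl; simp at h1))
  -- an abelian subgroup of order `p ^ 3`
  obtain ⟨A, hA3, hAc⟩ : ∃ A : Subgroup P, Nat.card A = p ^ 3 ∧
      ∀ a ∈ A, ∀ b ∈ A, Commute a b := by
    obtain ⟨k, hk⟩ := IsPGroup.iff_card.1 (hP.to_subgroup Z)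
    have hzmem : ∀ a ∈ Z, ∀ g : P, Commute a g := fun a ha g =>
      (Subgroup.mem_center_iff.1 ha g).symm
    by_cases hk2 : 2 ≤ k
    · obtain ⟨B, hB⟩ := Sylow.exists_subgroup_card_pow_prime p
        (show p ^ 2 ∣ Nat.card Z by rw [hk]; exact pow_dvd_pow p hk2)
      set B' := B.map Z.subtype with hB'
      have hB'Z : B' ≤ Z := Subgroup.map_subtype_le B
      refine ⟨B' ⊔ Subgroup.zpowers x, ?_, ?_⟩
      · rw [card_sup_of_commute (fun h hh k _ => hzmem h (hB'Z hh) k)
          (inf_zpowers_eq_bot hox fun h => hxZ (hB'Z h)), Nat.card_zpowers, hox,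
          Subgroup.card_map_of_injective Z.subtype_injective, hB]
        rfl
      · exact comm_sup_of_commute (fun a ha b _ => hzmem a (hB'Z ha) b)
          (fun a ha b hb => commute_of_mem_zpowers ha hb)
          (fun a ha b _ => hzmem a (hB'Z ha) b)
    · have hk1 : Nat.card Z ≤ p := by
        rw [hk]
        calc p ^ k ≤ p ^ 1 := Nat.pow_le_pow_right hp.out.pos (by omega)
          _ = p := pow_one p
      set A₀ := Subgroup.zpowers (z : P) ⊔ Subgroup.zpowers x with hA₀
      have hzZ : Subgroup.zpowers (z : P) ≤ Z := Subgroup.zpowers_le.2 z.2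
      have hoz : orderOf (z : P) = p := by rw [Subgroup.orderOf_coe]; exact hz
      have hA₀card : Nat.card A₀ = p ^ 2 := by
        rw [hA₀, card_sup_of_commute (fun h hh k _ => hzmem h (hzZ hh) k)
          (inf_zpowers_eq_bot hox fun h => hxZ (hzZ h)), Nat.card_zpowers, Nat.card_zpowers,
          hox, hoz, pow_two]
      have hA₀c : ∀ a ∈ A₀, ∀ b ∈ A₀, Commute a b :=
        comm_sup_of_commute (fun a ha b _ => hzmem a (hzZ ha) b)
          (fun a ha b hb => commute_of_mem_zpowers ha hb) (fun a ha b _ => hzmem a (hzZ ha) b)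
      let f : P →* Z :=
        { toFun := fun g => ⟨x * g * x⁻¹ * g⁻¹, hxc g⟩
          map_one' := Subtype.ext (by simp)
          map_mul' := fun g h => Subtype.ext (by
            show x * (g * h) * x⁻¹ * (g * h)⁻¹ = (x * g * x⁻¹ * g⁻¹) * (x * h * x⁻¹ * h⁻¹)
            have hc := hzmem _ (hxc h) g⁻¹
            calc x * (g * h) * x⁻¹ * (g * h)⁻¹
                = x * g * x⁻¹ * ((x * h * x⁻¹ * h⁻¹) * g⁻¹) := by group
              _ = x * g * x⁻¹ * (g⁻¹ * (x * h * x⁻¹ * h⁻¹)) := by rw [hc.eq]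
              _ = _ := by group) }
      have hker : p ^ 3 ≤ Nat.card f.ker := by
        have h1 : Nat.card f.ker * f.ker.index = p ^ n := by
          rw [Subgroup.card_mul_index, hn]
        have h2 : f.ker.index ≤ p := by
          rw [Subgroup.index_ker]
          exact (Subgroup.card_le_card_group _).trans hk1
        by_contra hlt
        push Not at hlt
        have : Nat.card f.ker * f.ker.index < p ^ 3 * p :=
          lt_of_le_of_lt (Nat.mul_le_mul_left _ h2) (Nat.mul_lt_mul_of_pos_right hlt hp.out.pos)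
        rw [h1, ← pow_succ] at this
        exact absurd this (not_lt.2 (Nat.pow_le_pow_right hp.out.pos h4))
      obtain ⟨y, hy, hyA⟩ : ∃ y ∈ f.ker, y ∉ A₀ := by
        by_contra h
        push Not at h
        have := Subgroup.card_le_of_le h
        rw [hA₀card] at this
        have h32 : p ^ 2 < p ^ 3 := Nat.pow_lt_pow_right hp.out.one_lt (by norm_num)
        omega
      have hyx : Commute x y := by
        have := congrArg Subtype.val (MonoidHom.mem_ker.1 hy)
        show x * y = y * x
        have e : x * y * x⁻¹ * y⁻¹ = 1 := this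
        calc x * y = (x * y * x⁻¹ * y⁻¹) * (y * x) := by group
          _ = y * x := by rw [e, one_mul]
      have hy1 : y ≠ 1 := fun h => hyA (h ▸ one_mem _)
      have hoy : orderOf y = p := orderOf_eq_of_pow_eq_one (hexp y) hy1
      have hcy : ∀ a ∈ A₀, ∀ b ∈ Subgroup.zpowers y, Commute a b := by
        intro a ha b hb
        obtain ⟨i, rfl⟩ := Subgroup.mem_zpowers_iff.1 hb
        refine Commute.zpow_right ?_ i
        have hle : A₀ ≤ Subgroup.centralizer ({y} : Set P) :=
          sup_le (Subgroup.zpowers_le.2 (Subgroup.mem_centralizer_singleton_iff.2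
              (hzmem _ z.2 y).eq))
            (Subgroup.zpowers_le.2 (Subgroup.mem_centralizer_singleton_iff.2 hyx.eq))
        exact Subgroup.mem_centralizer_singleton_iff.1 (hle ha)
      refine ⟨A₀ ⊔ Subgroup.zpowers y, ?_, ?_⟩
      · rw [card_sup_of_commute hcy (inf_zpowers_eq_bot hoy hyA), hA₀card, Nat.card_zpowers,
          hoy]
        rfl
      · exact comm_sup_of_commute hA₀c (fun a ha b hb => commute_of_mem_zpowers ha hb) hcy
  -- a noncommutative subgroup of order `p ^ 3`
  obtain ⟨y, hxy⟩ : ∃ y : P, ¬ Commute x y := by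
    by_contra h
    push Not at h
    exact hxZ (Subgroup.mem_center_iff.2 fun g => (h g).symm.eq)
  set c := x * y * x⁻¹ * y⁻¹ with hcdef
  have hc1 : c ≠ 1 := fun h => hxy (by
    show x * y = y * x
    calc x * y = (x * y * x⁻¹ * y⁻¹) * (y * x) := by group
      _ = y * x := by rw [← hcdef, h, one_mul])
  set H := Subgroup.zpowers c ⊔ Subgroup.zpowers x with hHdef
  have hcZ : ∀ g : P, Commute c g := fun g => (Subgroup.mem_center_iff.1 (hxc y) g).symm
  have hHcard : Nat.card H ≤ p ^ 2 := by
    rw [hHdef, card_sup_of_commute (fun h hh k _ => by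
        obtain ⟨i, rfl⟩ := Subgroup.mem_zpowers_iff.1 hh
        exact (hcZ k).zpow_left i)
      (inf_zpowers_eq_bot hox fun h => hxZ ((Subgroup.zpowers_le.2 (hxc y)) h)),
      Nat.card_zpowers, Nat.card_zpowers, hox,
      orderOf_eq_of_pow_eq_one (hexp c) hc1, pow_two]
  set K := H ⊔ Subgroup.zpowers y with hKdef
  have hnorm : Subgroup.zpowers y ≤ Subgroup.normalizer (H : Set P) := by
    rw [Subgroup.zpowers_le]
    have hmaps : ∀ w : P, w * x * w⁻¹ ∈ H → H.map (MulAut.conj w).toMonoidHom ≤ H := by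
      intro w hw
      rw [hHdef, Subgroup.map_sup, MonoidHom.map_zpowers, MonoidHom.map_zpowers]
      refine sup_le ?_ ?_
      · rw [Subgroup.zpowers_le]
        show w * c * w⁻¹ ∈ H
        rw [← (hcZ w).eq, mul_inv_cancel_right]
        exact Subgroup.mem_sup_left (Subgroup.mem_zpowers c)
      · rw [Subgroup.zpowers_le]
        exact hw
    have h1 : y * x * y⁻¹ ∈ H := by
      have e : y * x * y⁻¹ = c⁻¹ * x := by rw [hcdef]; group
      rw [e]
      exact mul_mem (inv_mem (Subgroup.mem_sup_left (Subgroup.mem_zpowers c)))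
        (Subgroup.mem_sup_right (Subgroup.mem_zpowers x))
    have hle := hmaps y h1
    have heq : H.map (MulAut.conj y).toMonoidHom = H :=
      Subgroup.eq_of_le_of_card_ge hle
        (le_of_eq (Subgroup.card_map_of_injective (MulAut.conj y).injective).symm)
    rw [Subgroup.mem_normalizer_iff]
    intro h
    conv_rhs => rw [← heq]
    rw [Subgroup.mem_map]
    constructor
    · exact fun hh => ⟨h, hh, rfl⟩
    · rintro ⟨h', hh', e⟩
      have : h' = h := (MulAut.conj y).injective e
      rwa [this] at hh'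
  have hKcard : Nat.card K ≤ p ^ 3 := by
    have hy1 : y ≠ 1 := fun h => hxy (h ▸ Commute.one_right x)
    have e : (K : Set P) = (H : Set P) * (Subgroup.zpowers y : Set P) :=
      Subgroup.coe_mul_of_right_le_normalizer_left H (Subgroup.zpowers y) hnorm
    calc Nat.card K = Nat.card (K : Set P) := rfl
      _ = Nat.card ↥((H : Set P) * (Subgroup.zpowers y : Set P)) := by rw [e]
      _ ≤ Nat.card H * Nat.card (Subgroup.zpowers y) := Set.natCard_mul_le
      _ ≤ p ^ 2 * p := Nat.mul_le_mul hHcard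
          (by rw [Nat.card_zpowers, orderOf_eq_of_pow_eq_one (hexp y) hy1])
      _ = p ^ 3 := rfl
  have hKnc : ¬ ∀ a ∈ K, ∀ b ∈ K, Commute a b := fun h => hxy
    (h x (Subgroup.mem_sup_left (Subgroup.mem_sup_right (Subgroup.mem_zpowers x)))
      y (Subgroup.mem_sup_right (Subgroup.mem_zpowers y)))
  have hK3 : Nat.card K = p ^ 3 := by
    obtain ⟨k, hk⟩ := IsPGroup.iff_card.1 (hP.to_subgroup K)
    have hk3 : 3 ≤ k := three_le_of_noncomm hk ⟨⟨x, Subgroup.mem_sup_left
      (Subgroup.mem_sup_right (Subgroup.mem_zpowers x))⟩, ⟨y, Subgroup.mem_sup_right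
      (Subgroup.mem_zpowers y)⟩, fun h => hxy (by
        have := congrArg Subtype.val h.eq
        exact this)⟩
    exact le_antisymm hKcard (by rw [hk]; exact Nat.pow_le_pow_right hp.out.pos hk3)
  exact hKnc (comm_of_card_eq hiso (hA3.trans hK3.symm) hAc)

omit hiso in
/-- The embedding of the quaternion group of order eight into a larger one. -/
theorem exists_q8_hom (m k : ℕ) (hk : 2 * k = m) (hk0 : 0 < k) :
    ∃ f : QuaternionGroup 2 →* QuaternionGroup m, Function.Injective f := by
  let φ : ZMod (2 * 2) →+ ZMod (2 * m) :=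
    ZMod.lift (2 * 2) ⟨zmultiplesHom (ZMod (2 * m)) (k : ZMod (2 * m)), by
      simp only [zmultiplesHom_apply, zsmul_eq_mul]
      rw [← hk]
      have : ((2 * 2 : ℕ) : ℤ) * (k : ℤ) = ((2 * (2 * k) : ℕ) : ℤ) := by push_cast; ring
      calc (((2 * 2 : ℕ) : ℤ) : ZMod (2 * (2 * k))) * (k : ZMod (2 * (2 * k)))
          = (((2 * (2 * k) : ℕ) : ℤ) : ZMod (2 * (2 * k))) := by rw [← this]; push_cast; ring
        _ = 0 := by rw [Int.cast_natCast, ZMod.natCast_self]⟩
  have hφ : Function.Injective φ := by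
    refine (ZMod.lift_injective _).2 fun i hi => ?_
    rw [zmultiplesHom_apply, zsmul_eq_mul, ← Int.cast_natCast (R := ZMod (2 * m)) k,
      ← Int.cast_mul, ZMod.intCast_zmod_eq_zero_iff_dvd] at hi
    rw [ZMod.intCast_zmod_eq_zero_iff_dvd]
    subst hk
    push_cast at hi ⊢
    exact Int.dvd_of_mul_dvd_mul_right (a := (k : ℤ)) (by omega) (by
      convert hi using 1; ring)
  have hφ2 : φ ((2 : ℕ) : ZMod (2 * 2)) = (m : ZMod (2 * m)) := by
    show φ (((2 : ℕ) : ℤ) : ZMod (2 * 2)) = _
    rw [ZMod.lift_coe]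
    simp [← hk]
  refine ⟨{ toFun := fun q => match q with
              | QuaternionGroup.a i => QuaternionGroup.a (φ i)
              | QuaternionGroup.xa i => QuaternionGroup.xa (φ i)
            map_one' := by
              show QuaternionGroup.a (φ 0) = QuaternionGroup.a 0
              rw [map_zero]
            map_mul' := ?_ }, ?_⟩
  · rintro (i | i) (j | j)
    · simp [map_add]
    · simp [map_sub]
    · simp [map_add]
    · show QuaternionGroup.a (φ (((2 : ℕ) : ZMod (2 * 2)) + j - i)) = _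
      simp only [QuaternionGroup.xa_mul_xa, map_sub, map_add, hφ2]
  · rintro (i | i) (j | j) h <;> simp at h
    · rw [hφ h]
    · rw [hφ h]

/-- The classification. -/
theorem types (hP : IsPGroup p P) :
    IsCyclic P ∨ ((∀ a b : P, Commute a b) ∧ ∀ a : P, a ^ p = 1) ∨
      (p = 2 ∧ Nonempty (P ≃* QuaternionGroup 2)) ∨
      (p ≠ 2 ∧ Nat.card P = p ^ 3 ∧ (∀ a : P, a ^ p = 1) ∧ ∃ a b : P, ¬ Commute a b) := by
  by_cases hexp : ∀ x : P, x ^ p = 1
  · by_cases hc : ∀ a b : P, Commute a b
    · exact Or.inr (Or.inl ⟨hc, hexp⟩)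
    · push Not at hc
      obtain ⟨h2, h3⟩ := exponent_case hiso hP hexp hc
      exact Or.inr (Or.inr (Or.inr ⟨h2, h3, hexp, hc⟩))
  push Not at hexp
  obtain ⟨x, hx⟩ := hexp
  obtain ⟨k, hk⟩ := IsPGroup.iff_orderOf.1 hP x
  have hk2 : 2 ≤ k := by
    by_contra h
    apply hx
    rw [← orderOf_dvd_iff_pow_eq_one, hk]
    calc p ^ k ∣ p ^ 1 := pow_dvd_pow p (by omega)
      _ = p := pow_one p
  set w := x ^ p ^ (k - 2) with hw
  have how : orderOf w = p ^ 2 := by
    have hdiv : p ^ (k - 2) ∣ p ^ k := pow_dvd_pow p (Nat.sub_le k 2)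
    rw [hw, orderOf_pow_of_dvd (pow_pos hp.out.pos _).ne' (hk ▸ hdiv), hk,
      Nat.pow_div (Nat.sub_le k 2) hp.out.pos]
    congr 1
    omega
  have huniq : ∀ H K : Subgroup P, Nat.card H = p → Nat.card K = p → H = K := by
    haveI : Nontrivial P := ⟨⟨x, 1, fun h => hx (by rw [h, one_pow])⟩⟩
    haveI := hP.center_nontrivial
    obtain ⟨z, hz⟩ := exists_prime_orderOf_dvd_card' (G := Subgroup.center P) p (by
      obtain ⟨j, hj⟩ := IsPGroup.iff_card.1 (hP.to_subgroup (Subgroup.center P))
      have h1 : 1 < Nat.card (Subgroup.center P) := Finite.one_lt_card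
      rw [hj] at h1 ⊢
      exact dvd_pow_self p (by rintro rfl; simp at h1))
    have hoz : orderOf (z : P) = p := by rw [Subgroup.orderOf_coe]; exact hz
    suffices key : ∀ H : Subgroup P, Nat.card H = p → H = Subgroup.zpowers (z : P) from
      fun H K hH hK => (key H hH).trans (key K hK).symm
    intro H hH
    have hHp : ∀ h ∈ H, h ^ p = 1 := fun h hh => by
      have := congrArg Subtype.val (pow_card_eq_one' (x := (⟨h, hh⟩ : H)))
      rw [hH] at this
      simpa using this
    by_contra hne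
    have hnotle : (z : P) ∉ H := fun h => hne
      (Subgroup.eq_of_le_of_card_ge (Subgroup.zpowers_le.2 h)
        (by rw [Nat.card_zpowers, hoz, hH])).symm
    have hcz : ∀ h ∈ H, ∀ k ∈ Subgroup.zpowers (z : P), Commute h k := by
      intro h _ k hk'
      obtain ⟨i, rfl⟩ := Subgroup.mem_zpowers_iff.1 hk'
      exact Commute.zpow_right (Subgroup.mem_center_iff.1 z.2 h) i
    have hcard : Nat.card ↥(H ⊔ Subgroup.zpowers (z : P)) = Nat.card (Subgroup.zpowers w) := by
      rw [card_sup_of_commute hcz (inf_zpowers_eq_bot hoz hnotle), Nat.card_zpowers,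
        Nat.card_zpowers, hoz, hH, how, pow_two]
    haveI : IsCyclic H := isCyclic_of_prime_card hH
    obtain ⟨h₀, hh₀⟩ := IsCyclic.exists_generator (α := H)
    have hHc : ∀ a ∈ H, ∀ b ∈ H, Commute a b := fun a ha b hb => by
      exact congrArg Subtype.val (commute_of_mem_zpowers (hh₀ ⟨a, ha⟩) (hh₀ ⟨b, hb⟩)).eq
    have hall := comm_sup_of_commute hHc (fun a ha b hb => commute_of_mem_zpowers ha hb) hcz
    have hsub : ∀ a ∈ H ⊔ Subgroup.zpowers (z : P), a ^ p = 1 := by
      intro a ha
      rw [Subgroup.sup_eq_closure] at ha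
      induction ha using Subgroup.closure_induction with
      | mem a ha =>
        rcases ha with ha | ha
        · exact hHp a ha
        · obtain ⟨i, rfl⟩ := Subgroup.mem_zpowers_iff.1 ha
          rw [← zpow_natCast, ← zpow_mul, mul_comm, zpow_mul, zpow_natCast, ← hoz,
            pow_orderOf_eq_one, one_zpow]
      | one => exact one_pow p
      | mul a b ha hb iha ihb =>
        rw [← Subgroup.sup_eq_closure] at ha hb
        rw [(hall a ha b hb).mul_pow, iha, ihb, one_mul]
      | inv a _ iha => rw [inv_pow, iha, inv_one]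
    obtain ⟨e⟩ := hiso _ _ hcard.symm
    have h1 : (e ⟨w, Subgroup.mem_zpowers w⟩) ^ p = 1 := Subtype.ext (by
      rw [SubgroupClass.coe_pow]
      exact hsub _ (e ⟨w, Subgroup.mem_zpowers w⟩).2)
    rw [← map_pow, MulEquiv.map_eq_one_iff] at h1
    have h2 : orderOf w ∣ p := orderOf_dvd_of_pow_eq_one (by simpa using congrArg Subtype.val h1)
    rw [how] at h2
    have := Nat.le_of_dvd hp.out.pos h2
    nlinarith [hp.out.one_lt]
  rcases H21.cyclic_or_quaternion p hP huniq with hcyc | ⟨rfl, n, ⟨e⟩⟩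
  · exact Or.inl hcyc
  rcases Nat.lt_or_ge n 2 with hn | hn
  · interval_cases n
    · left
      haveI : IsCyclic (QuaternionGroup (2 ^ 0)) := QuaternionGroup.quaternionGroup_one_isCyclic
      exact e.symm.isCyclic.1 inferInstance
    · exact Or.inr (Or.inr (Or.inl ⟨rfl, ⟨e⟩⟩))
  exfalso
  obtain ⟨f, hf⟩ := exists_q8_hom (2 ^ n) (2 ^ (n - 1))
    (by rw [← pow_succ']; congr 1; omega) (by positivity)
  set Q := (f.range).map e.symm.toMonoidHom with hQ
  let eQ : QuaternionGroup 2 ≃* Q := (MonoidHom.ofInjective hf).trans (e.symm.subgroupMap f.range)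
  set a8 := e.symm (QuaternionGroup.a ((2 ^ (n - 2) : ℕ) : ZMod (2 * 2 ^ n))) with ha8
  have hcardQ : Nat.card Q = Nat.card (Subgroup.zpowers a8) := by
    rw [← Nat.card_congr eQ.toEquiv, Nat.card_eq_fintype_card, QuaternionGroup.card,
      Nat.card_zpowers, ha8, MulEquiv.orderOf_eq, QuaternionGroup.orderOf_a,
      ZMod.val_natCast, Nat.mod_eq_of_lt (by
        calc 2 ^ (n - 2) < 2 ^ n := Nat.pow_lt_pow_right (by norm_num) (by omega)
          _ ≤ 2 * 2 ^ n := by omega)]
    have e1 : (2 * 2 ^ n : ℕ) = 2 ^ (n + 1) := by rw [pow_succ']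
    rw [e1, Nat.gcd_eq_right (pow_dvd_pow 2 (by omega)), Nat.pow_div (by omega) (by norm_num),
      show n + 1 - (n - 2) = 3 by omega]
  have hcomm := comm_of_card_eq hiso hcardQ.symm
    (fun a ha b hb => commute_of_mem_zpowers ha hb)
  have h := hcomm _ (eQ (QuaternionGroup.a 1)).2 _ (eQ (QuaternionGroup.xa 0)).2
  have h' : QuaternionGroup.a (1 : ZMod (2 * 2)) * QuaternionGroup.xa 0
      = QuaternionGroup.xa 0 * QuaternionGroup.a 1 :=
    eQ.injective (Subtype.ext (by simpa only [map_mul, Subgroup.coe_mul] using h.eq))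
  simp only [QuaternionGroup.a_mul_xa, QuaternionGroup.xa_mul_a, QuaternionGroup.xa.injEq] at h'
  revert h'
  decide

end Cfsg.Agent.H45.EqualOrder
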