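import Mathlib
import Cfsg.Agent.H45.EqualOrderTypes
import Cfsg.Agent.S0205
import Cfsg.Agent.S0225
import Cfsg.Prelude.Def_Transfer

/-!
Groups in which `p`-subgroups of equal order are conjugate: the Sylow subgroups are cyclic,
elementary abelian or quaternion of order eight.
-/

set_option autoImplicit false
set_option linter.unusedSectionVars false

open scoped Pointwise commutatorElement

namespace Cfsg.Agent.H45.EqualOrder

universe u

variable {G : Type u} [Group G] [Finite G]

/-- Membership in a conjugate Sylow subgroup. -/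
theorem mem_smul_sylow {p : ℕ} (S : Sylow p G) (g e : G) :
    e ∈ ((g • S : Sylow p G) : Subgroup G) ↔ g⁻¹ * e * g ∈ (S : Subgroup G) := by
  rw [Sylow.coe_subgroup_smul, Subgroup.mem_pointwise_smul_iff_inv_smul_mem]
  simp [MulAut.smul_def, mul_assoc]

variable (hD : ∀ p : ℕ, p.Prime → ∀ H K : Subgroup G, IsPGroup p H → IsPGroup p K →
  Nat.card H = Nat.card K → ∃ g : G, K = H.map (MulAut.conj g).toMonoidHom)

include hD

/-- Subgroups of a Sylow subgroup with equal orders are isomorphic. -/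
theorem iso_of_card {p : ℕ} [hp : Fact p.Prime] (S : Sylow p G)
    (H K : Subgroup ↥(S : Subgroup G)) (h : Nat.card H = Nat.card K) : Nonempty (H ≃* K) := by
  have hinj := (S : Subgroup G).subtype_injective
  obtain ⟨g, hg⟩ := hD p hp.out (H.map (S : Subgroup G).subtype) (K.map (S : Subgroup G).subtype)
    ((S.isPGroup'.to_subgroup H).map _) ((S.isPGroup'.to_subgroup K).map _)
    (by rw [Subgroup.card_map_of_injective hinj, Subgroup.card_map_of_injective hinj, h])
  let e₁ := H.equivMapOfInjective (S : Subgroup G).subtype hinj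
  let e₂ := K.equivMapOfInjective (S : Subgroup G).subtype hinj
  let e₃ := (H.map (S : Subgroup G).subtype).equivMapOfInjective (MulAut.conj g).toMonoidHom
    (MulAut.conj g).injective
  exact ⟨e₁.trans ((e₃.trans (MulEquiv.subgroupCongr hg.symm)).trans e₂.symm)⟩

/-- A Sylow 2-subgroup containing an element of order at least four is cyclic or quaternion. -/
theorem sylow_two_types (T : Sylow 2 G) {v : G} (hv : v ∈ (T : Subgroup G)) (hv2 : v ^ 2 ≠ 1) :
    IsCyclic ↥(T : Subgroup G) ∨ Nonempty (↥(T : Subgroup G) ≃* QuaternionGroup 2) := by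
  haveI : Fact (Nat.Prime 2) := ⟨Nat.prime_two⟩
  rcases types (p := 2) (iso_of_card hD T) T.isPGroup' with h | ⟨-, h⟩ | ⟨-, h⟩ | ⟨h, -⟩
  · exact Or.inl h
  · exact absurd (congrArg Subtype.val (h ⟨v, hv⟩)) (by simpa using hv2)
  · exact Or.inr h
  · exact absurd rfl h

omit hD in
/-- Such a 2-group has at most one involution. -/
theorem involution_unique {T : Type*} [Group T] [Finite T]
    (h : IsCyclic T ∨ Nonempty (T ≃* QuaternionGroup 2)) (a b : T) (ha : orderOf a = 2)
    (hb : orderOf b = 2) : a = b := by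
  rcases h with h | ⟨⟨e⟩⟩
  · classical
    haveI := h
    haveI := Fintype.ofFinite T
    by_contra hne
    have hle := IsCyclic.card_pow_eq_one_le (α := T) (n := 2) (by norm_num)
    have hsub : ({1, a, b} : Finset T) ⊆ Finset.univ.filter fun q : T => q ^ 2 = 1 := by
      intro q hq
      rw [Finset.mem_filter]
      simp only [Finset.mem_insert, Finset.mem_singleton] at hq
      refine ⟨Finset.mem_univ _, ?_⟩
      rcases hq with rfl | rfl | rfl
      · exact one_pow 2
      · exact ha ▸ pow_orderOf_eq_one q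
      · exact hb ▸ pow_orderOf_eq_one q
    have h3 := (Finset.card_le_card hsub).trans hle
    have ha1 : (1 : T) ≠ a := fun h => by rw [← h, orderOf_one] at ha; omega
    have hb1 : (1 : T) ≠ b := fun h => by rw [← h, orderOf_one] at hb; omega
    rw [Finset.card_eq_three.2 ⟨1, a, b, ha1, hb1, hne, rfl⟩] at h3
    omega
  · have key : ∀ q : QuaternionGroup 2, q * q = 1 → q = 1 ∨ q = QuaternionGroup.a 2 := by decide
    have h' : ∀ c : T, orderOf c = 2 → e c = QuaternionGroup.a 2 := fun c hc => by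
      rcases key (e c) (by
        rw [← map_mul, ← pow_two, show c ^ 2 = 1 from hc ▸ pow_orderOf_eq_one c, map_one]) with h | h
      · rw [MulEquiv.map_eq_one_iff] at h
        subst h
        simp at hc
      · exact h
    exact e.injective ((h' a ha).trans (h' b hb).symm)

omit hD in
/-- An element of `zpowers x` other than one generates, for `x` of prime order. -/
theorem mem_zpowers_of_mem_zpowers {p : ℕ} [hp : Fact p.Prime] {x w : G} (hx : orderOf x = p)
    (hw : w ∈ Subgroup.zpowers x) (hw1 : w ≠ 1) : x ∈ Subgroup.zpowers w := by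
  have hcard : Nat.card (Subgroup.zpowers x) = Nat.card (Subgroup.zpowers w) := by
    have h := Subgroup.card_dvd_of_le (Subgroup.zpowers_le.2 hw)
    rw [Nat.card_zpowers, Nat.card_zpowers, hx] at h ⊢
    rcases (Nat.dvd_prime hp.out).1 h with h | h
    · exact absurd (orderOf_eq_one_iff.1 h) hw1
    · exact h.symm
  rw [Subgroup.eq_of_le_of_card_ge (Subgroup.zpowers_le.2 hw) hcard.le]
  exact Subgroup.mem_zpowers x

/-- The extraspecial group of order `p ^ 3` and exponent `p` does not occur. -/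
theorem not_extraspecial {p : ℕ} [hp : Fact p.Prime] (hp2 : p ≠ 2) (S : Sylow p G)
    (hcard : Nat.card ↥(S : Subgroup G) = p ^ 3)
    (hexp : ∀ a : ↥(S : Subgroup G), a ^ p = 1)
    (hnc : ∃ a b : ↥(S : Subgroup G), ¬ Commute a b) : False := by
  classical
  haveI : Fact (Nat.Prime 2) := ⟨Nat.prime_two⟩
  set P := (S : Subgroup G) with hPdef
  have hexpG : ∀ a ∈ P, a ^ p = 1 := fun a ha => by
    simpa using congrArg Subtype.val (hexp ⟨a, ha⟩)
  have hord : ∀ a ∈ P, a ≠ 1 → orderOf a = p := fun a ha h1 =>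
    orderOf_eq_prime (hexpG a ha) h1
  -- the centre has order `p` and contains all commutators
  haveI hntP : Nontrivial P := by
    obtain ⟨a, b, hab⟩ := hnc
    exact ⟨⟨a, 1, fun h => hab (h ▸ Commute.one_left b)⟩⟩
  obtain ⟨k, hk⟩ := IsPGroup.iff_card.1 (S.isPGroup'.to_subgroup (Subgroup.center P))
  have hZcard : Nat.card (Subgroup.center P) = p := by
    haveI := S.isPGroup'.center_nontrivial
    have h1 : 1 < Nat.card (Subgroup.center P) := Finite.one_lt_card
    have hk0 : k ≠ 0 := by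
      rintro rfl
      rw [hk, pow_zero] at h1
      omega
    rcases Nat.lt_or_ge k 2 with hk2 | hk2
    · rw [hk, show k = 1 by omega, pow_one]
    exfalso
    have hidx : (Subgroup.center P).index ∣ p := by
      have := Subgroup.card_mul_index (Subgroup.center P)
      rw [hcard, hk] at this
      have hd : p ^ 2 ∣ p ^ k := pow_dvd_pow p hk2
      have h3 : p ^ 2 * (Subgroup.center P).index ∣ p ^ 2 * p := by
        rw [← pow_succ, ← this]
        exact mul_dvd_mul_right hd _
      exact Nat.dvd_of_mul_dvd_mul_left (pow_pos hp.out.pos 2) h3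
    haveI : IsCyclic (P ⧸ Subgroup.center P) := by
      rcases (Nat.dvd_prime hp.out).1 hidx with h | h
      · haveI : Subsingleton (P ⧸ Subgroup.center P) := by
          rw [← Nat.card_eq_one_iff_unique.trans (and_iff_left ⟨1⟩), ← Subgroup.index_eq_card, h]
        infer_instance
      · exact isCyclic_of_prime_card (p := p) (by rw [← Subgroup.index_eq_card, h])
    obtain ⟨a, b, hab⟩ := hnc
    exact hab (commutative_of_cyclic_center_quotient (QuotientGroup.mk' (Subgroup.center P))
      (by rw [QuotientGroup.ker_mk']) a b)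
  have hquot : ∀ a b : P, a * b * a⁻¹ * b⁻¹ ∈ Subgroup.center P := fun a b => by
    have hidx : Nat.card (P ⧸ Subgroup.center P) = p ^ 2 := by
      have := Subgroup.card_mul_index (Subgroup.center P)
      rw [hcard, hZcard, ← Subgroup.index_eq_card] at *
      exact Nat.eq_of_mul_eq_mul_left hp.out.pos (by rw [this]; ring)
    haveI : IsMulCommutative (P ⧸ Subgroup.center P) :=
      IsPGroup.isMulCommutative_of_card_eq_prime_sq hidx
    rw [← QuotientGroup.eq_one_iff (N := Subgroup.center P)]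
    simp only [QuotientGroup.mk_mul, QuotientGroup.mk_inv]
    rw [IsMulCommutative.is_comm.comm (a : P ⧸ Subgroup.center P) (b : P ⧸ Subgroup.center P)]
    group
  obtain ⟨y₀, x₀, hyx⟩ := hnc
  set y : G := (y₀ : G) with hy
  set x : G := (x₀ : G) with hx
  have hyP : y ∈ P := y₀.2
  have hxP : x ∈ P := x₀.2
  set z : G := y * x * y⁻¹ * x⁻¹ with hz
  have hzP : z ∈ P := mul_mem (mul_mem (mul_mem hyP hxP) (inv_mem hyP)) (inv_mem hxP)
  have hz1 : z ≠ 1 := fun h => hyx (Subtype.ext (by
    show y * x = x * y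
    calc y * x = (y * x * y⁻¹ * x⁻¹) * (x * y) := by group
      _ = x * y := by rw [← hz, h, one_mul]))
  have hcen : ∀ a ∈ P, ∀ b ∈ P, a * b * a⁻¹ * b⁻¹ ∈ Subgroup.zpowers z := by
    have hzc : (⟨z, hzP⟩ : P) ∈ Subgroup.center P := hquot y₀ x₀
    have heq : Subgroup.zpowers (⟨z, hzP⟩ : P) = Subgroup.center P :=
      Subgroup.eq_of_le_of_card_ge (Subgroup.zpowers_le.2 hzc) (by
        rw [hZcard, Nat.card_zpowers, ← Subgroup.orderOf_coe, hord z hzP hz1])
    intro a ha b hb
    have := hquot ⟨a, ha⟩ ⟨b, hb⟩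
    rw [← heq, Subgroup.mem_zpowers_iff] at this
    obtain ⟨i, hi⟩ := this
    exact Subgroup.mem_zpowers_iff.2 ⟨i, by simpa using congrArg Subtype.val hi⟩
  have hzcomm : ∀ a ∈ P, Commute z a := fun a ha => by
    have := Subgroup.mem_center_iff.1 (hquot y₀ x₀) ⟨a, ha⟩
    exact (congrArg Subtype.val this).symm
  have hcenter : ∀ a ∈ P, (∀ b ∈ P, Commute a b) → a ∈ Subgroup.zpowers z := by
    intro a ha h
    have hac : (⟨a, ha⟩ : P) ∈ Subgroup.center P :=
      Subgroup.mem_center_iff.2 fun b => Subtype.ext (h b b.2).symm.eq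
    have hzc : (⟨z, hzP⟩ : P) ∈ Subgroup.center P := hquot y₀ x₀
    rw [← Subgroup.eq_of_le_of_card_ge (Subgroup.zpowers_le.2 hzc) (by
        rw [hZcard, Nat.card_zpowers, ← Subgroup.orderOf_coe, hord z hzP hz1]),
      Subgroup.mem_zpowers_iff] at hac
    obtain ⟨i, hi⟩ := hac
    exact Subgroup.mem_zpowers_iff.2 ⟨i, by simpa using congrArg Subtype.val hi⟩
  have hzy : Commute z y := hzcomm y hyP
  have hzx : Commute z x := hzcomm x hxP
  have hxz : x ∉ Subgroup.zpowers z := fun h => hz1 (by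
    obtain ⟨i, hi⟩ := Subgroup.mem_zpowers_iff.1 h
    have h1 : Commute y x := hi ▸ (hzy.symm.zpow_right i)
    rw [hz, h1.eq]
    group)
  have hx1 : x ≠ 1 := fun h => hxz (h ▸ one_mem _)
  have hoz : orderOf z = p := hord z hzP hz1
  have hox : orderOf x = p := hord x hxP hx1
  -- normal subgroups: nontrivial intersection with `P` means containing `P`
  have hdich : ∀ N : Subgroup G, N.Normal → ∀ a ∈ P, a ≠ 1 → a ∈ N → P ≤ N := by
    intro N hN a ha ha1 haN
    set Q := P ⊓ N with hQ
    obtain ⟨j, hj⟩ := IsPGroup.iff_card.1 (S.isPGroup'.to_le (inf_le_left : Q ≤ P))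
    have huniq : ∀ F : Subgroup G, F ≤ P → Nat.card F = Nat.card Q → F ≤ N := by
      intro F hF hFc
      obtain ⟨g, hg⟩ := hD p hp.out Q F (S.isPGroup'.to_le inf_le_left) (S.isPGroup'.to_le hF)
        hFc.symm
      rw [hg]
      rintro _ ⟨q, hq, rfl⟩
      exact hN.conj_mem q hq.2 g
    have hj1 : 1 ≤ j := by
      by_contra h
      have : Q = ⊥ := Subgroup.card_eq_one.1 (by rw [hj, show j = 0 by omega, pow_zero])
      have hmem : a ∈ Q := ⟨ha, haN⟩
      rw [this, Subgroup.mem_bot] at hmem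
      exact ha1 hmem
    have hj3 : j ≤ 3 := by
      have h := Subgroup.card_dvd_of_le (inf_le_left : Q ≤ P)
      rw [hj, hcard] at h
      exact (Nat.pow_dvd_pow_iff_le_right hp.out.one_lt).1 h
    rcases eq_or_ne j 3 with rfl | hj3'
    · rw [← inf_eq_left]
      exact Subgroup.eq_of_le_of_card_ge inf_le_left (by rw [hj, hcard])
    intro b hb
    rcases eq_or_ne j 1 with rfl | hj1'
    · rcases eq_or_ne b 1 with rfl | hb1
      · exact one_mem _
      exact huniq (Subgroup.zpowers b) (Subgroup.zpowers_le.2 hb)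
        (by rw [hj, pow_one, Nat.card_zpowers, hord b hb hb1]) (Subgroup.mem_zpowers b)
    · have hj2 : j = 2 := by omega
      have sup2 : ∀ c ∈ P, c ∉ Subgroup.zpowers z →
          Nat.card ↥(Subgroup.zpowers z ⊔ Subgroup.zpowers c) = p ^ 2 := by
        intro c hc hcz
        have hc1 : c ≠ 1 := fun h => hcz (h ▸ one_mem _)
        rw [card_sup_of_commute (fun h hh k hk => by
            obtain ⟨i, rfl⟩ := Subgroup.mem_zpowers_iff.1 hh
            obtain ⟨l, rfl⟩ := Subgroup.mem_zpowers_iff.1 hk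
            exact (hzcomm c hc).zpow_zpow i l)
          (inf_zpowers_eq_bot (hord c hc hc1) hcz), Nat.card_zpowers, Nat.card_zpowers, hoz,
          hord c hc hc1, pow_two]
      have hzN : z ∈ N := huniq _ (sup_le (Subgroup.zpowers_le.2 hzP) (Subgroup.zpowers_le.2 hxP))
        (by rw [hj, hj2, sup2 x hxP hxz]) (Subgroup.mem_sup_left (Subgroup.mem_zpowers z))
      by_cases hbz : b ∈ Subgroup.zpowers z
      · exact Subgroup.zpowers_le.2 hzN hbz
      · exact huniq _ (sup_le (Subgroup.zpowers_le.2 hzP) (Subgroup.zpowers_le.2 hb))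
          (by rw [hj, hj2, sup2 b hb hbz]) (Subgroup.mem_sup_right (Subgroup.mem_zpowers b))
  -- so no solvable normal subgroup meets `P`
  have hnosol : ∀ N : Subgroup G, N.Normal → Group.IsSolvable N →
      ∀ a ∈ P, a ≠ 1 → a ∉ N := by
    intro N hN hsol a ha ha1 haN
    have hPN := hdich N hN a ha ha1 haN
    obtain ⟨n, hn⟩ := hsol.solvable
    have key : ∀ i : ℕ, P ≤ (derivedSeries N i).map N.subtype := by
      intro i
      induction i with
      | zero => rw [derivedSeries_zero, ← MonoidHom.range_eq_map, N.range_subtype]; exact hPN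
      | succ i ih =>
        haveI : ((derivedSeries N (i + 1)).map N.subtype).Normal := inferInstance
        refine hdich _ inferInstance z hzP hz1 ?_
        obtain ⟨y', hy', hy''⟩ := ih hyP
        obtain ⟨x', hx', hx''⟩ := ih hxP
        refine ⟨⁅y', x'⁆, ?_, ?_⟩
        · rw [derivedSeries_succ]
          exact Subgroup.commutator_mem_commutator hy' hx'
        · rw [commutatorElement_def, map_mul, map_mul, map_mul, map_inv, map_inv, hy'', hx'']
    obtain ⟨b, hb, hb'⟩ := key n hzP
    rw [hn, SetLike.mem_coe, Subgroup.mem_bot] at hb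
    exact hz1 (by rw [← hb', hb, map_one])
  -- the elementary subgroup `E`
  set E := Subgroup.zpowers z ⊔ Subgroup.zpowers x with hEdef
  have hcomm_zx : ∀ h ∈ Subgroup.zpowers z, ∀ k ∈ Subgroup.zpowers x, Commute h k := by
    intro h hh k hk
    obtain ⟨i, rfl⟩ := Subgroup.mem_zpowers_iff.1 hh
    obtain ⟨l, rfl⟩ := Subgroup.mem_zpowers_iff.1 hk
    exact hzx.zpow_zpow i l
  have hEP : E ≤ P := sup_le (Subgroup.zpowers_le.2 hzP) (Subgroup.zpowers_le.2 hxP)
  have hEcard : Nat.card E = p ^ 2 := by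
    rw [hEdef, card_sup_of_commute hcomm_zx (inf_zpowers_eq_bot hox hxz), Nat.card_zpowers,
      Nat.card_zpowers, hoz, hox, pow_two]
  have hEc : ∀ a ∈ E, ∀ b ∈ E, Commute a b :=
    comm_sup_of_commute (fun a ha b hb => commute_of_mem_zpowers ha hb)
      (fun a ha b hb => commute_of_mem_zpowers ha hb) hcomm_zx
  have hzE : z ∈ E := Subgroup.mem_sup_left (Subgroup.mem_zpowers z)
  have hxE : x ∈ E := Subgroup.mem_sup_right (Subgroup.mem_zpowers x)
  have hPF : ∀ F : Subgroup G, F ≤ P → z ∈ F → ∀ s ∈ P, s ∈ Subgroup.normalizer (F : Set G) := by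
    intro F hF hzF
    have hstep : ∀ s ∈ P, ∀ f ∈ F, s * f * s⁻¹ ∈ F := fun s hs f hf => by
      have := mul_mem (Subgroup.zpowers_le.2 hzF (hcen s hs f (hF hf))) hf
      simpa [mul_assoc] using this
    intro s hs
    rw [Subgroup.mem_normalizer_iff]
    intro f
    refine ⟨hstep s hs f, fun h => ?_⟩
    have := hstep s⁻¹ (inv_mem hs) _ h
    rw [inv_inv] at this
    convert this using 1
    group
  -- a conjugate of `P` over `E` with centre `⟨x⟩`
  obtain ⟨g, hg⟩ := hD p hp.out (Subgroup.zpowers z) (Subgroup.zpowers x)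
    (S.isPGroup'.to_le (Subgroup.zpowers_le.2 hzP)) (S.isPGroup'.to_le (Subgroup.zpowers_le.2 hxP))
    (by rw [Nat.card_zpowers, Nat.card_zpowers, hoz, hox])
  rw [MonoidHom.map_zpowers] at hg
  set H := Subgroup.centralizer ({x} : Set G) with hH
  have hSH : ((g • S : Sylow p G) : Subgroup G) ≤ H := by
    intro e he
    rw [mem_smul_sylow] at he
    rw [hH, Subgroup.mem_centralizer_singleton_iff]
    obtain ⟨i, hi⟩ := Subgroup.mem_zpowers_iff.1 (hg ▸ Subgroup.mem_zpowers x)
    rw [← map_zpow] at hi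
    have hc := ((hzcomm _ he).zpow_left i).eq
    change g * z ^ i * g⁻¹ = x at hi
    rw [← hi]
    calc e * (g * z ^ i * g⁻¹) = g * (g⁻¹ * e * g * z ^ i) * g⁻¹ := by group
      _ = g * (z ^ i * (g⁻¹ * e * g)) * g⁻¹ := by rw [hc]
      _ = g * z ^ i * g⁻¹ * e := by group
  have hEH : E ≤ H := fun e he => by
    rw [hH, Subgroup.mem_centralizer_singleton_iff]
    exact (hEc e he x hxE).eq
  obtain ⟨T₀, hT₀⟩ :=
    ((S.isPGroup'.to_le hEP).comap_subtype (K := H)).exists_le_sylow
  obtain ⟨c, hc⟩ := MulAction.exists_smul_eq H ((g • S : Sylow p G).subtype hSH) T₀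
  set k := (c : G) * g with hkdef
  have hEk : ∀ e ∈ E, k⁻¹ * e * k ∈ P := by
    intro e he
    have h := hT₀ (show (⟨e, hEH he⟩ : H) ∈ E.subgroupOf H from he)
    rw [← hc, mem_smul_sylow, Sylow.coe_subtype, Subgroup.mem_subgroupOf, mem_smul_sylow] at h
    simpa [hkdef, mul_assoc] using h
  have hkz : k * z * k⁻¹ ∈ Subgroup.zpowers x ∧ k * z * k⁻¹ ≠ 1 := by
    refine ⟨?_, fun h => hz1 (conj_eq_one_iff.1 h)⟩
    have h1 : g * z * g⁻¹ ∈ Subgroup.zpowers x := by rw [hg]; exact Subgroup.mem_zpowers _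
    obtain ⟨i, hi⟩ := Subgroup.mem_zpowers_iff.1 h1
    have hcx : Commute (c : G) x := Subgroup.mem_centralizer_singleton_iff.1 c.2
    rw [show k * z * k⁻¹ = (c : G) * (g * z * g⁻¹) * (c : G)⁻¹ by rw [hkdef]; group, ← hi,
      (hcx.zpow_right i).eq, mul_inv_cancel_right, hi]
    exact h1
  set S₂ : Sylow p G := k • S with hS₂
  set NE := Subgroup.normalizer (E : Set G) with hNE
  have hSN : (S : Subgroup G) ≤ NE := fun s hs => hPF E hEP hzE s hs
  have hS₂N : ((S₂ : Sylow p G) : Subgroup G) ≤ NE := by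
    intro e he
    rw [hS₂, mem_smul_sylow] at he
    set F := E.map (MulAut.conj k⁻¹).toMonoidHom with hF
    have hFP : F ≤ P := by
      rintro _ ⟨f, hf, rfl⟩
      simpa using hEk f hf
    have hzF : z ∈ F := by
      refine ⟨k * z * k⁻¹, Subgroup.zpowers_le.2 hxE hkz.1, ?_⟩
      show k⁻¹ * (k * z * k⁻¹) * k⁻¹⁻¹ = z
      group
    have hn := Subgroup.mem_normalizer_iff.1 (hPF F hFP hzF _ he)
    have hmem : ∀ f, f ∈ E ↔ k⁻¹ * f * k ∈ F := fun f => by
      constructor
      · exact fun hf => ⟨f, hf, by simp⟩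
      · rintro ⟨f', hf', e'⟩
        have : f' = f := by simpa using e'
        rwa [← this]
    rw [hNE, Subgroup.mem_normalizer_iff]
    intro f
    rw [hmem, hmem, hn (k⁻¹ * f * k)]
    constructor <;> intro h <;> convert h using 1 <;> group
  obtain ⟨n, hn⟩ := MulAction.exists_smul_eq NE (S.subtype hSN) (S₂.subtype hS₂N)
  have hS₂eq : ∀ e ∈ NE, (k⁻¹ * e * k ∈ P ↔ (n : G)⁻¹ * e * n ∈ P) := fun e he => by
    have h := congrArg (fun T : Sylow p NE => (⟨e, he⟩ : NE) ∈ (T : Subgroup NE)) hn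
    simp only [mem_smul_sylow, Sylow.coe_subtype, Subgroup.mem_subgroupOf, hS₂,
      Subgroup.coe_mul, Subgroup.coe_inv] at h
    exact (iff_of_eq h).symm
  set z' : G := (n : G) * z * (n : G)⁻¹ with hz'
  have hz'E : z' ∈ E := (Subgroup.mem_normalizer_iff.1 n.2 z).1 hzE
  have hz'x : z' ∈ Subgroup.zpowers x := by
    have h1 : k⁻¹ * z' * k ∈ Subgroup.zpowers z := by
      refine hcenter _ (hEk z' hz'E) fun b hb => ?_
      have he : k * b * k⁻¹ ∈ NE := hS₂N (by
        rw [hS₂, mem_smul_sylow]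
        convert hb using 1
        group)
      have hb' := (hS₂eq _ he).1 (by convert hb using 1; group)
      have hcom := (hzcomm _ hb').eq
      show k⁻¹ * z' * k * b = b * (k⁻¹ * z' * k)
      calc k⁻¹ * z' * k * b
          = k⁻¹ * n * (z * ((n : G)⁻¹ * (k * b * k⁻¹) * n)) * (n : G)⁻¹ * k := by rw [hz']; group
        _ = k⁻¹ * n * (((n : G)⁻¹ * (k * b * k⁻¹) * n) * z) * (n : G)⁻¹ * k := by rw [hcom]
        _ = b * (k⁻¹ * z' * k) := by rw [hz']; group
    obtain ⟨i, hi⟩ := Subgroup.mem_zpowers_iff.1 h1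
    have e : z' = (k * z * k⁻¹) ^ i := by rw [conj_zpow, hi]; group
    rw [e]
    exact zpow_mem hkz.1 i
  have hz'1 : z' ≠ 1 := fun h => hz1 (conj_eq_one_iff.1 h)
  set y' : G := (n : G) * y * (n : G)⁻¹ with hy'
  have hy'x : Commute y' x := by
    obtain ⟨i, hi⟩ := Subgroup.mem_zpowers_iff.1 (mem_zpowers_of_mem_zpowers hox hz'x hz'1)
    rw [← hi]
    refine Commute.zpow_right ?_ i
    show y' * z' = z' * y'
    calc y' * z' = (n : G) * (y * z) * (n : G)⁻¹ := by rw [hy', hz']; group
      _ = (n : G) * (z * y) * (n : G)⁻¹ := by rw [hzy.eq]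
      _ = z' * y' := by rw [hy', hz']; group
  -- `y'` moves `z` by a nontrivial element of `⟨x⟩`
  set e : G := (n : G)⁻¹ * z * n with he
  have heE : e ∈ E := by
    rw [Subgroup.mem_normalizer_iff.1 n.2 e]
    convert hzE using 1
    rw [he]
    group
  set d : G := y' * z * y'⁻¹ * z⁻¹ with hd
  have hdx : d ∈ Subgroup.zpowers x := by
    obtain ⟨i, hi⟩ := Subgroup.mem_zpowers_iff.1 (hcen y hyP e (hEP heE))
    have e1 : d = z' ^ i := by rw [hz', conj_zpow, hi, hd, hy', he]; group
    rw [e1]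
    exact zpow_mem hz'x i
  have hd1 : d ≠ 1 := by
    intro h
    have hye : Commute y e := by
      show y * e = e * y
      calc y * e = (n : G)⁻¹ * (y' * z * y'⁻¹ * z⁻¹) * (z * y') * n := by rw [he, hy']; group
        _ = e * y := by rw [← hd, h, he, hy']; group
    have hez : e ∉ Subgroup.zpowers z := by
      intro hez
      obtain ⟨i, hi⟩ := Subgroup.mem_zpowers_iff.1 hez
      have : z ∈ Subgroup.zpowers x := by
        rw [show z = z' ^ i by rw [hz', conj_zpow, hi, he]; group]
        exact zpow_mem hz'x i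
      exact hxz (mem_zpowers_of_mem_zpowers hox this hz1)
    have he1 : e ≠ 1 := fun h' => hez (h' ▸ one_mem _)
    have hle : Subgroup.zpowers z ⊔ Subgroup.zpowers e = E := by
      refine Subgroup.eq_of_le_of_card_ge
        (sup_le (Subgroup.zpowers_le.2 hzE) (Subgroup.zpowers_le.2 heE)) (le_of_eq ?_)
      rw [hEcard, card_sup_of_commute (fun a ha b hb => hEc a (Subgroup.zpowers_le.2 hzE ha) b
          (Subgroup.zpowers_le.2 heE hb)) (inf_zpowers_eq_bot (hord e (hEP heE) he1) hez),
        Nat.card_zpowers, Nat.card_zpowers, hoz, hord e (hEP heE) he1, pow_two]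
    have hxy : E ≤ Subgroup.centralizer ({y} : Set G) := by
      rw [← hle]
      exact sup_le (Subgroup.zpowers_le.2 (Subgroup.mem_centralizer_singleton_iff.2 hzy.eq))
        (Subgroup.zpowers_le.2 (Subgroup.mem_centralizer_singleton_iff.2 hye.symm.eq))
    refine hz1 ?_
    rw [hz, ← (Subgroup.mem_centralizer_singleton_iff.1 (hxy hxE))]
    group
  obtain ⟨j, hj⟩ : ∃ j : ℕ, d ^ j = x⁻¹ :=
    Submonoid.mem_powers_iff _ _ |>.1 (mem_powers_iff_mem_zpowers.2
      (inv_mem (mem_zpowers_of_mem_zpowers hox hdx hd1)))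
  have hdy : Commute y' d := by
    obtain ⟨i, hi⟩ := Subgroup.mem_zpowers_iff.1 hdx
    rw [← hi]
    exact hy'x.zpow_right i
  have hpow : ∀ l : ℕ, y' ^ l * z * (y' ^ l)⁻¹ = d ^ l * z := by
    intro l
    induction l with
    | zero => simp
    | succ l ih =>
      calc y' ^ (l + 1) * z * (y' ^ (l + 1))⁻¹
          = y' * (y' ^ l * z * (y' ^ l)⁻¹) * y'⁻¹ := by rw [pow_succ']; group
        _ = y' * (d ^ l * z) * y'⁻¹ := by rw [ih]
        _ = (y' * d ^ l) * (z * y'⁻¹) := by group
        _ = (d ^ l * y') * (z * y'⁻¹) := by rw [(hdy.pow_right l).eq]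
        _ = d ^ l * d * z := by rw [hd]; group
        _ = _ := by rw [pow_succ]
  set a := y' ^ j with ha
  have haz : a * z * a⁻¹ = x⁻¹ * z := by rw [ha, hpow, hj]
  have hax : a * x * a⁻¹ = x := by rw [ha, (hy'x.pow_left j).eq, mul_inv_cancel_right]
  have hyz : y * z * y⁻¹ = z := by rw [← hzy.eq, mul_inv_cancel_right]
  have hyx' : y * x * y⁻¹ = z * x := by rw [hz]; group
  set w := y * a * y with hw
  have hwz : w * z * w⁻¹ = x⁻¹ := by
    calc w * z * w⁻¹ = y * (a * (y * z * y⁻¹) * a⁻¹) * y⁻¹ := by rw [hw]; group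
      _ = y * (x⁻¹ * z) * y⁻¹ := by rw [hyz, haz]
      _ = (y * x * y⁻¹)⁻¹ * (y * z * y⁻¹) := by group
      _ = x⁻¹ := by rw [hyz, hyx', mul_inv_rev, inv_mul_cancel_right]
  have hwx : w * x * w⁻¹ = z := by
    calc w * x * w⁻¹ = y * (a * (y * x * y⁻¹) * a⁻¹) * y⁻¹ := by rw [hw]; group
      _ = y * ((a * z * a⁻¹) * (a * x * a⁻¹)) * y⁻¹ := by rw [hyx']; group
      _ = y * (x⁻¹ * z * x) * y⁻¹ := by rw [haz, hax]
      _ = y * z * y⁻¹ := by rw [mul_assoc x⁻¹, hzx.eq, inv_mul_cancel_left]
      _ = z := hyz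
  have hww : (w * w) * z * (w * w)⁻¹ = z⁻¹ := by
    calc (w * w) * z * (w * w)⁻¹ = w * (w * z * w⁻¹) * w⁻¹ := by group
      _ = (w * x * w⁻¹)⁻¹ := by rw [hwz]; group
      _ = z⁻¹ := by rw [hwx]
  -- its 2-part
  obtain ⟨r, m, hm, hwo⟩ :=
    Nat.exists_eq_pow_mul_and_not_dvd (orderOf_pos w).ne' 2 (by norm_num)
  have hww2 : ∀ u : G, u * z * u⁻¹ = z⁻¹ → ∀ l : ℕ,
      u ^ (2 * l + 1) * z * (u ^ (2 * l + 1))⁻¹ = z⁻¹ := by
    intro u hu l
    induction l with
    | zero => simpa using hu
    | succ l ih =>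
      calc u ^ (2 * (l + 1) + 1) * z * (u ^ (2 * (l + 1) + 1))⁻¹
          = u * (u * (u ^ (2 * l + 1) * z * (u ^ (2 * l + 1))⁻¹) * u⁻¹) * u⁻¹ := by
            rw [show 2 * (l + 1) + 1 = 2 * l + 1 + 1 + 1 by ring, pow_succ', pow_succ']; group
        _ = u * (u * z * u⁻¹)⁻¹ * u⁻¹ := by rw [ih]; group
        _ = z⁻¹ := by rw [hu, inv_inv, hu]
  set v := w ^ m with hv
  have hv2z : v ^ 2 * z * (v ^ 2)⁻¹ = z⁻¹ := by
    obtain ⟨l, hl⟩ : ∃ l, m = 2 * l + 1 := ⟨m / 2, by omega⟩
    have e : v ^ 2 = (w * w) ^ (2 * l + 1) := by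
      rw [hv, ← pow_mul, ← pow_two, ← pow_mul, hl, mul_comm]
    rw [e]
    exact hww2 _ hww l
  have hzinv : z ≠ z⁻¹ := fun h => hp2 (by
    have h2 : orderOf z ∣ 2 := orderOf_dvd_of_pow_eq_one (by
      rw [pow_two]; nth_rw 2 [h]; exact mul_inv_cancel z)
    rw [hoz] at h2
    exact (Nat.prime_dvd_prime_iff_eq hp.out Nat.prime_two).1 h2)
  have hv2 : v ^ 2 ≠ 1 := fun h => hzinv (by simpa [h] using hv2z)
  have hvo : orderOf v = 2 ^ r := by
    rw [hv, orderOf_pow_of_dvd (by omega) (Dvd.intro_left _ hwo.symm), hwo,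
      Nat.mul_div_cancel _ (by omega : 0 < m)]
  have hr : 2 ≤ r := by
    by_contra h
    apply hv2
    rw [← orderOf_dvd_iff_pow_eq_one, hvo]
    calc 2 ^ r ∣ 2 ^ 1 := pow_dvd_pow 2 (by omega)
      _ = 2 := rfl
  obtain ⟨T, hT⟩ := (IsPGroup.of_card (p := 2) (G := Subgroup.zpowers v) (n := r)
    (by rw [Nat.card_zpowers, hvo])).exists_le_sylow
  have hvT : v ∈ (T : Subgroup G) := hT (Subgroup.mem_zpowers v)
  have hT2 := sylow_two_types hD T hvT hv2
  -- all involutions are conjugate and no two commute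
  have hinv : ∀ a b : G, a ∈ (T : Subgroup G) → b ∈ (T : Subgroup G) → orderOf a = 2 →
      orderOf b = 2 → a = b := fun a b ha hb hoa hob => congrArg Subtype.val
    (involution_unique hT2 ⟨a, ha⟩ ⟨b, hb⟩ (by rwa [← Subgroup.orderOf_coe])
      (by rwa [← Subgroup.orderOf_coe]))
  have htoT : ∀ Q : Subgroup G, IsPGroup 2 Q →
      ∃ h : G, ∀ q ∈ Q, h * q * h⁻¹ ∈ (T : Subgroup G) := by
    intro Q hQ
    obtain ⟨T', hT'⟩ := hQ.exists_le_sylow
    obtain ⟨h, hh⟩ := MulAction.exists_smul_eq G T' T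
    refine ⟨h, fun q hq => ?_⟩
    rw [← hh, mem_smul_sylow]
    convert hT' hq using 1
    group
  have hrank : ∀ V : Subgroup G, ¬ IsKleinFour V := by
    intro V hV
    haveI := hV
    have hcardV : Nat.card V = 4 := IsKleinFour.card_four
    obtain ⟨h, hh⟩ := htoT V (IsPGroup.of_card (n := 2) (by rw [hcardV]; norm_num))
    have hsq : ∀ q : V, q ≠ 1 → orderOf (h * (q : G) * h⁻¹) = 2 := fun q hq => by
      rw [show h * (q : G) * h⁻¹ = (MulAut.conj h) (q : G) from rfl, MulEquiv.orderOf_eq,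
        Subgroup.orderOf_coe]
      refine orderOf_eq_prime ?_ hq
      have := Monoid.pow_exponent_eq_one q
      rwa [IsKleinFour.exponent_two] at this
    haveI : Fintype V := Fintype.ofFinite V
    obtain ⟨a, ha⟩ : ∃ a : V, a ≠ 1 := by
      by_contra hall
      push Not at hall
      haveI : Subsingleton V := ⟨fun a b => (hall a).trans (hall b).symm⟩
      rw [Nat.card_unique] at hcardV
      norm_num at hcardV
    have hall : ∀ b : V, b = 1 ∨ b = a := fun b => by
      by_cases hb : b = 1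
      · exact Or.inl hb
      refine Or.inr (Subtype.ext ?_)
      simpa using hinv _ _ (hh b b.2) (hh a a.2) (hsq b hb) (hsq a ha)
    have hle : Fintype.card V ≤ ({1, a} : Finset V).card :=
      Finset.card_le_card fun b _ => by
        rcases hall b with h | h <;> simp [h]
    have := (hle.trans Finset.card_le_two)
    rw [Nat.card_eq_fintype_card] at hcardV
    omega
  set t := v ^ 2 ^ (r - 1) with ht
  have hto : orderOf t = 2 := by
    rw [ht, orderOf_pow_of_dvd (by positivity) (by rw [hvo]; exact pow_dvd_pow 2 (by omega)), hvo,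
      Nat.pow_div (by omega) (by norm_num), show r - (r - 1) = 1 by omega, pow_one]
  obtain ⟨z₀, hz₀, N, hN, hNodd, hNc⟩ := S0225.result (G := G)
    (even_iff_two_dvd.2 (hto ▸ orderOf_dvd_natCard t)) hrank
  have hsolN : Group.IsSolvable N := S0205.result hNodd
  have hzN : z ∈ N := by
    by_cases hr2 : r = 2
    · subst hr2
      obtain ⟨h, hh⟩ := htoT (Subgroup.zpowers z₀)
        (IsPGroup.of_card (n := 1) (by rw [Nat.card_zpowers, hz₀, pow_one]))
      have htT : t ∈ (T : Subgroup G) := pow_mem hvT _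
      have e : h * z₀ * h⁻¹ = t := hinv _ _ (hh z₀ (Subgroup.mem_zpowers z₀)) htT
        (by rw [show h * z₀ * h⁻¹ = (MulAut.conj h) z₀ from rfl, MulEquiv.orderOf_eq, hz₀]) hto
      have hmem : t * z * t⁻¹ * z⁻¹ ∈ N := by
        rw [← e, show h * z₀ * h⁻¹ * z * (h * z₀ * h⁻¹)⁻¹ * z⁻¹
          = h * (z₀ * (h⁻¹ * z * h) * z₀⁻¹ * (h⁻¹ * z * h)⁻¹) * h⁻¹ by group]
        exact hN.conj_mem _ (hNc _) h
      have ht2 : t * z * t⁻¹ = z⁻¹ := by rw [ht]; simpa using hv2z
      rw [ht2] at hmem
      have hsq : z ^ 2 ∈ N := by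
        have := inv_mem hmem
        simpa [pow_two] using this
      have hpz : (z ^ 2) ^ ((p + 1) / 2) = z := by
        obtain ⟨l, hl⟩ := hp.out.odd_of_ne_two hp2
        rw [← pow_mul, show 2 * ((p + 1) / 2) = p + 1 by omega, pow_succ, hexpG z hzP, one_mul]
      exact hpz ▸ pow_mem hsq _
    · rcases hT2 with hcyc | ⟨⟨eT⟩⟩
      · haveI : IsCyclic (T : Subgroup G) := hcyc
        exfalso
        have hmin : (Nat.card G).minFac = 2 :=
          (Nat.minFac_eq_two_iff _).2 (hto ▸ orderOf_dvd_natCard t)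
        have hcompl := IsCyclic.isComplement' (P := T) hmin hcyc
        set K := (MonoidHom.transferSylow T (hcyc.normalizer_le_centralizer hmin)).ker with hK
        have hKodd : Odd (Nat.card K) := by
          rw [← hcompl.index_eq_card, Nat.odd_iff]
          have := T.not_dvd_index
          omega
        have hzK : z ∈ K := by
          rw [hK, MonoidHom.mem_ker]
          have h1 : orderOf ((MonoidHom.transferSylow T (hcyc.normalizer_le_centralizer hmin)) z)
              ∣ p := hoz ▸ orderOf_map_dvd _ z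
          obtain ⟨i, hi⟩ := IsPGroup.iff_orderOf.1 T.isPGroup'
            ((MonoidHom.transferSylow T (hcyc.normalizer_le_centralizer hmin)) z)
          rw [hi] at h1
          rcases (Nat.dvd_prime hp.out).1 h1 with h | h
          · exact orderOf_eq_one_iff.1 (hi.trans h)
          · exact absurd ((Nat.prime_dvd_prime_iff_eq Nat.prime_two hp.out).1
              (h ▸ dvd_pow_self 2 (fun h0 => by rw [h0, pow_zero] at h; exact hp.out.ne_one h.symm)))
              (fun e => hp2 e.symm)
        exact hnosol K inferInstance (S0205.result hKodd) z hzP hz1 hzK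
      · exfalso
        have h1 : orderOf v ∣ 4 := by
          rw [show orderOf v = orderOf (eT ⟨v, hvT⟩) by
            rw [MulEquiv.orderOf_eq, ← Subgroup.orderOf_coe]]
          refine (Monoid.order_dvd_exponent _).trans ?_
          rw [QuaternionGroup.exponent]
          decide
        rw [hvo] at h1
        have h2 := Nat.le_of_dvd (by norm_num) h1
        have h3 : 2 ^ 3 ≤ 2 ^ r := Nat.pow_le_pow_right (by norm_num) (by omega)
        omega
  exact hnosol N hN hsolN z hzP hz1 hzN

/-- The statement of S4020. -/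
theorem main {p : ℕ} [hp : Fact p.Prime] (S : Sylow p G) :
    IsCyclic S ∨ Cfsg.IsElementaryAbelian p (S : Subgroup G) ∨
      Nonempty ((S : Subgroup G) ≃* QuaternionGroup 2) := by
  rcases types (iso_of_card hD S) S.isPGroup' with h | ⟨hc, he⟩ | ⟨-, h⟩ | ⟨h2, h3, he, hnc⟩
  · exact Or.inl h
  · refine Or.inr (Or.inl ⟨⟨⟨fun a b => (hc a b).eq⟩⟩, fun a ha => ?_⟩)
    simpa using congrArg Subtype.val (he ⟨a, ha⟩)
  · exact Or.inr (Or.inr h)
  · exact (not_extraspecial hD h2 S h3 he hnc).elim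

end Cfsg.Agent.H45.EqualOrder
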