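import Cfsg.Agent.H26.CharFS
import Cfsg.Agent.H25.IndRep
import Mathlib.LinearAlgebra.Matrix.SesquilinearForm
import Mathlib.LinearAlgebra.Matrix.BilinearForm

/-!
# Frobenius–Schur indicator and invariant symmetric forms

An irreducible representation has indicator one exactly when it has a nonzero invariant symmetric
bilinear form; consequences for induced characters.
-/

set_option autoImplicit false

open scoped ComplexConjugate
open Module

namespace Cfsg.Agent.H45

variable {G : Type*} [Group G] [Fintype G]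

section MatrixForm

variable {ι : Type*} [Fintype ι] [DecidableEq ι]

/-- The contragredient of a matrix representation. -/
noncomputable def contraHom (A : G →* Matrix ι ι ℂ) : G →* Matrix ι ι ℂ where
  toFun g := (A g⁻¹).transpose
  map_one' := by rw [inv_one, map_one, Matrix.transpose_one]
  map_mul' a b := by rw [mul_inv_rev, map_mul, Matrix.transpose_mul]

omit [Fintype G] in
/-- The contragredient at `g`, transposed. -/
theorem contraHom_transpose (A : G →* Matrix ι ι ℂ) (g : G) :
    (contraHom A g).transpose = A g⁻¹ := Matrix.transpose_transpose _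

/-- The indicator of the contragredient. -/
theorem fsIndicator_contraHom (A : G →* Matrix ι ι ℂ) :
    H26.fsIndicator (fun g => Matrix.trace (contraHom A g)) =
      H26.fsIndicator (fun g => Matrix.trace (A g)) := by
  rw [H26.fsIndicator, H26.fsIndicator]
  congr 1
  refine Fintype.sum_equiv (Equiv.inv G) _ _ fun s => ?_
  rw [Equiv.inv_apply, ← mul_inv_rev]
  exact Matrix.trace_transpose _

/-- The averaging operator of `formRep`. -/
noncomputable def formAvg (A : G →* Matrix ι ι ℂ) : Module.End ℂ (Matrix ι ι ℂ) :=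
  (Nat.card G : ℂ)⁻¹ • ∑ g : G, H26.formRep A g

/-- The indicator as a trace. -/
theorem fsIndicator_eq_trace (A : G →* Matrix ι ι ℂ) :
    H26.fsIndicator (fun g => Matrix.trace (A g)) = LinearMap.trace ℂ _
      (formAvg A ∘ₗ (Matrix.transposeLinearEquiv ι ι ℂ ℂ).toLinearMap) := by
  simp only [H26.fsIndicator, formAvg, LinearMap.smul_comp, map_smul, smul_eq_mul]
  congr 1
  rw [← Module.End.mul_eq_comp, Finset.sum_mul, map_sum]
  exact Finset.sum_congr rfl fun g _ => by
    rw [Module.End.mul_eq_comp, H26.trace_formRep_transpose]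

/-- The averaging operator is the projection onto the invariants. -/
theorem formAvg_isProj (A : G →* Matrix ι ι ℂ) :
    LinearMap.IsProj (Representation.invariants (H26.formRep A)) (formAvg A) := by
  refine ⟨fun M g => ?_, fun M hM => ?_⟩
  · simp only [formAvg, LinearMap.smul_apply, LinearMap.coe_sum, Finset.sum_apply, map_smul, map_sum]
    congr 1
    refine Fintype.sum_equiv (Equiv.mulLeft g) _ _ fun x => ?_
    simp [← Module.End.mul_apply, ← map_mul]
  · simp only [formAvg, LinearMap.smul_apply, LinearMap.coe_sum, Finset.sum_apply]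
    rw [Finset.sum_congr rfl (g := fun _ => M) fun g _ => hM g, Finset.sum_const, Finset.card_univ,
      ← Nat.card_eq_fintype_card, ← Nat.cast_smul_eq_nsmul ℂ,
      inv_smul_smul₀ (Nat.cast_ne_zero.2 Nat.card_pos.ne')]

/-- Averaging commutes with transposition. -/
theorem formAvg_transpose (A : G →* Matrix ι ι ℂ) (M : Matrix ι ι ℂ) :
    formAvg A M.transpose = (formAvg A M).transpose := by
  simp only [formAvg, LinearMap.smul_apply, LinearMap.coe_sum, Finset.sum_apply,
    Matrix.transpose_smul, Matrix.transpose_sum]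
  congr 1
  refine Finset.sum_congr rfl fun g _ => ?_
  simp [H26.formRep_apply, Matrix.transpose_mul, Matrix.mul_assoc]

/-- Indicator one yields a nonzero symmetric invariant form. -/
theorem exists_matrix_form (A : G →* Matrix ι ι ℂ)
    (h : H26.fsIndicator (fun g => Matrix.trace (A g)) = 1) :
    ∃ M : Matrix ι ι ℂ, M ≠ 0 ∧ M.transpose = M ∧
      ∀ g, (A g).transpose * (M * A g) = M := by
  rw [← fsIndicator_contraHom, fsIndicator_eq_trace] at h
  by_contra hcon
  push Not at hcon
  set B := contraHom A
  set τ := (Matrix.transposeLinearEquiv ι ι ℂ ℂ).toLinearMap with hτ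
  have hsym : ∀ M : Matrix ι ι ℂ, formAvg B M + formAvg B M.transpose = 0 := by
    intro M
    by_contra hne
    obtain ⟨g, hg⟩ := hcon _ hne (by
      rw [Matrix.transpose_add, ← formAvg_transpose, ← formAvg_transpose,
        Matrix.transpose_transpose, add_comm])
    apply hg
    have hmem : formAvg B M + formAvg B M.transpose ∈
        Representation.invariants (H26.formRep B) :=
      Submodule.add_mem _ ((formAvg_isProj B).map_mem _) ((formAvg_isProj B).map_mem _)
    have h1 := hmem g⁻¹
    rw [H26.formRep_apply, contraHom_transpose, inv_inv] at h1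
    have h2 : B g⁻¹ = (A g).transpose := by
      show (A g⁻¹⁻¹).transpose = _
      rw [inv_inv]
    rwa [h2] at h1
  have h2 : formAvg B ∘ₗ τ = -(formAvg B) := LinearMap.ext fun M =>
    eq_neg_of_add_eq_zero_right (hsym M)
  rw [h2, map_neg, (formAvg_isProj B).trace] at h
  have h' := congrArg Complex.re h
  simp only [Complex.neg_re, Complex.natCast_re, Complex.one_re] at h'
  linarith [(Nat.cast_nonneg (finrank ℂ (Representation.invariants (H26.formRep B))) :
    (0 : ℝ) ≤ _)]

/-- A nonzero symmetric invariant form on an irreducible representation gives indicator one. -/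
theorem fsIndicator_eq_one_of_matrix_form (A : G →* Matrix ι ι ℂ) (χ : Cfsg.IrrCharacter G)
    (hχ : ∀ g, Matrix.trace (A g) = χ.1 g) {M : Matrix ι ι ℂ} (hM : M ≠ 0)
    (hMt : M.transpose = M) (hinv : ∀ g, (A g).transpose * (M * A g) = M) :
    H26.fsIndicator χ.1 = 1 := by
  classical
  have hfun : (fun g => Matrix.trace (A g)) = χ.1 := funext hχ
  rw [← hfun, ← fsIndicator_contraHom, fsIndicator_eq_trace]
  set B := contraHom A with hB
  set W := Representation.invariants (H26.formRep B)
  have hMW : M ∈ W := fun g => by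
    rw [H26.formRep_apply, contraHom_transpose]
    exact hinv g⁻¹
  have hG : (Nat.card G : ℂ) ≠ 0 := Nat.cast_ne_zero.2 Nat.card_pos.ne'
  have : Invertible (Nat.card G : ℂ) := invertibleOfNonzero hG
  have hdim : (finrank ℂ W : ℂ) = if H26.conjIrr χ = χ then 1 else 0 := by
    rw [← Representation.card_inv_mul_sum_char_eq_finrank, ← H26.sum_sq_eq_ite]
    congr 1
    refine Fintype.sum_equiv (Equiv.inv G) _ _ fun g => ?_
    rw [H26.char_formRep, Equiv.inv_apply, ← hχ g⁻¹, ← sq]
    congr 1
  have h1 : finrank ℂ W = 1 := by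
    have hne : finrank ℂ W ≠ 0 := by
      rw [Ne, Submodule.finrank_eq_zero]
      intro hb
      rw [hb, Submodule.mem_bot] at hMW
      exact hM hMW
    split_ifs at hdim with hr
    · exact_mod_cast hdim
    · exact absurd (by exact_mod_cast hdim) hne
  obtain ⟨v, -, hv⟩ := finrank_eq_one_iff'.1 h1
  obtain ⟨c, hc⟩ := hv ⟨M, hMW⟩
  have hc0 : c ≠ 0 := fun h0 => hM (by
    rw [← show c • (v : Matrix ι ι ℂ) = M from congrArg Subtype.val hc, h0, zero_smul])
  have hfix : ∀ N, formAvg B N.transpose = formAvg B N := by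
    intro N
    obtain ⟨d, hd⟩ := hv ⟨formAvg B N, (formAvg_isProj B).map_mem N⟩
    have hd' : formAvg B N = d • (v : Matrix ι ι ℂ) := (congrArg Subtype.val hd).symm
    have hv' : (v : Matrix ι ι ℂ).transpose = v := by
      have h2 : c • (v : Matrix ι ι ℂ) = M := congrArg Subtype.val hc
      rw [← h2, Matrix.transpose_smul] at hMt
      exact smul_right_injective _ hc0 hMt
    rw [formAvg_transpose, hd', Matrix.transpose_smul, hv']
  rw [show formAvg B ∘ₗ (Matrix.transposeLinearEquiv ι ι ℂ ℂ).toLinearMap = formAvg B from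
    LinearMap.ext hfix, (formAvg_isProj B).trace, h1, Nat.cast_one]

end MatrixForm

section RepForm

variable {V : Type*} [AddCommGroup V] [Module ℂ V] [FiniteDimensional ℂ V]

/-- An irreducible representation with a nonzero invariant symmetric form has indicator one. -/
theorem fsIndicator_eq_one_of_form (ρ : Representation ℂ G V)
    (hχ : Cfsg.IsIrrCharacter G ρ.character) (B : LinearMap.BilinForm ℂ V) (hB : B ≠ 0)
    (hsymm : ∀ x y, B x y = B y x) (hinv : ∀ g x y, B (ρ g x) (ρ g y) = B x y) :
    H26.fsIndicator ρ.character = 1 := by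
  classical
  let b := Module.finBasis ℂ V
  let A : G →* Matrix (Fin (finrank ℂ V)) (Fin (finrank ℂ V)) ℂ :=
    { toFun := fun x => LinearMap.toMatrix b b (ρ x)
      map_one' := by simp
      map_mul' := fun x y => by simp [LinearMap.toMatrix_mul] }
  refine fsIndicator_eq_one_of_matrix_form A ⟨_, hχ⟩
    (fun g => (LinearMap.trace_eq_matrix_trace ℂ b (ρ g)).symm)
    (M := LinearMap.BilinForm.toMatrix b B) ?_ ?_ ?_
  · exact (LinearEquiv.map_ne_zero_iff _).2 hB
  · ext i j
    simp [LinearMap.BilinForm.toMatrix_apply, hsymm (b j) (b i)]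
  · intro g
    rw [← Matrix.mul_assoc]
    show (LinearMap.toMatrix b b (ρ g)).transpose * LinearMap.BilinForm.toMatrix b B *
      LinearMap.toMatrix b b (ρ g) = _
    rw [← LinearMap.BilinForm.toMatrix_comp]
    congr 1
    exact LinearMap.ext fun x => LinearMap.ext fun y => hinv g x y

/-- A representation of indicator one has a nonzero invariant symmetric form. -/
theorem exists_form_of_fsIndicator_eq_one (ρ : Representation ℂ G V)
    (h : H26.fsIndicator ρ.character = 1) :
    ∃ B : LinearMap.BilinForm ℂ V, B ≠ 0 ∧ (∀ x y, B x y = B y x) ∧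
      ∀ g x y, B (ρ g x) (ρ g y) = B x y := by
  classical
  let b := Module.finBasis ℂ V
  let A : G →* Matrix (Fin (finrank ℂ V)) (Fin (finrank ℂ V)) ℂ :=
    { toFun := fun x => LinearMap.toMatrix b b (ρ x)
      map_one' := by simp
      map_mul' := fun x y => by simp [LinearMap.toMatrix_mul] }
  have hA : (fun g => Matrix.trace (A g)) = ρ.character :=
    funext fun g => (LinearMap.trace_eq_matrix_trace ℂ b (ρ g)).symm
  obtain ⟨M, hM, hMt, hinv⟩ := exists_matrix_form A (hA ▸ h)
  refine ⟨Matrix.toBilin b M, (LinearEquiv.map_ne_zero_iff _).2 hM, fun x y => ?_, fun g => ?_⟩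
  · rw [Matrix.toBilin_apply, Matrix.toBilin_apply, Finset.sum_comm]
    refine Finset.sum_congr rfl fun i _ => Finset.sum_congr rfl fun j _ => ?_
    rw [show M j i = M i j from congrFun (congrFun hMt i) j]
    ring
  · have h1 : (Matrix.toBilin b M).comp (ρ g) (ρ g) = Matrix.toBilin b M := by
      apply (LinearMap.BilinForm.toMatrix b).injective
      rw [LinearMap.BilinForm.toMatrix_comp b b, LinearMap.BilinForm.toMatrix_toBilin,
        Matrix.mul_assoc]
      exact hinv g
    exact fun x y => LinearMap.congr_fun (LinearMap.congr_fun h1 x) y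

end RepForm

section Induced

variable (H : Subgroup G) {V : Type*} [AddCommGroup V] [Module ℂ V] [FiniteDimensional ℂ V]

/-- The equivariant function supported on `H` with value `w` at the identity. -/
noncomputable def indDelta (σ : Representation ℂ H V) (w : V) : H25.indSpace H σ :=
  open scoped Classical in
  ⟨fun x => if hx : x ∈ H then σ ⟨x, hx⟩ w else 0, fun h x => by
    beta_reduce
    by_cases hx : x ∈ H
    · rw [dif_pos hx, dif_pos (H.mul_mem h.2 hx), ← Module.End.mul_apply, ← map_mul]
      rfl
    · rw [dif_neg hx, dif_neg fun hm => hx ?_, map_zero]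
      have := H.mul_mem (H.inv_mem h.2) hm
      rwa [inv_mul_cancel_left] at this⟩

omit [Fintype G] [FiniteDimensional ℂ V] in
/-- The value of `indDelta` inside `H`. -/
theorem indDelta_apply_mem (σ : Representation ℂ H V) (w : V) (x : H) :
    (indDelta H σ w : G → V) x = σ x w := dif_pos x.2

omit [Fintype G] [FiniteDimensional ℂ V] in
/-- The value of `indDelta` outside `H`. -/
theorem indDelta_apply_not_mem (σ : Representation ℂ H V) (w : V) {x : G} (hx : x ∉ H) :
    (indDelta H σ w : G → V) x = 0 := dif_neg hx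

/-- An irreducible induced representation has indicator one as soon as a symmetric invariant form
on it is nonzero at some pair. -/
theorem fsIndicator_indFun_of_form [Fintype H] (σ : Representation ℂ H V)
    (hirr : Cfsg.IsIrrCharacter G (Cfsg.indFun H σ.character)) (β : LinearMap.BilinForm ℂ V)
    (z : G) (hsymm : ∀ f f' : H25.indSpace H σ,
      ∑ x : G, β ((f : G → V) x) ((f' : G → V) (z * x))
        = ∑ x : G, β ((f' : G → V) x) ((f : G → V) (z * x)))
    (hne : ∃ f f' : H25.indSpace H σ, ∑ x : G, β ((f : G → V) x) ((f' : G → V) (z * x)) ≠ 0) :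
    H26.fsIndicator (Cfsg.indFun H σ.character) = 1 := by
  rw [← H25.char_indRep H σ] at hirr ⊢
  let B : LinearMap.BilinForm ℂ (H25.indSpace H σ) :=
    LinearMap.mk₂ ℂ (fun f f' => ∑ x : G, β ((f : G → V) x) ((f' : G → V) (z * x)))
      (fun f f₂ f' => by simp [Finset.sum_add_distrib])
      (fun c f f' => by simp [Finset.mul_sum])
      (fun f f' f₂ => by simp [Finset.sum_add_distrib])
      (fun c f f' => by simp [Finset.mul_sum])
  refine fsIndicator_eq_one_of_form (H25.indRep H σ) hirr B ?_ hsymm fun g f f' => ?_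
  · intro h0
    obtain ⟨f, f', h⟩ := hne
    exact h (show B f f' = 0 by rw [h0]; rfl)
  · show ∑ x : G, β ((H25.indRep H σ g f : G → V) x) ((H25.indRep H σ g f' : G → V) (z * x)) = _
    simp only [H25.indRep_apply, mul_assoc]
    exact Equiv.sum_comp (Equiv.mulRight g) fun x => β ((f : G → V) x) ((f' : G → V) (z * x))

/-- Inducing a character of indicator one gives indicator one, when irreducible. -/
theorem fsIndicator_indFun_eq_one [Fintype H] {ψ : H → ℂ} (hψ : Cfsg.IsCharacter H ψ)
    (h1 : H26.fsIndicator ψ = 1) (hirr : Cfsg.IsIrrCharacter G (Cfsg.indFun H ψ)) :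
    H26.fsIndicator (Cfsg.indFun H ψ) = 1 := by
  classical
  obtain ⟨n, σ, rfl⟩ := hψ
  obtain ⟨β, hβ, hs, hinv⟩ := exists_form_of_fsIndicator_eq_one σ h1
  obtain ⟨v, w, hvw⟩ : ∃ v w, β v w ≠ 0 := by
    by_contra hcon
    push Not at hcon
    exact hβ (LinearMap.ext fun x => LinearMap.ext fun y => hcon x y)
  refine fsIndicator_indFun_of_form H σ hirr β 1 (fun f f' => ?_)
    ⟨indDelta H σ v, indDelta H σ w, ?_⟩
  · simp only [one_mul]
    exact Finset.sum_congr rfl fun x _ => hs _ _
  · simp only [one_mul]
    have e : ∀ x : G, β ((indDelta H σ v : G → Fin n → ℂ) x) ((indDelta H σ w : G → Fin n → ℂ) x)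
        = if x ∈ H then β v w else 0 := by
      intro x
      split_ifs with hx
      · rw [indDelta_apply_mem H σ v ⟨x, hx⟩, indDelta_apply_mem H σ w ⟨x, hx⟩, hinv]
      · rw [indDelta_apply_not_mem H σ v hx, map_zero, LinearMap.zero_apply]
    rw [Finset.sum_congr rfl fun x _ => e x, ← Finset.sum_filter, Finset.sum_const, nsmul_eq_mul]
    refine mul_ne_zero (Nat.cast_ne_zero.2 (Finset.card_ne_zero.2 ⟨1, ?_⟩)) hvw
    simp [H.one_mem]

end Induced

/-- An irreducible character induced from a linear character inverted by an involution `z`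
normalising the subgroup has indicator one. -/
theorem fsIndicator_indFun_linear_of_inverted (H : Subgroup G) [Fintype H] (ψ : H →* ℂˣ) {z : G}
    (hz : z * z = 1) (hzH : ∀ h ∈ H, z * h * z ∈ H)
    (hinv : ∀ h : H, ψ ⟨z * h * z, hzH h h.2⟩ = (ψ h)⁻¹)
    (hirr : Cfsg.IsIrrCharacter G (Cfsg.indFun H fun h => (ψ h : ℂ))) :
    H26.fsIndicator (Cfsg.indFun H fun h => (ψ h : ℂ)) = 1 := by
  classical
  have hch : (H26.linearRep ψ).character = fun h => (ψ h : ℂ) := funext (H26.char_linearRep ψ)
  rw [← hch] at hirr ⊢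
  refine fsIndicator_indFun_of_form H (H26.linearRep ψ) hirr (LinearMap.mul ℂ ℂ) z
    (fun f f' => ?_) ?_
  · refine Fintype.sum_equiv (Equiv.mulLeft z) _ _ fun x => ?_
    show (f : G → ℂ) x * (f' : G → ℂ) (z * x) =
      (f' : G → ℂ) (z * x) * (f : G → ℂ) (z * (z * x))
    rw [← mul_assoc z z x, hz, one_mul, mul_comm]
  · refine ⟨indDelta H _ 1, H25.indRep H _ z (indDelta H _ 1), ?_⟩
    have e : ∀ x : G, (LinearMap.mul ℂ ℂ) ((indDelta H (H26.linearRep ψ) 1 : G → ℂ) x)
        ((H25.indRep H (H26.linearRep ψ) z (indDelta H (H26.linearRep ψ) 1) : G → ℂ) (z * x))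
        = if x ∈ H then 1 else 0 := by
      intro x
      rw [H25.indRep_apply, LinearMap.mul_apply']
      split_ifs with hx
      · rw [indDelta_apply_mem H _ 1 ⟨x, hx⟩, indDelta_apply_mem H _ 1 ⟨z * x * z, hzH x hx⟩]
        show (ψ ⟨x, hx⟩ : ℂ) * 1 * ((ψ ⟨z * x * z, hzH x hx⟩ : ℂ) * 1) = 1
        rw [hinv ⟨x, hx⟩]
        simp
      · rw [indDelta_apply_not_mem H _ 1 hx, zero_mul]
    rw [Finset.sum_congr rfl fun x _ => e x, ← Finset.sum_filter, Finset.sum_const, nsmul_eq_mul,
      mul_one]
    refine Nat.cast_ne_zero.2 (Finset.card_ne_zero.2 ⟨1, ?_⟩)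
    simp [H.one_mem]

end Cfsg.Agent.H45
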