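import Cfsg.Agent.H45.EtaFamily

/-!
# Gauss sums of a symmetric invariant form

For a nondegenerate symmetric invariant form `β`, the normalised sums
`∑_u ψ (c β (u, h u - u)) / |C_M(h)|` form an eta family.
-/

set_option autoImplicit false

open scoped ComplexConjugate
open LinearMap (BilinForm)

namespace Cfsg.Agent.H45

variable {p : ℕ} [Fact p.Prime] {H : Type*} [Group H] [Fintype H] {M : Type*} [AddCommGroup M]
  [Module (ZMod p) M] [Finite M]

/-- The normalised Gauss sum. -/
noncomputable def gaussEta [Fintype M] (ρ : Representation (ZMod p) H M)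
    (β : BilinForm (ZMod p) M) (ψ : AddChar (ZMod p) ℂ) (c : (ZMod p)ˣ) (h : H) : ℂ :=
  (∑ u : M, ψ (c * β u ((ρ h - 1) u))) / (fixCard ρ h : ℂ)

theorem etaFamily_gauss [Fintype M] (hcop : ¬ p ∣ Nat.card H) (ρ : Representation (ZMod p) H M)
    (β : BilinForm (ZMod p) M) (hs : ∀ x y, β x y = β y x)
    (hinv : ∀ h x y, β (ρ h x) (ρ h y) = β x y) (hnd : ∀ x, (∀ y, β x y = 0) → x = 0)
    {ε : ℂ} (hε : IsPrimitiveRoot ε p) (ψ : AddChar (ZMod p) ℂ)
    (hψ : ∀ a, ψ a = ε ^ a.val) : EtaFamily ρ ε (gaussEta ρ β ψ) := by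
  classical
  have hp := (Fact.out : p.Prime)
  haveI : NeZero p := ⟨hp.ne_zero⟩
  have hψint : ∀ a, IsIntegral ℤ (ψ a) := fun a => by
    rw [hψ]
    exact (H56.isIntegral_of_pow_eq_one hp.pos hε.pow_eq_one).pow _
  have hψne : ∀ a, a ≠ 0 → ψ a ≠ 1 := fun a ha h1 => by
    rw [hψ] at h1
    exact ha ((ZMod.val_eq_zero a).1 (Nat.eq_zero_of_dvd_of_lt
      ((hε.pow_eq_one_iff_dvd _).1 h1) a.val_lt))
  have hρinv : ∀ h x, ρ h (ρ h⁻¹ x) = x := fun h x => by
    rw [← Module.End.mul_apply, ← map_mul, mul_inv_cancel, map_one, Module.End.one_apply]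
  have hker : ∀ h k, ρ h k = k → ∀ x, β k ((ρ h - 1) x) = 0 := fun h k hk x => by
    rw [LinearMap.sub_apply, Module.End.one_apply, map_sub, sub_eq_zero]
    conv_lhs => rw [← hk, hinv]
  -- the reduced sum
  let γ : (ZMod p)ˣ → H → ℂ := fun c h =>
    ∑ r : ↥(LinearMap.range (ρ h - 1)), ψ (c * β (r : M) ((ρ h - 1) r))
  have hG : ∀ (c : (ZMod p)ˣ) h, ∑ u : M, ψ (c * β u ((ρ h - 1) u)) = (fixCard ρ h : ℂ) * γ c h := fun c h => by
    let e := Submodule.prodEquivOfIsCompl _ _ (isCompl_ker_range hcop ρ h)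
    rw [← Equiv.sum_comp e.toEquiv, Fintype.sum_prod_type, fixCard_eq, Nat.card_eq_fintype_card]
    have : ∀ k r, ψ (c * β (e (k, r)) ((ρ h - 1) (e (k, r))))
        = ψ (c * β (r : M) ((ρ h - 1) r)) := fun k r => by
      rw [Submodule.coe_prodEquivOfIsCompl', map_add, map_add, LinearMap.mem_ker.1 k.2,
        zero_add, LinearMap.add_apply, hker h k ((mem_ker_sub_one ρ h k).1 k.2), zero_add]
    simp only [LinearEquiv.coe_toEquiv, this, Finset.sum_const, Finset.card_univ, nsmul_eq_mul, γ]
  have hη : ∀ c h, gaussEta ρ β ψ c h = γ c h := fun c h => by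
    rw [gaussEta, hG, mul_div_cancel_left₀ _ (Nat.cast_ne_zero.2 (fixCard_pos ρ h).ne')]
  have hγint : ∀ c h, IsIntegral ℤ (γ c h) := fun c h => IsIntegral.sum _ fun r _ => hψint _
  -- absolute values
  have hnorm : ∀ c h, ‖γ c h‖ ^ 2 = (Nat.card ↥(LinearMap.range (ρ h - 1)) : ℝ) := by
    intro c h
    set L := ρ h - 1 with hL
    let R := LinearMap.range L
    let B : ↥R → ↥R → ZMod p := fun w d => β (w : M) (L d) + β (d : M) (L w)
    have hB : ∀ d : ↥R, d ≠ 0 → ∃ w, B w d ≠ 0 := by
      intro d hd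
      by_contra hcon
      push Not at hcon
      set z : M := L (d : M) + (ρ h⁻¹ - 1) (d : M) with hz
      have hzR : ∀ w : M, β w z = 0 := by
        intro w
        obtain ⟨⟨k, r⟩, rfl⟩ :=
          (Submodule.prodEquivOfIsCompl _ _ (isCompl_ker_range hcop ρ h)).surjective w
        have hk : ρ h⁻¹ k = k := by
          conv_lhs => rw [← (mem_ker_sub_one ρ h k).1 k.2]
          rw [← Module.End.mul_apply, ← map_mul, inv_mul_cancel, map_one, Module.End.one_apply]
        simp only [Submodule.coe_prodEquivOfIsCompl', map_add, LinearMap.add_apply, hz, hL,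
          hker h k ((mem_ker_sub_one ρ h k).1 k.2), hker h⁻¹ k hk, zero_add]
        have h1 : β (r : M) ((ρ h⁻¹ - 1) (d : M)) = β (d : M) (L (r : M)) := by
          simp only [hL, LinearMap.sub_apply, Module.End.one_apply, map_sub]
          rw [← hinv h (r : M) (ρ h⁻¹ (d : M)), hρinv, hs (ρ h (r : M)), hs (r : M) (d : M)]
        rw [h1]
        exact hcon r
      have hz0 : z = 0 := hnd z fun y => by rw [hs]; exact hzR y
      have hLL : L (L (d : M)) = 0 := by
        have := congrArg (ρ h) hz0
        simp only [hz, hL, LinearMap.sub_apply, Module.End.one_apply, map_add, map_sub, map_zero,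
          hρinv] at this ⊢
        rw [← this]
        abel
      have hdis := Submodule.disjoint_def.1 (isCompl_ker_range hcop ρ h).disjoint
      have h1 : L (d : M) = 0 := hdis _ (LinearMap.mem_ker.2 hLL) ⟨_, rfl⟩
      exact hd (Subtype.ext (hdis _ (LinearMap.mem_ker.2 h1) d.2))
    have hshift : ∀ w d : ↥R, ψ (c * β ((w + d : ↥R) : M) (L ((w + d : ↥R) : M)))
        = ψ (c * β (d : M) (L d)) * ψ (c * B w d) * ψ (c * β (w : M) (L w)) := fun w d => by
      rw [← AddChar.map_add_eq_mul, ← AddChar.map_add_eq_mul]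
      congr 1
      simp only [B, Submodule.coe_add, map_add, LinearMap.add_apply]
      ring
    have key : γ c h * conj (γ c h) = (Nat.card ↥R : ℂ) := by
      calc γ c h * conj (γ c h)
          = ∑ w : ↥R, ∑ d : ↥R, ψ (c * β ((w + d : ↥R) : M) (L ((w + d : ↥R) : M)))
              * conj (ψ (c * β (w : M) (L w))) := by
            rw [map_sum, Finset.mul_sum]
            refine Finset.sum_congr rfl fun w _ => ?_
            rw [Finset.sum_mul]
            exact (Fintype.sum_equiv (Equiv.addLeft w) _ _ fun d => rfl).symm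
        _ = ∑ d : ↥R, ψ (c * β (d : M) (L d)) * ∑ w : ↥R, ψ (c * B w d) := by
            rw [Finset.sum_comm]
            refine Finset.sum_congr rfl fun d _ => ?_
            rw [Finset.mul_sum]
            refine Finset.sum_congr rfl fun w _ => ?_
            have e : ψ (c * β (w : M) (L w)) * conj (ψ (c * β (w : M) (L w))) = 1 := by
              rw [← AddChar.map_neg_eq_conj, ← AddChar.map_add_eq_mul, add_neg_cancel,
                AddChar.map_zero_eq_one]
            rw [hshift, mul_assoc, e, mul_one]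
        _ = _ := by
            rw [Fintype.sum_eq_single 0]
            · simp [B, Nat.card_eq_fintype_card]
            · intro d hd
              obtain ⟨w, hw⟩ := hB d hd
              have hadd : ∀ a b, B (a + b) d = B a d + B b d := fun a b => by
                simp only [B, Submodule.coe_add, map_add, LinearMap.add_apply]
                ring
              let φ : AddChar ↥R ℂ :=
                { toFun := fun a => ψ (c * B a d)
                  map_zero_eq_one' := by simp [B]
                  map_add_eq_mul' := fun a b => by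
                    rw [hadd, mul_add, AddChar.map_add_eq_mul] }
              have hφ : φ ≠ 0 := fun h0 => by
                refine hψne _ (mul_ne_zero c.ne_zero hw) ?_
                exact DFunLike.congr_fun h0 w
              have := AddChar.sum_eq_zero_iff_ne_zero.2 hφ
              rw [show ∑ w : ↥R, ψ (c * B w d) = 0 from this, mul_zero]
    rw [Complex.mul_conj, Complex.normSq_eq_norm_sq] at key
    exact_mod_cast key
  refine ⟨⟨1⟩, fun c => ?_, fun c h => ?_, fun c => ?_, fun c h hh => ?_, fun σ => ?_⟩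
  · refine IntMod.div ?_ (fixCard ρ) (intMod_fixCard ρ) (fixCard_coprime hcop ρ) fun h => by
      have := hη c h
      rw [gaussEta] at this
      rw [this]
      exact hγint c h
    refine (show (fun h => ∑ u : M, ψ ((c : ZMod p) * (β u (repPerm ρ h u) - β u u))) = _ from
      funext fun h => Finset.sum_congr rfl fun u _ => ?_) ▸
      intMod_kernel (repPerm ρ) (fun u w => ψ ((c : ZMod p) * (β u w - β u u)))
        (fun u w => hψint _) fun h u w => by simp only [repPerm_apply, hinv]
    rw [LinearMap.sub_apply, Module.End.one_apply, map_sub, repPerm_apply]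
  · rw [hη, hnorm, mul_comm, ← Nat.cast_mul, fixCard_mul_range]
  · simp [gaussEta, fixCard_one, Nat.card_eq_fintype_card]
  · have hdvd : p ∣ Nat.card ↥(LinearMap.range (ρ h - 1)) := by
      rw [Module.natCard_eq_pow_finrank (K := ZMod p), Nat.card_zmod]
      refine dvd_pow_self p fun h0 => ?_
      rw [Submodule.finrank_eq_zero, LinearMap.range_eq_bot, sub_eq_zero] at h0
      obtain ⟨x, hx⟩ := hh
      exact hx (by rw [h0, Module.End.one_apply])
    obtain ⟨m, hm⟩ := hdvd
    obtain ⟨w₀, hw₀, hw₀e⟩ := exists_prime_eq_one_sub_mul hε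
    choose w hw hwe using fun r : ↥(LinearMap.range (ρ h - 1)) =>
      H56.exists_one_sub_pow_eq_mul hp.pos hε.pow_eq_one
        ((c : ZMod p) * β (r : M) ((ρ h - 1) r)).val
    refine ⟨w₀ * (m : ℂ) - ∑ r, w r, (hw₀.mul (map_natCast (algebraMap ℤ ℂ) m ▸
      isIntegral_algebraMap)).sub (IsIntegral.sum _ fun r _ => hw r), ?_⟩
    have hsum : (Nat.card ↥(LinearMap.range (ρ h - 1)) : ℂ) - γ c h = (1 - ε) * ∑ r, w r := by
      rw [Finset.mul_sum, ← Finset.sum_congr rfl fun r _ => hwe r, Finset.sum_sub_distrib]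
      simp [γ, hψ, Nat.card_eq_fintype_card]
    rw [hη, hm, Nat.cast_mul, hw₀e] at *
    linear_combination -hsum
  · obtain ⟨k, hk, hσ⟩ := exists_pow_of_ringAut σ hp.ne_zero
    let u : (ZMod p)ˣ := ZMod.unitOfCoprime k hk
    refine ⟨Equiv.mulLeft u, fun c h => ?_⟩
    simp only [gaussEta, map_div₀, map_natCast, map_sum, Equiv.coe_mulLeft]
    congr 1
    refine Finset.sum_congr rfl fun x _ => ?_
    rw [hψ, hσ _ (by rw [← pow_mul, mul_comm, pow_mul, hε.pow_eq_one, one_pow]), ← hψ,
      ← AddChar.map_nsmul_eq_pow, nsmul_eq_mul, Units.val_mul, ZMod.coe_unitOfCoprime, mul_assoc]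

end Cfsg.Agent.H45
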