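import Cfsg.Agent.H45.EtaFamily
import Cfsg.Agent.H45.NormalSylow

/-!
# The class number bound from an eta family on the stabilizer of a vector
-/

set_option autoImplicit false

open scoped ComplexConjugate

namespace Cfsg.Agent.H45

universe u

variable {X : Type u} [Group X] [Finite X] {p : ℕ} [Fact p.Prime]

/-- The centraliser of `v * h`, for `h` in the stabilizer of `v` in a complement. -/
theorem card_centralizer_le_fix (V : Subgroup X) [V.Normal] (hVp : IsPGroup p V)
    (hidx : ¬ p ∣ V.index) (hcomm : ∀ a ∈ V, ∀ b ∈ V, a * b = b * a) (G : Subgroup X)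
    (hGV : Subgroup.IsComplement' V G) {v : X} (hv : v ∈ V) {H : Subgroup X} (hHG : H ≤ G)
    (hHv : ∀ h ∈ H, Commute v h) (hHmax : ∀ g ∈ G, Commute g v → g ∈ H) (h : H) :
    Nat.card (Subgroup.centralizer ({v * (h : X)} : Set X))
      ≤ Nat.card ↥(V ⊓ Subgroup.centralizer ({(h : X)} : Set X))
        * Nat.card (Subgroup.centralizer ({h} : Set H)) := by
  classical
  have hvh : Commute v (h : X) := hHv h h.2
  have hcop : (Nat.card V).Coprime (Nat.card G) := by
    obtain ⟨e, he⟩ := IsPGroup.iff_card.1 hVp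
    rw [he, ← hGV.symm.index_eq_card]
    exact ((Fact.out : p.Prime).coprime_iff_not_dvd.2 hidx).pow_left e
  obtain ⟨j, hj1, hj0⟩ := Nat.chineseRemainder hcop 1 0
  have hpart : (v * (h : X)) ^ j = v := by
    rw [hvh.mul_pow]
    have e1 : v ^ j = v ^ 1 := pow_eq_pow_iff_modEq.2
      (hj1.of_dvd (Subgroup.orderOf_dvd_natCard V hv))
    have e2 : (h : X) ^ j = (h : X) ^ 0 := pow_eq_pow_iff_modEq.2
      (hj0.of_dvd (Subgroup.orderOf_dvd_natCard G (hHG h.2)))
    rw [e1, e2, pow_one, pow_zero, mul_one]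
  have key : ∀ x : Subgroup.centralizer ({v * (h : X)} : Set X),
      ∃ q : ↥(V ⊓ Subgroup.centralizer ({(h : X)} : Set X)) × Subgroup.centralizer ({h} : Set H),
        (q.1 : X) * ((q.2 : H) : X) = x := by
    rintro ⟨x, hx⟩
    have hxc : Commute x (v * (h : X)) := (Subgroup.mem_centralizer_iff.1 hx _ rfl).symm
    have hxv : Commute x v := hpart ▸ hxc.pow_right j
    have hxh : Commute x (h : X) := by
      have := hxv.inv_right.mul_right hxc
      rwa [inv_mul_cancel_left] at this
    obtain ⟨⟨⟨u, hu⟩, ⟨g, hg⟩⟩, hug⟩ := hGV.2 x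
    simp only at hug
    have huv : Commute u v := hcomm u hu v hv
    have hgv : Commute g v := by
      rw [show g = u⁻¹ * x by rw [← hug, inv_mul_cancel_left]]
      exact huv.inv_left.mul_left hxv
    have hgH : g ∈ H := hHmax g hg hgv
    -- project modulo the normal subgroup
    have hinj := @hGV.1 (⟨(h : X) * u * (h : X)⁻¹, ‹V.Normal›.conj_mem u hu _⟩,
        ⟨(h : X) * g, G.mul_mem (hHG h.2) hg⟩) (⟨u, hu⟩, ⟨g * (h : X), G.mul_mem hg (hHG h.2)⟩) (by
      show (h : X) * u * (h : X)⁻¹ * ((h : X) * g) = u * (g * (h : X))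
      rw [← mul_assoc u, hug, hxh.eq, ← hug]
      group)
    obtain ⟨e1, e2⟩ := Prod.mk.inj hinj
    refine ⟨(⟨u, hu, Subgroup.mem_centralizer_iff.2 fun z hz => ?_⟩,
      ⟨⟨g, hgH⟩, Subgroup.mem_centralizer_iff.2 fun z hz => ?_⟩), hug⟩
    · rw [Set.mem_singleton_iff.1 hz]
      exact mul_inv_eq_iff_eq_mul.1 (congrArg Subtype.val e1)
    · rw [Set.mem_singleton_iff.1 hz]
      exact Subtype.ext (congrArg (fun q : G => (q : X)) e2)
  choose q hq using key
  rw [← Nat.card_prod]
  exact Nat.card_le_card_of_injective q fun a b hab' =>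
    Subtype.ext (by rw [← hq a, ← hq b, hab'])

/-- The sum of the centraliser orders. -/
theorem sum_card_centralizer (H : Type*) [Group H] [Fintype H] :
    ∑ h : H, Nat.card (Subgroup.centralizer ({h} : Set H))
      = Nat.card H * Nat.card (ConjClasses H) := by
  classical
  rw [mul_comm, ← card_comm_eq_card_conjClasses_mul_card,
    Nat.card_congr (Equiv.subtypeProdEquivSigmaSubtype fun a b : H => Commute a b), Nat.card_sigma]
  exact Finset.sum_congr rfl fun h _ => Nat.card_congr (Equiv.subtypeEquivRight fun g =>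
    ⟨fun hg => Subgroup.mem_centralizer_iff.1 hg h rfl, fun hg =>
      Subgroup.mem_centralizer_iff.2 fun z hz => by rw [Set.mem_singleton_iff.1 hz]; exact hg⟩)

/-- The criterion: an eta family on a faithful module of the stabilizer, whose fixed points are
large enough, bounds the class number of the semidirect product. -/
theorem card_classes_le_of_etaFamily (V : Subgroup X) [V.Normal] (hVexp : ∀ v ∈ V, v ^ p = 1)
    (hidx : ¬ p ∣ V.index) (hcomm : ∀ a ∈ V, ∀ b ∈ V, a * b = b * a) (G : Subgroup X)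
    (hGV : Subgroup.IsComplement' V G) {v : X} (hv : v ∈ V) {H : Subgroup X} (hHG : H ≤ G)
    (hHv : ∀ h ∈ H, Commute v h) (hHmax : ∀ g ∈ G, Commute g v → g ∈ H) [Fintype H] {M : Type*} [AddCommGroup M]
    [Module (ZMod p) M] [Finite M]
    (ρ : Representation (ZMod p) ↥H M)
    (hfaith : ∀ h, (∀ x, ρ h x = x) → h = 1)
    (hfix : ∀ h : ↥H,
      Nat.card ↥(V ⊓ Subgroup.centralizer ({(h : X)} : Set X)) * Nat.card M
        ≤ Nat.card V * fixCard ρ h)
    {ε : ℂ} (hε : IsPrimitiveRoot ε p) {E : Type*} [Finite E]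
    {η : E → ↥H → ℂ} (hη : EtaFamily ρ ε η) :
    Nat.card (ConjClasses X) ≤ Nat.card V := by
  classical
  have hp := (Fact.out : p.Prime)
  have := Fintype.ofFinite E
  have := Fintype.ofFinite X
  have hVp : IsPGroup p V := fun u => ⟨1, Subtype.ext (by simpa using hVexp u u.2)⟩
  have hHdvd : Nat.card H ∣ V.index := by
    rw [hGV.symm.index_eq_card]
    exact Subgroup.card_dvd_of_le hHG
  have hpH : ¬ p ∣ Nat.card H := fun h => hidx (h.trans hHdvd)
  have hvh : ∀ h : H, Commute v (h : X) := fun h =>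
    hHv h h.2
  -- the columns at `v * h`
  have hf : ∀ χ : Cfsg.IrrCharacter X, IntMod fun h : H => χ.1 (v * h) := by
    intro χ
    obtain ⟨n, ρ', hρ'⟩ := H26.irr_isCharacter χ
    obtain ⟨b, μ, hb, hμ⟩ := H25.exists_eigenbasis_of_pow_eq_one (ρ' v) (n := p)
      (Nat.cast_ne_zero.2 hp.ne_zero) (by rw [← map_pow, hVexp v hv, map_one])
    let R : H →* Matrix _ _ ℂ :=
      (LinearMap.toMatrixAlgEquiv b).toMonoidHom.comp (ρ'.comp H.subtype)
    have hA : LinearMap.toMatrixAlgEquiv b (ρ' v) = Matrix.diagonal μ := by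
      ext i j
      rw [LinearMap.toMatrixAlgEquiv_apply, hb j, map_smul, Module.Basis.repr_self]
      by_cases hij : i = j
      · subst hij; simp
      · simp [Finsupp.single_apply, hij, Ne.symm hij]
    have h := intMod_trace R (LinearMap.toMatrixAlgEquiv b (ρ' v)) (fun i j => by
        rw [hA, Matrix.diagonal_apply]
        split_ifs
        · exact H56.isIntegral_of_pow_eq_one hp.pos (hμ i)
        · exact isIntegral_zero)
      (fun h => by
        show LinearMap.toMatrixAlgEquiv b (ρ' v) * LinearMap.toMatrixAlgEquiv b (ρ' h)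
          = LinearMap.toMatrixAlgEquiv b (ρ' h) * LinearMap.toMatrixAlgEquiv b (ρ' v)
        rw [← map_mul, ← map_mul, ← map_mul, ← map_mul, (hvh h).eq])
    convert h using 1
    funext h
    show χ.1 (v * h) = (LinearMap.toMatrixAlgEquiv b (ρ' v) *
      LinearMap.toMatrixAlgEquiv b (ρ' (h : X))).trace
    rw [← map_mul, ← map_mul, ← hρ']
    exact LinearMap.trace_eq_matrix_trace ℂ b _
  let a : Cfsg.IrrCharacter X × Cfsg.IrrCharacter H × E → ℂ := fun q =>
    Cfsg.classInner (η q.2.2 * fun h : H => q.1.1 (v * h)) q.2.1.1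
  have hint : ∀ q, IsIntegral ℤ (a q) := fun q => ((hη.intMod _).mul (hf _)).2 _
  have hne : ∀ q, a q ≠ 0 := by
    rintro ⟨χ, θ, e⟩ h0
    obtain ⟨n, ρ', hρirr, hρ'⟩ := χ.2
    obtain ⟨m, τ, hτirr, hτ'⟩ := θ.2
    have hn : ¬ p ∣ n := by
      have := not_dvd_finrank_of_abelian_normal_sylow ρ' p V hVp hidx hcomm
      rwa [Module.finrank_fin_fun] at this
    have hm : ¬ p ∣ m := fun h => by
      have := H25.finrank_dvd_card τ
      rw [Module.finrank_fin_fun] at this
      exact hpH (h.trans this)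
    have hχ1 : χ.1 1 = n := by rw [← hρ', ρ'.char_one, Module.finrank_fin_fun]
    have hθ1 : θ.1 1 = m := by rw [← hτ', τ.char_one, Module.finrank_fin_fun]
    obtain ⟨ω, hω, hωe⟩ := H56.char_sub_eq_one_sub_mul (H26.irr_isCharacter χ) hp hε
      (hVexp v hv) (Commute.one_right v).eq
    rw [mul_one, hχ1] at hωe
    have hterm : ∀ h : H, ∃ w, IsIntegral ℤ w ∧
        (if h = 1 then 0 else η e h * χ.1 (v * h) * conj (θ.1 h)) = (1 - ε) * w := by
      intro h
      by_cases h1 : h = 1
      · exact ⟨0, isIntegral_zero, by rw [if_pos h1, mul_zero]⟩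
      obtain ⟨w, hw, hwe⟩ := hη.cong e h (not_forall.1 fun hall => h1 (hfaith h hall))
      refine ⟨w * χ.1 (v * h) * conj (θ.1 h), (hw.mul ((hf χ).isIntegral h)).mul ?_, ?_⟩
      · rw [← H26.irr_inv]
        exact isIntegral_irr θ _
      · rw [if_neg h1, hwe]; ring
    choose w hw hwe using hterm
    have hsum : ∑ h : H, η e h * χ.1 (v * h) * conj (θ.1 h) = 0 := by
      have := h0
      simp only [a, Cfsg.classInner, Pi.mul_apply, mul_eq_zero, inv_eq_zero, Nat.cast_eq_zero,
        Nat.card_pos.ne', false_or] at this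
      exact this
    have hsplit : ∑ h : H, η e h * χ.1 (v * h) * conj (θ.1 h)
        = η e 1 * χ.1 (v * ((1 : H) : X)) * conj (θ.1 1) + (1 - ε) * ∑ h : H, w h := by
      rw [Finset.mul_sum, ← Finset.sum_congr rfl fun h _ => hwe h, Finset.sum_ite,
        Finset.sum_const_zero, zero_add, Finset.filter_ne' Finset.univ (1 : H),
        Finset.add_sum_erase _ (fun h : H => η e h * χ.1 (v * h) * conj (θ.1 h))
          (Finset.mem_univ 1)]
    rw [hsum, hη.one, one_mul, OneMemClass.coe_one, mul_one, hθ1, Complex.conj_natCast] at hsplit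
    have hdiv := H56.prime_dvd_of_one_sub_dvd hp hε ((n * m : ℕ) : ℤ)
      (ω := -(∑ h : H, w h) - ω * m)
      ((IsIntegral.sum _ fun h _ => hw h).neg.sub (hω.mul
        (map_natCast (algebraMap ℤ ℂ) m ▸ isIntegral_algebraMap))) (by
        push_cast
        linear_combination -hsplit - (m : ℂ) * hωe)
    exact (hp.dvd_mul.1 (Int.natCast_dvd_natCast.1 hdiv)).elim hn hm
  have hgal : ∀ σ : ℂ ≃+* ℂ, ∃ π : Equiv.Perm (Cfsg.IrrCharacter X × Cfsg.IrrCharacter H × E),
      ∀ q, σ (a q) = a (π q) := by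
    intro σ
    obtain ⟨k, hk, hσ⟩ := exists_pow_of_ringAut σ (Nat.card_pos (α := X)).ne'
    obtain ⟨π, hπ⟩ := hη.gal σ
    have hkH : k.Coprime (Nat.card H) := hk.coprime_dvd_right (Subgroup.card_subgroup_dvd_card H)
    have hσH : ∀ z : ℂ, z ^ Nat.card H = 1 → σ z = z ^ k := fun z hz => hσ z (by
      obtain ⟨c, hc⟩ := Subgroup.card_subgroup_dvd_card H
      rw [hc, pow_mul, hz, one_pow])
    refine ⟨(Equiv.ofBijective _ (Finite.injective_iff_bijective.1 (galIrr_injective hk))).prodCongr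
      ((Equiv.ofBijective _ (Finite.injective_iff_bijective.1 (galIrr_injective hkH))).prodCongr π),
      fun ⟨χ, θ, e⟩ => ?_⟩
    simp only [a, Cfsg.classInner, map_mul, map_inv₀, map_natCast, map_sum, Pi.mul_apply,
      Equiv.prodCongr_apply, Prod.map, Equiv.ofBijective_apply]
    congr 1
    refine Finset.sum_congr rfl fun h _ => ?_
    rw [hπ, ringAut_char (H26.irr_isCharacter χ) σ hσ, ← H26.irr_inv θ,
      ringAut_char (H26.irr_isCharacter θ) σ hσH, ← H26.irr_inv (galIrr hkH θ)]
    rfl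
  have hlow := card_le_sum_norm_pow a hint hne hgal 2
  -- Parseval
  have hpar : ∀ χ : Cfsg.IrrCharacter X, ∀ e : E, ∑ θ : Cfsg.IrrCharacter H, ‖a (χ, θ, e)‖ ^ 2
      = (Nat.card H : ℝ)⁻¹ * ∑ h : H, ‖η e h‖ ^ 2 * ‖χ.1 (v * h)‖ ^ 2 := by
    intro χ e
    have hF := ((hη.intMod e).mul (hf χ)).1
    have h := congrArg Complex.re (H26.classInner_eq_sum _ (η e * fun h : H => χ.1 (v * h)) hF)
    rw [Cfsg.classInner] at h
    simp only [Complex.mul_conj, Complex.normSq_eq_norm_sq] at h
    rw [← Complex.ofReal_sum, ← Complex.ofReal_natCast, ← Complex.ofReal_inv,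
      ← Complex.ofReal_mul, Complex.ofReal_re, ← Complex.ofReal_sum, Complex.ofReal_re] at h
    simp only [Pi.mul_apply, norm_mul, mul_pow] at h
    exact h.symm
  have hper : ∀ e : E, ∀ h : H, ‖η e h‖ ^ 2 * ∑ χ : Cfsg.IrrCharacter X, ‖χ.1 (v * h)‖ ^ 2
      ≤ (Nat.card V : ℝ) * (Nat.card (Subgroup.centralizer ({h} : Set H)) : ℝ) := by
    intro e h
    rw [sum_irr_norm_sq]
    have hF0 : (0 : ℝ) < fixCard ρ h := Nat.cast_pos.2 (fixCard_pos ρ h)
    refine le_of_mul_le_mul_right ?_ hF0
    calc ‖η e h‖ ^ 2 * _ * (fixCard ρ h : ℝ)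
        = (Nat.card (Subgroup.centralizer ({v * (h : X)} : Set X)) : ℝ) * Nat.card M := by
          rw [← hη.normSq e h]; ring
      _ ≤ ((Nat.card ↥(V ⊓ Subgroup.centralizer ({(h : X)} : Set X))
            * Nat.card (Subgroup.centralizer ({h} : Set H)) : ℕ) : ℝ) * Nat.card M :=
          mul_le_mul_of_nonneg_right
            (Nat.cast_le.2 (card_centralizer_le_fix V hVp hidx hcomm G hGV hv hHG hHv hHmax h)) (Nat.cast_nonneg _)
      _ ≤ _ := by
          push_cast
          have := (Nat.cast_le (α := ℝ)).2 (hfix h)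
          push_cast at this
          calc _ = (Nat.card ↥(V ⊓ Subgroup.centralizer ({(h : X)} : Set X)) : ℝ) * Nat.card M
                * (Nat.card (Subgroup.centralizer ({h} : Set H)) : ℝ) := by ring
            _ ≤ (Nat.card V : ℝ) * fixCard ρ h
                * (Nat.card (Subgroup.centralizer ({h} : Set H)) : ℝ) :=
              mul_le_mul_of_nonneg_right this (Nat.cast_nonneg _)
            _ = _ := by ring
  have hup : ∑ q, ‖a q‖ ^ 2
      ≤ (Fintype.card E : ℝ) * ((Nat.card V : ℝ) * (Nat.card (ConjClasses H) : ℝ)) := by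
    calc ∑ q, ‖a q‖ ^ 2
        = ∑ e : E, ∑ χ : Cfsg.IrrCharacter X, ∑ θ : Cfsg.IrrCharacter H, ‖a (χ, θ, e)‖ ^ 2 := by
          rw [Fintype.sum_prod_type]
          simp only [Fintype.sum_prod_type]
          rw [Finset.sum_comm' (t' := Finset.univ) (s' := fun _ => Finset.univ) (by simp)]
          rw [Finset.sum_comm]
          refine (Finset.sum_congr rfl fun χ _ => Finset.sum_comm).trans ?_
          rw [Finset.sum_comm]
      _ = ∑ e : E, (Nat.card H : ℝ)⁻¹ * ∑ h : H,
            ‖η e h‖ ^ 2 * ∑ χ : Cfsg.IrrCharacter X, ‖χ.1 (v * h)‖ ^ 2 := by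
          refine Finset.sum_congr rfl fun e _ => ?_
          simp only [hpar, ← Finset.mul_sum]
          rw [Finset.sum_comm]
          simp only [Finset.mul_sum]
      _ ≤ ∑ _e : E, (Nat.card H : ℝ)⁻¹ * ∑ h : H,
            (Nat.card V : ℝ) * (Nat.card (Subgroup.centralizer ({h} : Set H)) : ℝ) :=
          Finset.sum_le_sum fun e _ => mul_le_mul_of_nonneg_left
            (Finset.sum_le_sum fun h _ => hper e h) (by positivity)
      _ = _ := by
          rw [Finset.sum_const, Finset.card_univ, nsmul_eq_mul, ← Finset.mul_sum, ← Nat.cast_sum,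
            sum_card_centralizer, Nat.cast_mul]
          have : (Nat.card H : ℝ) ≠ 0 := Nat.cast_ne_zero.2 Nat.card_pos.ne'
          field_simp
  have h3 := hlow.trans hup
  rw [Fintype.card_prod, Fintype.card_prod, ← Nat.card_eq_fintype_card,
    H26.card_irr_eq_card_conjClasses, ← Nat.card_eq_fintype_card,
    H26.card_irr_eq_card_conjClasses] at h3
  have hEpos : 0 < Fintype.card E := Fintype.card_pos_iff.2 hη.nonempty
  have hkpos : 0 < Nat.card (ConjClasses H) := Nat.card_pos
  have h4 : Nat.card (ConjClasses X) * (Nat.card (ConjClasses H) * Fintype.card E)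
      ≤ Fintype.card E * (Nat.card V * Nat.card (ConjClasses H)) := by exact_mod_cast h3
  rw [mul_comm (Fintype.card E), mul_assoc] at h4
  exact Nat.le_of_mul_le_mul_right h4 (Nat.mul_pos hkpos hEpos)

end Cfsg.Agent.H45
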