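import Cfsg.Agent.H45.OddIndexReal
import Cfsg.Agent.H44.NormalDegrees

/-!
# Degrees of real characters over real characters of a normal subgroup of odd index
-/

set_option autoImplicit false

open scoped ComplexConjugate

namespace Cfsg.Agent.H45

variable {G : Type*} [Group G] [Finite G] (N : Subgroup G) [N.Normal]

omit [Finite G] in
/-- `irrTwist` in terms of `twist`. -/
theorem irrTwist_val (g : G) (θ : Cfsg.IrrCharacter ↥N) [Finite G] :
    (irrTwist N g θ).1 = H56.twist N θ.1 g⁻¹ := by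
  funext k
  refine congrArg θ.1 (Subtype.ext ?_)
  exact MulAut.conjNormal_apply g⁻¹ k

/-- The stabilizer under `irrTwist` is the inertia group. -/
theorem irrTwist_eq_iff (g : G) (θ : Cfsg.IrrCharacter ↥N) :
    irrTwist N g θ = θ ↔ g ∈ H44.inertia N θ.1 := by
  rw [Subtype.ext_iff, irrTwist_val, ← H44.mem_inertia, inv_mem_iff]

/-- A twist of a constituent is a constituent. -/
theorem classInner_irrTwist_restrict [Fintype G] [Fintype ↥N] (χ : Cfsg.IrrCharacter G) (g : G)
    (θ : Cfsg.IrrCharacter ↥N) :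
    Cfsg.classInner (fun n : ↥N => χ.1 n) (irrTwist N g θ).1 =
      Cfsg.classInner (fun n : ↥N => χ.1 n) θ.1 := by
  rw [irrTwist_val]
  conv_lhs =>
    rw [← H27.twist_restrict N (H26.irr_isClassFunction χ) g⁻¹]
  exact H56.classInner_twist N _ _ _

/-- Two constituents differ by an element of the group. -/
theorem exists_irrTwist_of_constituents [Fintype G] [Fintype ↥N] (χ : Cfsg.IrrCharacter G)
    {a b : Cfsg.IrrCharacter ↥N} (ha : Cfsg.classInner (fun n : ↥N => χ.1 n) a.1 ≠ 0)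
    (hb : Cfsg.classInner (fun n : ↥N => χ.1 n) b.1 ≠ 0) : ∃ g : G, irrTwist N g a = b := by
  obtain ⟨g, hg⟩ := H27.exists_twist_of_constituents N χ.2 a.2 b.2 ha hb
  exact ⟨g⁻¹, Subtype.ext (by rw [irrTwist_val, inv_inv, hg])⟩

/-- In odd index every real irreducible character has a real constituent. -/
theorem exists_real_below [Fintype G] [Fintype ↥N] (hodd : Odd N.index) (ξ : Cfsg.IrrCharacter G)
    (hξ : ∀ g, (ξ.1 g).im = 0) :
    ∃ θ : Cfsg.IrrCharacter ↥N, (∀ n, (θ.1 n).im = 0) ∧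
      Cfsg.classInner (fun n : ↥N => ξ.1 n) θ.1 ≠ 0 := by
  classical
  choose X hX1 hX2 using exists_real_over N hodd
  let r : RealIrr N → RealIrr N → Prop := fun a b => ∃ g : G, irrTwist N g a.1 = b.1
  let Ψ : Quot r → {ξ : Cfsg.IrrCharacter G // ∀ g, (ξ.1 g).im = 0} := fun q =>
    ⟨X q.out.1 q.out.2, hX1 _ _⟩
  have hΨ : Function.Injective Ψ := by
    intro q q' hqq
    have e : X q.out.1 q.out.2 = X q'.out.1 q'.out.2 := congrArg Subtype.val hqq
    obtain ⟨g, hg⟩ := exists_irrTwist_of_constituents N (X q.out.1 q.out.2) (hX2 _ _)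
      (e ▸ hX2 q'.out.1 q'.out.2)
    have : Quot.mk r q.out = Quot.mk r q'.out := Quot.sound ⟨g, hg⟩
    rwa [Quot.out_eq, Quot.out_eq] at this
  have hcard : Nat.card (Quot r) = Nat.card {ξ : Cfsg.IrrCharacter G // ∀ g, (ξ.1 g).im = 0} := by
    rw [H26.card_real_irr_eq_card_real_classes, card_real_classes_eq_orbits N hodd]
    exact card_orbits_real_irr_eq_real_classes N hodd
  obtain ⟨q, hq⟩ := ((Nat.bijective_iff_injective_and_card Ψ).2 ⟨hΨ, hcard⟩).2 ⟨ξ, hξ⟩
  refine ⟨q.out.1, q.out.2, ?_⟩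
  rw [← show X q.out.1 q.out.2 = ξ from congrArg Subtype.val hq]
  exact hX2 _ _

/-- The degree of the real character over a real character is the orbit size times its degree. -/
theorem degree_of_real_over [Fintype G] [Fintype ↥N] (hodd : Odd N.index)
    (θ : Cfsg.IrrCharacter ↥N) (hθ : ∀ n, (θ.1 n).im = 0) (χ : Cfsg.IrrCharacter G)
    (hχ : ∀ g, (χ.1 g).im = 0) (h : Cfsg.classInner (fun n : ↥N => χ.1 n) θ.1 ≠ 0) :
    Cfsg.charDegree (χ : G → ℂ) =
      (H44.inertia N θ.1).index * Cfsg.charDegree (θ : ↥N → ℂ) := by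
  classical
  obtain ⟨e, he, hdeg⟩ := H44.exists_degree_eq_index_inertia N χ θ h
  have hone : ∀ {H : Type _} [Group H] [Fintype H] (φ : Cfsg.IrrCharacter H),
      (∀ x, (φ.1 x).im = 0) → H26.fsIndicator φ.1 = 1 ∨ H26.fsIndicator φ.1 = -1 := by
    intro H _ _ φ hφ
    refine (H26.fsIndicator_trichotomy φ).1.resolve_left fun h0 => ?_
    obtain ⟨s, hs⟩ := (H26.fsIndicator_trichotomy φ).2.1 h0
    exact hs (hφ s)
  have hsum := sum_indicator_mult N hodd θ
  rw [Finset.sum_eq_single χ (fun ψ _ hne => ?_) (fun h => absurd (Finset.mem_univ χ) h)] at hsum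
  · rw [he] at hsum
    have he1 : e = 1 := by
      rcases hone χ hχ with h1 | h1 <;> rcases hone θ hθ with h2 | h2 <;>
        rw [h1, h2] at hsum
      · exact_mod_cast (one_mul _).symm.trans hsum
      · have h3 : ((e + 1 : ℕ) : ℂ) = 0 := by rw [Nat.cast_add, ← one_mul (e : ℂ), hsum]; simp
        exact absurd (Nat.cast_eq_zero.1 h3) (Nat.succ_ne_zero e)
      · have h3 : ((e + 1 : ℕ) : ℂ) = 0 := by
          rw [Nat.cast_add, Nat.cast_one, ← hsum]; ring
        exact absurd (Nat.cast_eq_zero.1 h3) (Nat.succ_ne_zero e)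
      · have h3 : (e : ℂ) = 1 := by linear_combination -hsum
        exact_mod_cast h3
    rw [hdeg, he1, one_mul]
  · by_cases hψ : ∀ g, (ψ.1 g).im = 0
    · by_cases h0 : Cfsg.classInner (fun n : ↥N => ψ.1 n) θ.1 = 0
      · rw [h0, mul_zero]
      · exact absurd (eq_of_real_over N hodd θ hθ hψ hχ h0 h) hne
    · rw [((H26.fsIndicator_trichotomy ψ).2).2 (not_forall.1 hψ), zero_mul]

end Cfsg.Agent.H45
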