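import Cfsg.Agent.H44.NormalDegrees
import Cfsg.Agent.H26.CharFS
import Cfsg.Agent.H26.CharInvolutions

/-!
# Real characters over a linear character inverted by an element of the group
-/

set_option autoImplicit false

open scoped ComplexConjugate

namespace Cfsg.Agent.H45

variable {G : Type*} [Group G] [Finite G] (N : Subgroup G) [N.Normal]

/-- The stabilizer of a linear character of a normal subgroup. -/
noncomputable def linStab (lam : ↥N →* ℂˣ) : Subgroup G :=
  H44.inertia N (fun n : ↥N => (lam n : ℂ))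

theorem mem_linStab {lam : ↥N →* ℂˣ} {g : G} :
    g ∈ linStab N lam ↔ ∀ n n' : ↥N, (n' : G) = g * n * g⁻¹ → lam n' = lam n := by
  rw [linStab, H44.mem_inertia]
  constructor
  · intro h n n' hn
    refine Units.ext (Eq.trans ?_ (congrFun h n))
    exact congrArg (fun x : ↥N => (lam x : ℂ)) (Subtype.ext hn)
  · intro h
    funext n
    exact congrArg Units.val (h n _ rfl)

theorem le_linStab (lam : ↥N →* ℂˣ) : N ≤ linStab N lam := fun g hg => by
  refine (mem_linStab N).2 fun n n' hn => ?_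
  rw [show n' = ⟨g, hg⟩ * n * ⟨g, hg⟩⁻¹ from Subtype.ext hn, map_mul, map_mul, map_inv, mul_comm,
    inv_mul_cancel_left]

/-- A linear character extends to its product with a complement of the normal subgroup in a
subgroup of its stabilizer. -/
theorem exists_extension_complemented (lam : ↥N →* ℂˣ) (S : Subgroup G)
    (hS : S ≤ linStab N lam) (hdis : N ⊓ S = ⊥) :
    ∃ ψ : ↥(N ⊔ S) →* ℂˣ, ∀ (h : ↥(N ⊔ S)) (n : ↥N) (s : G), s ∈ S → (h : G) = n * s →
      ψ h = lam n := by
  have hdec : ∀ h : ↥(N ⊔ S), ∃ n : ↥N, ∃ s ∈ S, (n : G) * s = h := fun h => by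
    have hh : (h : G) ∈ ((N ⊔ S : Subgroup G) : Set G) := h.2
    rw [Subgroup.normal_mul N S] at hh
    obtain ⟨n, hn, s, hs, e⟩ := hh
    simp only at e
    exact ⟨⟨n, hn⟩, s, hs, e⟩
  have huniq : ∀ (n n' : ↥N) (s s' : G), s ∈ S → s' ∈ S → (n : G) * s = n' * s' → n = n' := by
    intro n n' s s' hs hs' e
    have e' : (n' : G)⁻¹ * n = s' * s⁻¹ := by
      rw [eq_mul_inv_iff_mul_eq, mul_assoc, e, inv_mul_cancel_left]
    have hb : (n' : G)⁻¹ * n ∈ (N ⊓ S : Subgroup G) :=
      ⟨N.mul_mem (N.inv_mem n'.2) n.2, e' ▸ S.mul_mem hs' (S.inv_mem hs)⟩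
    rw [hdis, Subgroup.mem_bot, inv_mul_eq_one] at hb
    exact Subtype.ext hb.symm
  choose f s hs hf using hdec
  refine ⟨MonoidHom.mk' (fun h => lam (f h)) fun a b => ?_, fun h n u hu e => ?_⟩
  · let m : ↥N := ⟨s a * f b * (s a)⁻¹, ‹N.Normal›.conj_mem _ (f b).2 _⟩
    have h1 : f (a * b) = f a * m := by
      refine huniq _ _ (s (a * b)) (s a * s b) (hs _) (S.mul_mem (hs a) (hs b)) ?_
      rw [hf (a * b), Subgroup.coe_mul, Subgroup.coe_mul, ← hf a, ← hf b]
      show (f a : G) * s a * ((f b : G) * s b) =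
        (f a : G) * (s a * f b * (s a)⁻¹) * (s a * s b)
      group
    show lam (f (a * b)) = lam (f a) * lam (f b)
    rw [h1, map_mul, (mem_linStab N).1 (hS (hs a)) (f b) m rfl]
  · show lam (f h) = lam n
    rw [huniq (f h) n (s h) u (hs h) hu ((hf h).trans e)]

omit [N.Normal] in
/-- The sum of the constituents of the restriction is positive as soon as one is. -/
theorem classInner_restrict_ne_zero [Fintype G] (H : Subgroup G) [Fintype ↥H] [Fintype ↥N]
    (hNH : N ≤ H) (χ : Cfsg.IrrCharacter G) (φ : Cfsg.IrrCharacter ↥H) (θ : Cfsg.IrrCharacter ↥N)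
    (h1 : Cfsg.classInner (fun h : ↥H => χ.1 h) φ.1 ≠ 0)
    (h2 : Cfsg.classInner (fun n : ↥N => φ.1 (Subgroup.inclusion hNH n)) θ.1 ≠ 0) :
    Cfsg.classInner (fun n : ↥N => χ.1 n) θ.1 ≠ 0 := by
  classical
  obtain ⟨c, hc, hdec⟩ := H26.exists_nat_coeffs
    (H26.isCharacter_comp (H26.irr_isCharacter χ) H.subtype)
  have hd : ∀ φ : Cfsg.IrrCharacter ↥H, ∃ d : ℕ,
      Cfsg.classInner (fun n : ↥N => φ.1 (Subgroup.inclusion hNH n)) θ.1 = d := fun φ =>
    H26.exists_nat_classInner_irr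
      (H26.isCharacter_comp (H26.irr_isCharacter φ) (Subgroup.inclusion hNH)) θ
  choose d hd using hd
  have e : (fun n : ↥N => χ.1 n) =
      ∑ φ : Cfsg.IrrCharacter ↥H, (c φ : ℂ) • fun n : ↥N => φ.1 (Subgroup.inclusion hNH n) := by
    funext n
    have := congrFun hdec (Subgroup.inclusion hNH n)
    simp only [Finset.sum_apply, Pi.smul_apply, Subgroup.coe_subtype, Function.comp_apply] at this ⊢
    exact this
  have hval : Cfsg.classInner (fun n : ↥N => χ.1 n) θ.1 = ((∑ φ, c φ * d φ : ℕ) : ℂ) := by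
    rw [e, H26.classInner_sum_left]
    simp only [H26.classInner_smul_left, hd, Nat.cast_sum, Nat.cast_mul]
  rw [hval]
  have hcne : c φ ≠ 0 := fun h0 => h1 (by
    have := hc φ
    rw [h0, Nat.cast_zero] at this
    exact this)
  have hdne : d φ ≠ 0 := fun h0 => h2 (by rw [hd φ, h0, Nat.cast_zero])
  have hpos : 0 < ∑ φ, c φ * d φ :=
    lt_of_lt_of_le (Nat.pos_of_ne_zero (mul_ne_zero hcne hdne))
      (Finset.single_le_sum (f := fun φ => c φ * d φ) (fun _ _ => Nat.zero_le _)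
        (Finset.mem_univ φ))
  exact_mod_cast hpos.ne'

/-- If an element conjugates a linear character of a normal subgroup to its complex conjugate and
normalizes a complement in a subgroup of odd index of the stabilizer, then some real irreducible
character over it has degree divisible by the orbit size. -/
theorem exists_real_over_complemented [Fintype G] [Fintype ↥N] (lam : ↥N →* ℂˣ) (S : Subgroup G)
    (hS : S ≤ linStab N lam) (hdis : N ⊓ S = ⊥) (hodd : Odd ((N ⊔ S).relIndex (linStab N lam)))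
    (t : G) (ht : ∀ s ∈ S, t * s * t⁻¹ ∈ S)
    (hinv : ∀ n n' : ↥N, (n' : G) = t * n * t⁻¹ → lam n' = (lam n)⁻¹) :
    ∃ χ : Cfsg.IrrCharacter G, (∀ g, (χ.1 g).im = 0) ∧
      (linStab N lam).index ∣ Cfsg.charDegree (χ : G → ℂ) ∧
      Cfsg.classInner (fun n : ↥N => χ.1 n) (fun n : ↥N => (lam n : ℂ)) ≠ 0 := by
  classical
  have hex := exists_extension_complemented N lam S hS hdis
  set H := N ⊔ S with hH
  obtain ⟨ψ, hψ⟩ := hex
  have hNH : N ≤ H := le_sup_left
  haveI : Fintype ↥H := Fintype.ofFinite _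
  let θ : Cfsg.IrrCharacter ↥N := ⟨_, H26.isIrrCharacter_hom lam⟩
  let φ : Cfsg.IrrCharacter ↥H := ⟨_, H26.isIrrCharacter_hom ψ⟩
  set η := Cfsg.indFun H φ.1 with hη
  -- conjugation by `t` maps `H` to itself
  have htH : ∀ h : G, t * h * t⁻¹ ∈ H ↔ h ∈ H := by
    have hfw : ∀ h ∈ H, t * h * t⁻¹ ∈ H := by
      intro h hh
      have h' : h ∈ ((N ⊔ S : Subgroup G) : Set G) := hh
      rw [Subgroup.normal_mul N S] at h'
      obtain ⟨n, hn, s, hs, rfl⟩ := h'
      rw [show t * (n * s) * t⁻¹ = (t * n * t⁻¹) * (t * s * t⁻¹) by group]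
      exact H.mul_mem (hNH (‹N.Normal›.conj_mem n hn t)) (le_sup_right (a := N) (ht s hs))
    intro h
    refine ⟨fun hh => ?_, hfw h⟩
    have hsurj : Function.Surjective (fun x : ↥H => (⟨t * x * t⁻¹, hfw x x.2⟩ : ↥H)) :=
      Finite.surjective_of_injective fun a b e => Subtype.ext (by
        simpa using congrArg Subtype.val e)
    obtain ⟨x, hx⟩ := hsurj ⟨_, hh⟩
    have : (x : G) = h := by simpa using congrArg Subtype.val hx
    exact this ▸ x.2
  have hψt : ∀ (a b : ↥H), (b : G) = t * a * t⁻¹ → φ.1 b = conj (φ.1 a) := by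
    intro a b hb
    have ha : (a : G) ∈ ((N ⊔ S : Subgroup G) : Set G) := a.2
    rw [Subgroup.normal_mul N S] at ha
    obtain ⟨n, hn, s, hs, e⟩ := ha
    simp only at e
    have e1 : ψ a = lam ⟨n, hn⟩ := hψ a ⟨n, hn⟩ s hs e.symm
    have e2 : ψ b = lam ⟨t * n * t⁻¹, ‹N.Normal›.conj_mem n hn t⟩ :=
      hψ b _ (t * s * t⁻¹) (ht s hs) (by
        rw [hb, ← e]; show t * (n * s) * t⁻¹ = t * n * t⁻¹ * (t * s * t⁻¹); group)
    show ((ψ b : ℂˣ) : ℂ) = conj ((ψ a : ℂˣ) : ℂ)
    rw [e1, e2, hinv ⟨n, hn⟩ _ rfl, ← H26.irr_inv θ]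
    show ((lam ⟨n, hn⟩)⁻¹ : ℂˣ) = ((lam (⟨n, hn⟩)⁻¹ : ℂˣ) : ℂ)
    rw [map_inv]
  have hext : ∀ g : G, Cfsg.extendByZero H φ.1 (t * g * t⁻¹) =
      conj (Cfsg.extendByZero H φ.1 g) := by
    intro g
    by_cases hg : g ∈ H
    · rw [H25.extendByZero_of_mem _ _ hg, H25.extendByZero_of_mem _ _ ((htH g).2 hg)]
      exact hψt _ _ rfl
    · rw [H25.extendByZero_of_notMem _ _ hg,
        H25.extendByZero_of_notMem _ _ (fun h => hg ((htH g).1 h)), map_zero]
  have hreal : ∀ g, conj (η g) = η g := by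
    intro g
    simp only [hη, H25.indFun_apply, map_mul, map_inv₀, map_natCast, map_sum]
    congr 1
    refine Fintype.sum_equiv (Equiv.mulRight t⁻¹) _ _ fun x => ?_
    rw [← hext]
    congr 1
    show t * (x⁻¹ * g * x) * t⁻¹ = (x * t⁻¹)⁻¹ * g * (x * t⁻¹)
    group
  obtain ⟨a, ha, hdec⟩ :=
    H26.exists_nat_coeffs (H25.isCharacter_indFun H (H26.irr_isCharacter φ))
  have haconj : ∀ χ, a (H26.conjIrr χ) = a χ := by
    intro χ
    have h1 : Cfsg.classInner η (H26.conjIrr χ).1 = conj (Cfsg.classInner η χ.1) := by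
      simp only [Cfsg.classInner, map_mul, map_inv₀, map_natCast, map_sum, hreal,
        H26.conjIrr_val]
    rw [hη, ha, ha, Complex.conj_natCast] at h1
    exact_mod_cast h1
  have hover : ∀ χ, a χ ≠ 0 → Cfsg.classInner (fun n : ↥N => χ.1 n) θ.1 ≠ 0 := by
    intro χ hne
    refine classInner_restrict_ne_zero N H hNH χ φ θ ?_ ?_
    · intro h0
      apply hne
      have h1 := ha χ
      rw [H25.classInner_indFun_left H φ.1 χ.1 (H26.irr_isClassFunction χ), ← H25.conj_classInner,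
        h0, map_zero] at h1
      exact_mod_cast h1.symm
    · rw [show (fun n : ↥N => φ.1 (Subgroup.inclusion hNH n)) = θ.1 from funext fun n => ?_]
      · rw [H26.classInner_irr, if_pos rfl]; exact one_ne_zero
      · exact congrArg Units.val (hψ _ n 1 S.one_mem (by simp))
  have hdiv : ∀ χ, a χ ≠ 0 → (linStab N lam).index ∣ Cfsg.charDegree (χ : G → ℂ) :=
    fun χ hne => (dvd_mul_right _ _).trans
      (H44.degree_mul_index_inertia_dvd N χ θ (hover χ hne))
  set m := (linStab N lam).index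
  have hm : 0 < m := Nat.pos_of_ne_zero Subgroup.index_ne_zero_of_finite
  have hsum : H.index = ∑ χ, a χ * Cfsg.charDegree (χ : G → ℂ) := by
    have h := congrFun hdec 1
    rw [H25.indFun_one] at h
    have h1 : φ.1 1 = 1 := by
      show ((ψ 1 : ℂˣ) : ℂ) = 1
      simp
    simp only [h1, mul_one, Finset.sum_apply, Pi.smul_apply, smul_eq_mul,
      ← H44.cast_charDegree] at h
    exact_mod_cast h
  set f : Cfsg.IrrCharacter G → ℕ := fun χ => a χ * (Cfsg.charDegree (χ : G → ℂ) / m)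
  have hfm : ∀ χ, f χ * m = a χ * Cfsg.charDegree (χ : G → ℂ) := by
    intro χ
    rcases eq_or_ne (a χ) 0 with h0 | h0
    · simp [f, h0]
    · show a χ * (_ / m) * m = _
      rw [mul_assoc, Nat.div_mul_cancel (hdiv χ h0)]
  have hfsum : Odd (∑ χ, f χ) := by
    have hrel : H.relIndex (linStab N lam) * m = H.index :=
      Subgroup.relIndex_mul_index (sup_le (le_linStab N lam) hS)
    have : (∑ χ, f χ) * m = H.relIndex (linStab N lam) * m := by
      rw [hrel, hsum, Finset.sum_mul]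
      exact Finset.sum_congr rfl fun χ _ => hfm χ
    rw [Nat.eq_of_mul_eq_mul_right hm this]
    exact hodd
  have hfconj : ∀ χ, f (H26.conjIrr χ) = f χ := by
    intro χ
    have : Cfsg.charDegree (H26.conjIrr χ : G → ℂ) = Cfsg.charDegree (χ : G → ℂ) := by
      refine H26.charDegree_eq (χ := (H26.conjIrr χ).1) ?_
      rw [H26.conjIrr_val, ← H44.cast_charDegree, Complex.conj_natCast]
    simp only [f, haconj, this]
  by_contra hcon
  push Not at hcon
  have hz : ∑ χ, (f χ : ZMod 2) = 0 := by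
    refine Finset.sum_involution (fun χ _ => H26.conjIrr χ) (fun χ _ => ?_) (fun χ _ hne => ?_)
      (fun χ _ => Finset.mem_univ _) (fun χ _ => H26.conjIrr_conjIrr χ)
    · rw [hfconj]; exact CharTwo.add_self_eq_zero _
    · intro hfix
      have hf0 : a χ ≠ 0 := fun h0 => hne (by simp [f, h0])
      exact hover χ hf0 (hcon χ ((H26.conjIrr_eq_self_iff χ).1 hfix) (hdiv χ hf0))
  rw [← Nat.cast_sum, ZMod.natCast_eq_zero_iff_even] at hz
  exact Nat.not_even_iff_odd.2 hfsum hz

end Cfsg.Agent.H45
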