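import Cfsg.Agent.H45.RealOver
import Cfsg.Agent.H45.Inflation
import Cfsg.Agent.H19.MinimalNormal
import Cfsg.Agent.H19.Cores

/-!
# Groups all of whose real irreducible characters have degree prime to `p`
-/

set_option autoImplicit false

open scoped ComplexConjugate

universe u

namespace Cfsg.Agent.H45

/-- Every real irreducible character has degree prime to `p`. -/
def RealPPrime (p : ℕ) (G : Type*) [Group G] : Prop :=
  ∀ χ : Cfsg.IrrCharacter G, (∀ g : G, ((χ : G → ℂ) g).im = 0) →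
    ¬ p ∣ Cfsg.charDegree (χ : G → ℂ)

/-- The subgroup generated by the elements of `p`-power order. -/
def pGen (p : ℕ) (G : Type*) [Group G] : Subgroup G :=
  Subgroup.closure {g : G | ∃ k : ℕ, orderOf g = p ^ k}

variable {G : Type u} [Group G]

instance pGen_normal (p : ℕ) : (pGen p G).Normal :=
  ⟨fun n hn g => by
    induction hn using Subgroup.closure_induction with
    | mem x hx =>
      refine Subgroup.subset_closure ?_
      obtain ⟨k, hk⟩ := hx
      exact ⟨k, by rw [← hk]; exact MulEquiv.orderOf_eq (MulAut.conj g) x⟩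
    | one => simp
    | mul x y _ _ hx hy =>
      rw [show g * (x * y) * g⁻¹ = (g * x * g⁻¹) * (g * y * g⁻¹) by group]
      exact mul_mem hx hy
    | inv x _ hx =>
      rw [show g * x⁻¹ * g⁻¹ = (g * x * g⁻¹)⁻¹ by group]
      exact inv_mem hx⟩

theorem mem_pGen {p : ℕ} [Fact p.Prime] {g : G} {k : ℕ} (h : g ^ p ^ k = 1) : g ∈ pGen p G := by
  obtain ⟨l, -, hl⟩ := (Nat.dvd_prime_pow Fact.out).1 (orderOf_dvd_of_pow_eq_one h)
  exact Subgroup.subset_closure ⟨l, hl⟩

theorem le_pGen {p : ℕ} [Fact p.Prime] {Q : Subgroup G} (hQ : IsPGroup p Q) : Q ≤ pGen p G :=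
  fun g hg => by
    obtain ⟨k, hk⟩ := hQ ⟨g, hg⟩
    exact mem_pGen (k := k) (by simpa using congrArg Subtype.val hk)

variable [Finite G]

theorem map_pGen {p : ℕ} [hp : Fact p.Prime] {H : Type*} [Group H] (π : G →* H)
    (hπ : Function.Surjective π) : (pGen p G).map π = pGen p H := by
  refine le_antisymm ?_ ?_
  · rw [Subgroup.map_le_iff_le_comap, pGen, Subgroup.closure_le]
    rintro g ⟨k, hk⟩
    refine mem_pGen (k := k) ?_
    rw [← map_pow, ← hk, pow_orderOf_eq_one, map_one]
  · rw [pGen, Subgroup.closure_le]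
    rintro h ⟨k, hk⟩
    obtain ⟨g, rfl⟩ := hπ h
    set m := orderOf g / p ^ (orderOf g).factorization p with hm
    have hcop : Nat.Coprime m (orderOf (π g)) := by
      rw [hk]
      exact ((Nat.coprime_ordCompl hp.out (orderOf_pos g).ne').symm).pow_right k
    obtain ⟨j, hj⟩ := exists_pow_eq_self_of_coprime hcop
    rw [← hj, ← map_pow, ← map_pow]
    refine Subgroup.mem_map_of_mem π (Subgroup.pow_mem _ (mem_pGen (k := (orderOf g).factorization p) ?_) j)
    rw [← pow_mul, hm, Nat.div_mul_cancel (Nat.ordProj_dvd _ _), pow_orderOf_eq_one]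

theorem isSolvable_pGen_quotient {p : ℕ} [Fact p.Prime] (h : Group.IsSolvable (pGen p G))
    (N : Subgroup G) [N.Normal] : Group.IsSolvable (pGen p (G ⧸ N)) := by
  rw [← map_pGen (QuotientGroup.mk' N) (QuotientGroup.mk'_surjective N)]
  exact Group.isSolvable_of_surjective ((QuotientGroup.mk' N).subgroupMap_surjective (pGen p G))

omit [Finite G] in
theorem RealPPrime.quotient {p : ℕ} (h : RealPPrime p G) (N : Subgroup G) [N.Normal] :
    RealPPrime p (G ⧸ N) := fun χ hχ => by
  have h1 := h (inflIrr (QuotientGroup.mk' N) (QuotientGroup.mk'_surjective N) χ)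
    fun g => hχ (QuotientGroup.mk' N g)
  rwa [show Cfsg.charDegree ((inflIrr (QuotientGroup.mk' N) (QuotientGroup.mk'_surjective N) χ :
    Cfsg.IrrCharacter G) : G → ℂ) = Cfsg.charDegree (χ : G ⧸ N → ℂ) by
      simp [Cfsg.charDegree, inflIrr]] at h1

omit [Finite G] in
/-- A linear character inverted by conjugation by a given element. -/
theorem exists_inverted_hom {N : Subgroup G} [N.Normal] [Finite N] [IsMulCommutative N]
    (hodd : Odd (Nat.card N)) {t : G} (h2 : ∀ n ∈ N, (t * t) * n * (t * t)⁻¹ = n)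
    {n0 : G} (hn0 : n0 ∈ N) (hne : t * n0 * t⁻¹ ≠ n0) :
    ∃ lam : ↥N →* ℂˣ, lam ≠ 1 ∧
      ∀ n n' : ↥N, (n' : G) = t * n * t⁻¹ → lam n' = (lam n)⁻¹ := by
  have hcm : ∀ a b : ↥N, a * b = b * a := fun a b => mul_comm' a b
  letI : CommGroup ↥N := { (inferInstance : Group ↥N) with mul_comm := hcm }
  let c : ↥N →* ↥N := (MulAut.conjNormal t : MulAut ↥N).toMonoidHom
  have hc : ∀ n n' : ↥N, (n' : G) = t * n * t⁻¹ → n' = c n := fun n n' h =>
    Subtype.ext (h.trans (MulAut.conjNormal_apply t n).symm)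
  have hcv : ∀ n : ↥N, ((c n : ↥N) : G) = t * n * t⁻¹ := fun n => MulAut.conjNormal_apply t n
  have hcc : ∀ n : ↥N, c (c n) = n := fun n => Subtype.ext (by
    rw [hcv, hcv]
    refine Eq.trans ?_ (h2 n n.2)
    group)
  set m : ↥N := ⟨n0, hn0⟩ * (c ⟨n0, hn0⟩)⁻¹ with hm
  have hm1 : m ≠ 1 := fun h => hne (by
    have h' := congrArg Subtype.val (mul_inv_eq_one.1 h)
    rw [hcv] at h'
    exact h'.symm)
  have hcm' : c m = m⁻¹ := by
    rw [hm, map_mul, map_inv, hcc, mul_inv_rev, inv_inv, mul_comm]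
  have : HasEnoughRootsOfUnity ℂ (Monoid.exponent ↥N) := inferInstance
  obtain ⟨μ, hμ⟩ := CommGroup.exists_apply_ne_one_of_hasEnoughRootsOfUnity ↥N ℂ hm1
  refine ⟨μ / μ.comp c, fun h => ?_, fun n n' h => ?_⟩
  · have h1 : μ m * μ m = 1 := by
      have := DFunLike.congr_fun h m
      simpa [MonoidHom.div_apply, hcm'] using this
    have h3 : μ m ^ Nat.card N = 1 := by rw [← map_pow, pow_card_eq_one', map_one]
    obtain ⟨k, hk⟩ := hodd
    rw [hk, pow_succ, pow_mul, sq, h1, one_pow, one_mul] at h3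
    exact hμ h3
  · rw [hc n n' h]
    simp [MonoidHom.div_apply, hcc]

omit [Finite G] in
/-- An element of `2`-power order centralizes `N` as soon as no element moves some element of `N`
while its square fixes all of `N`. -/
theorem centralizes_of_two_power {N : Subgroup G} {t : G} {k : ℕ} (hk : t ^ 2 ^ k = 1)
    (h : ∀ s : G, (∀ n ∈ N, (s * s) * n * (s * s)⁻¹ = n) → ∀ n ∈ N, s * n * s⁻¹ = n) :
    ∀ n ∈ N, t * n * t⁻¹ = n := by
  induction k generalizing t with
  | zero => simp at hk; simp [hk]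
  | succ k ih => exact h t (ih (t := t * t) (by rw [← pow_two, ← pow_mul, ← pow_succ', hk]))

/-- The orbit of a linear character over which some real character lies has size prime to `p`. -/
theorem exists_real_over_inertia_complement {p : ℕ} (h : RealPPrime p G) {N L : Subgroup G}
    [N.Normal] (hdis : N ⊓ L = ⊥) (hsup : N ⊔ L = ⊤) (lam : ↥N →* ℂˣ) {t : G} (htL : t ∈ L)
    (hinv : ∀ n n' : ↥N, (n' : G) = t * n * t⁻¹ → lam n' = (lam n)⁻¹) :
    ¬ p ∣ (linStab N lam).index := by
  classical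
  haveI := Fintype.ofFinite G
  haveI := Fintype.ofFinite ↥N
  set I := linStab N lam with hI
  have hconj : ∀ g ∈ I, t * g * t⁻¹ ∈ I := by
    intro g hg
    rw [hI, mem_linStab] at hg ⊢
    intro n n' hn
    let a : ↥N := ⟨t⁻¹ * n * t, by simpa using ‹N.Normal›.conj_mem n n.2 t⁻¹⟩
    let b : ↥N := ⟨g * a * g⁻¹, ‹N.Normal›.conj_mem a a.2 g⟩
    have h1 : (n' : G) = t * b * t⁻¹ := by rw [hn]; simp [a, b, mul_assoc]
    have h2 : (n : G) = t * a * t⁻¹ := by simp [a, mul_assoc]
    rw [hinv b n' h1, hinv a n h2, hg a b rfl]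
  have hIeq : N ⊔ (L ⊓ I) = I := by
    refine le_antisymm (sup_le (le_linStab N lam) inf_le_right) fun g hg => ?_
    have hg' : g ∈ ((N ⊔ L : Subgroup G) : Set G) := by rw [hsup]; trivial
    rw [Subgroup.normal_mul N L] at hg'
    obtain ⟨n, hn, l, hl, rfl⟩ := hg'
    refine mul_mem (Subgroup.mem_sup_left hn) (Subgroup.mem_sup_right ⟨hl, ?_⟩)
    simpa using I.mul_mem (I.inv_mem (le_linStab N lam hn)) hg
  obtain ⟨χ, hχ, hd, -⟩ := exists_real_over_complemented N lam (L ⊓ I) inf_le_right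
    (le_bot_iff.1 ((inf_le_inf_left N inf_le_left).trans hdis.le)) (by rw [hIeq, Subgroup.relIndex_self]; exact odd_one)
    t (fun s hs => ⟨L.mul_mem (L.mul_mem htL hs.1) (L.inv_mem htL), hconj s hs.2⟩) hinv
  exact fun hp => h χ hχ (hp.trans hd)

/-- **The Sylow `p`-subgroups above the subgroup generated by the `2`-elements.** -/
theorem not_dvd_relIndex_pCore {p : ℕ} [hp : Fact p.Prime] (hsolv : Group.IsSolvable (pGen p G))
    (hreal : RealPPrime p G) (U : Subgroup G) [U.Normal] (hKU : pGen 2 G ≤ U)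
    (hUp : ∃ a : ℕ, (pGen 2 G).relIndex U = p ^ a) :
    ¬ p ∣ (Cfsg.pCore p G ⊓ U).relIndex U := by
  induction hn : Nat.card G using Nat.strong_induction_on generalizing G with
  | _ n ih =>
  subst hn
  haveI := H19.pCore_normal p G
  -- the induction hypothesis in a quotient
  have step : ∀ (N : Subgroup G) [N.Normal], N ≠ ⊥ → N ≤ U →
      ∃ W : Subgroup G, W.Normal ∧ N ≤ W ∧ W ≤ U ∧ IsPGroup p (W.map (QuotientGroup.mk' N)) ∧
        ¬ p ∣ W.relIndex U := by
    intro N hN hN1 hNU
    set π := QuotientGroup.mk' N with hπ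
    have hs := QuotientGroup.mk'_surjective N
    have hlt : Nat.card (G ⧸ N) < Nat.card G := by
      conv_rhs => rw [Subgroup.card_eq_card_quotient_mul_card_subgroup N]
      exact lt_mul_of_one_lt_right Nat.card_pos (Subgroup.one_lt_card_iff_ne_bot N |>.2 hN1)
    haveI : (U.map π).Normal := ‹U.Normal›.map π hs
    have hcm : (U.map π).comap π = U := by
      rw [Subgroup.comap_map_eq, hπ, QuotientGroup.ker_mk', sup_eq_left.2 hNU]
    obtain ⟨a, ha⟩ := hUp
    have hK : (pGen 2 G).map π = pGen 2 (G ⧸ N) := by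
      haveI : Fact (Nat.Prime 2) := ⟨Nat.prime_two⟩
      exact map_pGen π hs
    have hUp' : ∃ b : ℕ, (pGen 2 (G ⧸ N)).relIndex (U.map π) = p ^ b := by
      have : (pGen 2 (G ⧸ N)).relIndex (U.map π) ∣ p ^ a := by
        rw [← ha, ← hK]
        rw [Subgroup.relIndex_map_map, hπ, QuotientGroup.ker_mk', sup_eq_left.2 hNU]
        exact Subgroup.relIndex_dvd_of_le_left U le_sup_left
      obtain ⟨b, -, hb⟩ := (Nat.dvd_prime_pow hp.out).1 this
      exact ⟨b, hb⟩
    have h := ih _ hlt (isSolvable_pGen_quotient hsolv N) (hreal.quotient N) (U.map π)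
      (hK ▸ Subgroup.map_mono hKU) hUp' rfl
    haveI := H19.pCore_normal p (G ⧸ N)
    refine ⟨(Cfsg.pCore p (G ⧸ N) ⊓ U.map π).comap π, inferInstance, ?_, ?_, ?_, ?_⟩
    · intro x hx
      rw [Subgroup.mem_comap, (QuotientGroup.eq_one_iff x).2 hx |> fun e => (show π x = 1 from e)]
      exact one_mem _
    · exact (Subgroup.comap_mono inf_le_right).trans hcm.le
    · rw [Subgroup.map_comap_eq_self_of_surjective hs]
      exact (H19.pCore_isPGroup p).to_le inf_le_left
    · rwa [Subgroup.relIndex_comap]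
  intro hd
  set C := Cfsg.pCore p G ⊓ U with hC
  rcases eq_or_ne C ⊥ with hC1 | hC1
  swap
  · obtain ⟨W, hWn, hCW, hWU, hWp, hW⟩ := step C hC1 inf_le_right
    have hW' : IsPGroup p W := by
      intro w
      obtain ⟨k, hk⟩ := hWp ⟨QuotientGroup.mk' C (w : G), Subgroup.mem_map_of_mem _ w.2⟩
      have hkC : (w : G) ^ p ^ k ∈ C := by
        rw [← QuotientGroup.eq_one_iff]
        simpa using congrArg Subtype.val hk
      obtain ⟨l, hl⟩ := (H19.pCore_isPGroup p).to_le (inf_le_left : C ≤ _) ⟨_, hkC⟩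
      exact ⟨k + l, Subtype.ext (by
        rw [pow_add, pow_mul]
        simpa using congrArg Subtype.val hl)⟩
    have : W = C := le_antisymm (le_inf (H19.le_pCore hWn hW') hWU) hCW
    exact hW (this ▸ hd)
  rw [hC1, Subgroup.relIndex_bot_left] at hd
  have hU1 : U ≠ ⊥ := by
    rintro rfl
    simp at hd
    exact hp.out.ne_one hd
  obtain ⟨N, hNn, hN1, hNU, hmin⟩ := H19.exists_minimalNormal_le U hU1
  have hnop : ∀ A : Subgroup G, A.Normal → A ≤ U → IsPGroup p A → A = ⊥ := fun A hA hAU hAp =>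
    le_bot_iff.1 (hC1 ▸ le_inf (H19.le_pCore hA hAp) hAU)
  obtain ⟨W, hWn, hNW, hWU, hWp, hW⟩ := step N hN1 hNU
  obtain ⟨Q⟩ : Nonempty (Sylow p W) := inferInstance
  set Q' : Subgroup G := (Q : Subgroup W).map W.subtype with hQ'
  have hQW : Q' ≤ W := Subgroup.map_subtype_le _
  have hQp : IsPGroup p Q' := Q.2.map W.subtype
  set L := Subgroup.normalizer (Q' : Set G)
  have hWtop : W ⊔ L = ⊤ := by
    rw [sup_comm]
    exact Q.normalizer_sup_eq_top
  have hWNQ : W ≤ N ⊔ Q' := by
    intro w hw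
    have hmap : (Q'.map (QuotientGroup.mk' N)) = W.map (QuotientGroup.mk' N) := by
      refine le_antisymm (Subgroup.map_mono hQW) ?_
      let π₁ := (QuotientGroup.mk' N).subgroupMap W
      rintro _ ⟨x, hx, rfl⟩
      have htop : ((Q : Subgroup W).map π₁) = ⊤ := by
        let R := Q.mapSurjective (f := π₁) ((QuotientGroup.mk' N).subgroupMap_surjective W)
        show R.toSubgroup = ⊤
        exact (R.is_maximal' (hWp.to_subgroup ⊤) le_top).symm
      obtain ⟨q, hq, e⟩ := htop ▸ Subgroup.mem_top (π₁ ⟨x, hx⟩)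
      exact ⟨q, Subgroup.mem_map_of_mem _ hq, congrArg Subtype.val e⟩
    obtain ⟨q, hq, e⟩ : QuotientGroup.mk' N w ∈ Q'.map (QuotientGroup.mk' N) := by
      rw [hmap]; exact Subgroup.mem_map_of_mem _ hw
    rw [show w = (w * q⁻¹) * q by group]
    refine mul_mem (Subgroup.mem_sup_left ?_) (Subgroup.mem_sup_right hq)
    rw [← QuotientGroup.eq_one_iff, QuotientGroup.mk_mul, QuotientGroup.mk_inv]
    exact mul_inv_eq_one.2 e.symm
  have hNL : N ⊔ L = ⊤ := by
    rw [eq_top_iff, ← hWtop]
    exact sup_le (hWNQ.trans (sup_le_sup_left Subgroup.le_normalizer N)) le_sup_right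
  have hQn : ¬ Q'.Normal := by
    intro hQ
    have hQ1 : Q' = ⊥ := hnop Q' hQ (hQW.trans hWU) hQp
    have hQbot : (Q : Subgroup W) = ⊥ := by
      rwa [hQ', Subgroup.map_eq_bot_iff_of_injective _ W.subtype_injective] at hQ1
    refine hW ((hp.out.dvd_mul.1 ?_).resolve_left (show ¬ p ∣ Nat.card W from ?_))
    · rw [← Subgroup.relIndex_bot_left, Subgroup.relIndex_mul_relIndex _ _ _ bot_le hWU,
        Subgroup.relIndex_bot_left]
      exact hd
    · intro hpW
      exact Q.ne_bot_of_dvd_card hpW hQbot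
  set R := pGen p G with hR
  -- `N` is contained in `R`
  have hNR : N ≤ R := by
    rcases hmin (N ⊓ R) inferInstance inf_le_left with h | h
    · exfalso
      have hcomm : ∀ q ∈ Q', ∀ x ∈ N, q * x = x * q := fun q hq x hx =>
        (Subgroup.commute_of_normal_of_disjoint R N inferInstance hNn
          (disjoint_iff.2 (by rwa [inf_comm])) q x (le_pGen hQp hq) hx).eq
      apply hQn
      rw [← Subgroup.normalizer_eq_top_iff]
      rw [eq_top_iff, ← hNL]
      refine sup_le (fun x hx => Subgroup.mem_normalizer_iff.2 fun q => ?_) le_rfl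
      constructor
      · intro hq; rwa [← hcomm q hq x hx, mul_inv_cancel_right]
      · intro hq
        have h1 := hcomm _ hq x hx
        have : x * q * x⁻¹ = q := by
          have h2 : x * q = x * (x * q * x⁻¹) := by rw [← h1]; group
          exact (mul_left_cancel h2).symm
        rwa [this] at hq
    · exact inf_eq_left.1 h
  have hNsol : Group.IsSolvable N :=
    Group.isSolvable_of_isSolvable_injective (f := Subgroup.inclusion hNR)
      (Subgroup.inclusion_injective hNR)
  obtain ⟨hNc, r, hr, hNr, hNexp⟩ := H19.minimalNormal_elementary N hNsol hN1 hmin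
  haveI := Fact.mk hr
  have hrp : r ≠ p := fun h => hN1 (hnop N hNn hNU (h ▸ hNr))
  have hcommN : ∀ a ∈ N, ∀ b ∈ N, a * b = b * a := fun a ha b hb =>
    congrArg Subtype.val (mul_comm' (⟨a, ha⟩ : ↥N) ⟨b, hb⟩)
  have hdis : N ⊓ L = ⊥ := by
    have hnorm : (N ⊓ L).Normal := by
      rw [← Subgroup.normalizer_eq_top_iff, eq_top_iff, ← hNL]
      refine sup_le (fun x hx => Subgroup.mem_normalizer_iff.2 fun y => ?_) fun l hl =>
        Subgroup.mem_normalizer_iff.2 fun y => ?_
      · constructor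
        · rintro hy
          rwa [hcommN x hx y hy.1, mul_inv_cancel_right]
        · rintro hy
          have h1 := hcommN x⁻¹ (N.inv_mem hx) _ hy.1
          have : y = x * y * x⁻¹ := by
            calc y = x⁻¹ * (x * y * x⁻¹) * x := by group
              _ = x * y * x⁻¹ := by rw [h1]; group
          exact this ▸ hy
      · refine and_congr ⟨fun hy => hNn.conj_mem y hy l, fun hy => ?_⟩
          ⟨fun hy => L.mul_mem (L.mul_mem hl hy) (L.inv_mem hl), fun hy => ?_⟩
        · simpa [mul_assoc] using hNn.conj_mem _ hy l⁻¹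
        · simpa [mul_assoc] using L.mul_mem (L.mul_mem (L.inv_mem hl) hy) hl
    refine (hmin _ hnorm inf_le_left).resolve_right fun h => hQn ?_
    rw [← Subgroup.normalizer_eq_top_iff, eq_top_iff, ← hNL]
    exact sup_le (inf_eq_left.1 h) le_rfl
  have hdecomp : ∀ g : G, ∃ x ∈ N, ∃ l ∈ L, g = x * l := fun g => by
    have hg : g ∈ ((N ⊔ L : Subgroup G) : Set G) := by rw [hNL]; trivial
    rw [Subgroup.normal_mul N L] at hg
    obtain ⟨x, hx, l, hl, rfl⟩ := hg
    exact ⟨x, hx, l, hl, rfl⟩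
  -- no nontrivial linear character is sent to its inverse
  have key : ∀ (t : G) (lam : ↥N →* ℂˣ),
      (∀ n n' : ↥N, (n' : G) = t * n * t⁻¹ → lam n' = (lam n)⁻¹) → lam = 1 := by
    intro t lam hinv
    obtain ⟨x, hx, l, hl, rfl⟩ := hdecomp t
    have hnot : ¬ p ∣ (linStab N lam).index := by
      refine exists_real_over_inertia_complement hreal hdis hNL lam hl fun n n' h => hinv n n' ?_
      have h1 : l * n * l⁻¹ ∈ N := hNn.conj_mem n n.2 l
      rw [h, show x * l * n * (x * l)⁻¹ = x * (l * n * l⁻¹) * x⁻¹ by group, hcommN x hx _ h1,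
        mul_inv_cancel_right]
    set I := linStab N lam
    have hQI : Q' ≤ I := by
      obtain ⟨S⟩ : Nonempty (Sylow p I) := inferInstance
      obtain ⟨T, hT⟩ := (S.2.map I.subtype).exists_le_sylow
      have hTI : (T : Subgroup G) = (S : Subgroup I).map I.subtype := by
        refine (Subgroup.eq_of_le_of_card_ge hT ?_).symm
        rw [Subgroup.card_subtype, Sylow.card_eq_multiplicity, Sylow.card_eq_multiplicity,
          ← Subgroup.card_mul_index I, Nat.factorization_mul Nat.card_pos.ne'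
            Subgroup.index_ne_zero_of_finite, Finsupp.add_apply,
          Nat.factorization_eq_zero_of_not_dvd hnot, add_zero]
      have hTle : (T : Subgroup G) ≤ I := hTI ▸ Subgroup.map_subtype_le _
      obtain ⟨T', hT'⟩ := hQp.exists_le_sylow
      obtain ⟨g, hg⟩ := MulAction.exists_smul_eq G T T'
      obtain ⟨y, hy, l', hl', hgy⟩ := hdecomp g⁻¹
      intro q hq
      have h1 : l'⁻¹ * q * l' ∈ Q' := by
        simpa using (Subgroup.mem_normalizer_iff.1 (L.inv_mem hl') q).1 hq
      have h2 : g⁻¹ * (l'⁻¹ * q * l') * g ∈ (T : Subgroup G) := by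
        have h3 := hT' h1
        rw [← hg, Sylow.coe_subgroup_smul, Subgroup.mem_pointwise_smul_iff_inv_smul_mem,
          ← map_inv, MulAut.smul_def, MulAut.conj_apply, inv_inv] at h3
        exact h3
      have h4 := hTle h2
      rw [hgy, show g = l'⁻¹ * y⁻¹ by rw [← inv_inv g, hgy, mul_inv_rev]] at h4
      have h5 : y * q * y⁻¹ ∈ I := by
        convert h4 using 1
        group
      have hyI : y ∈ I := le_linStab N lam hy
      simpa [mul_assoc] using I.mul_mem (I.mul_mem (I.inv_mem hyI) h5) hyI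
    haveI : Fintype ↥Q' := Fintype.ofFinite _
    letI : CommGroup ↥N := { (inferInstance : Group ↥N) with mul_comm := fun a b => mul_comm' a b }
    refine MonoidHom.ext fun n => ?_
    let c : G → ↥N → ↥N := fun g x => ⟨g * x * g⁻¹, hNn.conj_mem x x.2 g⟩
    let chom : G → ↥N →* ↥N := fun g => MonoidHom.mk' (c g) fun a b => Subtype.ext (by
      show g * ((a : G) * b) * g⁻¹ = (g * a * g⁻¹) * (g * b * g⁻¹)
      group)
    set z : ↥N := ∏ q : ↥Q', c (q : G) n with hz
    have hzfix : ∀ q : ↥Q', c (q : G) z = z := fun q => by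
      show chom (q : G) z = z
      rw [hz, map_prod]
      refine Fintype.prod_equiv (Equiv.mulLeft q) _ _ fun x => Subtype.ext ?_
      show (q : G) * ((x : G) * n * (x : G)⁻¹) * (q : G)⁻¹ = _
      simp only [Equiv.coe_mulLeft, Subgroup.coe_mul, c]
      group
    have hzL : (z : G) ∈ L := Subgroup.mem_normalizer_iff.2 fun q => by
      have hfix : ∀ q ∈ Q', (z : G) * q * (z : G)⁻¹ = q := fun q hq => by
        have h1 : q * (z : G) * q⁻¹ = z := congrArg Subtype.val (hzfix ⟨q, hq⟩)
        calc (z : G) * q * (z : G)⁻¹ = (q * z * q⁻¹) * q * (z : G)⁻¹ := by rw [h1]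
          _ = q := by group
      refine ⟨fun hq => by rwa [hfix q hq], fun hq => ?_⟩
      have h1 := hfix _ hq
      have h2 : (z : G) * q * (z : G)⁻¹ = q :=
        mul_left_cancel (a := (z : G)) (mul_right_cancel (b := (z : G)⁻¹) h1)
      rwa [h2] at hq
    have hz1 : z = 1 := by
      have : (z : G) ∈ N ⊓ L := ⟨z.2, hzL⟩
      rw [hdis, Subgroup.mem_bot] at this
      exact Subtype.ext this
    have h1 : lam n ^ Nat.card Q' = 1 := by
      have h2 : ∀ q : ↥Q', lam (c (q : G) n) = lam n := fun q =>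
        (mem_linStab N).1 (hQI q.2) n _ rfl
      have := congrArg lam hz1
      rw [hz, map_prod, Finset.prod_congr rfl (fun q _ => h2 q), Finset.prod_const, map_one,
        Finset.card_univ, ← Nat.card_eq_fintype_card] at this
      exact this
    have h2 : lam n ^ Nat.card N = 1 := by rw [← map_pow, pow_card_eq_one', map_one]
    have hcop : Nat.Coprime (Nat.card Q') (Nat.card N) := by
      obtain ⟨a, ha⟩ := hQp.exists_card_eq
      obtain ⟨b, hb⟩ := hNr.exists_card_eq
      rw [ha, hb]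
      exact ((Nat.coprime_primes hp.out hr).2 hrp.symm).pow a b
    have := (pow_gcd_eq_one.2 ⟨h1, h2⟩).symm
    rw [hcop, pow_one] at this
    exact this.symm
  -- `r` is odd
  have hNodd : Odd (Nat.card N) := by
    obtain ⟨b, hb⟩ := hNr.exists_card_eq
    rw [hb]
    refine (hr.odd_of_ne_two fun hr2 => ?_).pow
    subst hr2
    obtain ⟨n0, hn0, hn01⟩ := N.ne_bot_iff_exists_ne_one.1 hN1 |> fun ⟨⟨a, ha⟩, hne⟩ =>
      (⟨a, ha, fun h => hne (Subtype.ext h)⟩ : ∃ a ∈ N, a ≠ 1)
    letI : CommGroup ↥N := { (inferInstance : Group ↥N) with mul_comm := fun a b => mul_comm' a b }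
    obtain ⟨lam, hlam⟩ := CommGroup.exists_apply_ne_one_of_hasEnoughRootsOfUnity ↥N ℂ
      (a := (⟨n0, hn0⟩ : ↥N)) (fun h => hn01 (congrArg Subtype.val h))
    refine hlam ?_
    rw [key 1 lam fun n n' h => ?_, MonoidHom.one_apply]
    obtain rfl : n' = n := Subtype.ext (by simpa using h)
    refine eq_inv_of_mul_eq_one_left ?_
    rw [← map_mul, show n' * n' = 1 from Subtype.ext (by simpa [pow_two] using hNexp n' n'.2),
      map_one]
  haveI := hNc
  have hcentral : ∀ g : G, (∃ k, g ^ 2 ^ k = 1) → ∀ x ∈ N, g * x * g⁻¹ = x := by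
    rintro g ⟨k, hk⟩
    refine centralizes_of_two_power hk fun s hs x hx => ?_
    by_contra hne
    obtain ⟨lam, hlam, hinv⟩ := exists_inverted_hom hNodd hs hx hne
    exact hlam (key s lam hinv)
  have hKcent : ∀ k ∈ pGen 2 G, ∀ x ∈ N, x * k = k * x := by
    intro k hk
    have : pGen 2 G ≤ Subgroup.centralizer (N : Set G) := by
      rw [pGen, Subgroup.closure_le]
      rintro g ⟨j, hj⟩
      refine Subgroup.mem_centralizer_iff.2 fun x hx => ?_
      exact (mul_inv_eq_iff_eq_mul.1 (hcentral g ⟨j, hj ▸ pow_orderOf_eq_one g⟩ x hx)).symm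
    exact fun x hx => Subgroup.mem_centralizer_iff.1 (this hk) x hx
  have hNK : N ≤ pGen 2 G := by
    rcases hmin (N ⊓ pGen 2 G) inferInstance inf_le_left with h | h
    swap
    · exact inf_eq_left.1 h
    exfalso
    obtain ⟨a, ha⟩ := hUp
    have h1 : Nat.card N ∣ p ^ a := by
      rw [← ha, ← Subgroup.relIndex_bot_left (H := N), ← h, inf_comm, Subgroup.inf_relIndex_right,
        ← Subgroup.relIndex_mul_relIndex _ _ _ (le_sup_right : pGen 2 G ≤ N ⊔ pGen 2 G)
          (sup_le hNU hKU), Subgroup.relIndex_sup_right]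
      exact dvd_mul_right _ _
    obtain ⟨b, hb⟩ := hNr.exists_card_eq
    rcases Nat.eq_zero_or_pos b with rfl | hb0
    · exact hN1 (Subgroup.card_eq_one.1 (by simpa using hb))
    · exact hrp ((Nat.prime_dvd_prime_iff_eq hr hp.out).1
        (hr.dvd_of_dvd_pow ((dvd_pow_self r hb0.ne').trans (hb ▸ h1))))
  have hKL : pGen 2 G ≤ L := by
    rw [pGen, Subgroup.closure_le]
    rintro g ⟨j, hj⟩
    obtain ⟨x, hx, l, hl, rfl⟩ := hdecomp g
    have hgK : x * l ∈ pGen 2 G := Subgroup.subset_closure ⟨j, hj⟩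
    have hlK : l ∈ pGen 2 G := by simpa using mul_mem (inv_mem (hNK hx)) hgK
    have hc : Commute x l := hKcent l hlK x hx
    have h1 : x ^ 2 ^ j * l ^ 2 ^ j = 1 := by rw [← hc.mul_pow, ← hj, pow_orderOf_eq_one]
    have h2 : x ^ 2 ^ j ∈ N ⊓ L := by
      refine ⟨N.pow_mem hx _, ?_⟩
      rw [eq_inv_of_mul_eq_one_left h1]
      exact L.inv_mem (L.pow_mem hl _)
    rw [hdis, Subgroup.mem_bot] at h2
    have h3 : x ^ Nat.card N = 1 := by
      have h4 : ((⟨x, hx⟩ : ↥N) ^ Nat.card N : ↥N) = 1 := pow_card_eq_one'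
      exact (Subgroup.coe_pow N ⟨x, hx⟩ _).symm.trans (congrArg Subtype.val h4)
    have hcop : Nat.Coprime (2 ^ j) (Nat.card N) :=
      (Nat.coprime_two_left.2 hNodd).pow_left j
    have hx1 : x = 1 := by
      have h4 := pow_gcd_eq_one.2 ⟨h2, h3⟩
      rwa [hcop, pow_one] at h4
    subst hx1
    rwa [one_mul]
  exact hN1 (le_bot_iff.1 (hdis ▸ le_inf le_rfl (hNK.trans hKL)))

end Cfsg.Agent.H45

namespace Cfsg.Agent.H45

variable {G : Type u} [Group G] [Finite G]

/-- A normal subgroup with a normal `p`-subgroup of index prime to `p` has normal Sylow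
`p`-subgroups. -/
theorem sylow_normal_of_not_dvd_relIndex {p : ℕ} [hp : Fact p.Prime] (C U : Subgroup G) [C.Normal]
    (hC : IsPGroup p C) (hCU : C ≤ U) (h : ¬ p ∣ C.relIndex U) (Q : Sylow p U) :
    (Q : Subgroup U).Normal := by
  have hC' : IsPGroup p (C.subgroupOf U) :=
    hC.of_equiv (Subgroup.subgroupOfEquivOfLe hCU).symm
  let S : Sylow p U := hC'.toSylow h
  haveI : (S : Subgroup U).Normal := inferInstanceAs (C.subgroupOf U).Normal
  letI := S.unique_of_normal inferInstance
  rwa [Subsingleton.elim Q S]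

/-- The Sylow `p`-subgroups of a normal subgroup containing every `2`-element with `p`-power index
over their closure are normal in it. -/
theorem sylow_normal_above {p : ℕ} [Fact p.Prime] (hsolv : Group.IsSolvable (pGen p G))
    (hreal : RealPPrime p G) (U : Subgroup G) [U.Normal] (hKU : pGen 2 G ≤ U)
    (hUp : ∃ a : ℕ, (pGen 2 G).relIndex U = p ^ a) (Q : Sylow p U) :
    (Q : Subgroup U).Normal :=
  haveI := H19.pCore_normal p G
  sylow_normal_of_not_dvd_relIndex (Cfsg.pCore p G ⊓ U) U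
    ((H19.pCore_isPGroup p).to_le inf_le_left) inf_le_right
    (not_dvd_relIndex_pCore hsolv hreal U hKU hUp) Q

end Cfsg.Agent.H45
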