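import Cfsg.Agent.H45.RealPPrime

/-!
# Normal subgroups inside the derived subgroup of a Sylow subgroup
-/

set_option autoImplicit false

open scoped ComplexConjugate

universe u

namespace Cfsg.Agent.H45

variable {G : Type u} [Group G] [Finite G]

/-- Some constituent of the restriction of a character of degree prime to `p` to a `p`-subgroup is
linear, so the restriction to a subgroup of the derived group contains the trivial character. -/
theorem classInner_oneIrr_ne_zero {p : ℕ} [hp : Fact p.Prime] [Fintype G] (P : Subgroup G)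
    (hP : IsPGroup p P) (N : Subgroup G) [Fintype ↥N] (hN : N ≤ ⁅P, P⁆)
    (χ : Cfsg.IrrCharacter G) (hχ : ¬ p ∣ Cfsg.charDegree (χ : G → ℂ)) :
    Cfsg.classInner (fun n : ↥N => χ.1 n) (H26.oneIrr ↥N).1 ≠ 0 := by
  classical
  haveI : Fintype ↥P := Fintype.ofFinite _
  have hNP : N ≤ P := hN.trans (Subgroup.commutator_le_self P)
  obtain ⟨c, hc, hdec⟩ := H26.exists_nat_coeffs
    (H26.isCharacter_comp (H26.irr_isCharacter χ) P.subtype)
  have hsum : Cfsg.charDegree (χ : G → ℂ) = ∑ φ, c φ * Cfsg.charDegree (φ : ↥P → ℂ) := by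
    have h := congrFun hdec 1
    simp only [Finset.sum_apply, Pi.smul_apply, smul_eq_mul, Subgroup.coe_subtype,
      Function.comp_apply, OneMemClass.coe_one, ← H44.cast_charDegree] at h
    exact_mod_cast h
  obtain ⟨φ, hφ, hlin⟩ : ∃ φ, c φ ≠ 0 ∧ Cfsg.charDegree (φ : ↥P → ℂ) = 1 := by
    by_contra hcon
    push Not at hcon
    refine hχ (hsum ▸ Finset.dvd_sum fun φ _ => ?_)
    rcases eq_or_ne (c φ) 0 with h0 | h0
    · simp [h0]
    obtain ⟨a, ha⟩ := hP.exists_card_eq
    obtain ⟨b, -, hb⟩ := (Nat.dvd_prime_pow hp.out).1 (ha ▸ H44.charDegree_dvd_card φ)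
    rcases Nat.eq_zero_or_pos b with rfl | hb0
    · exact absurd (by simpa using hb) (hcon φ h0)
    · exact (hb ▸ dvd_pow_self p hb0.ne').mul_left _
  obtain ⟨f, hf⟩ := H26.exists_hom_of_isCharacter_one (H26.irr_isCharacter φ)
    (by rw [← H44.cast_charDegree, hlin, Nat.cast_one])
  have htriv : ∀ n : ↥N, φ.1 (Subgroup.inclusion hNP n) = 1 := by
    intro n
    rw [← hf]
    have hker : ⁅P, P⁆ ≤ f.ker.map P.subtype := by
      rw [← Subgroup.map_subtype_commutator]
      exact Subgroup.map_mono (Abelianization.commutator_subset_ker f)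
    obtain ⟨y, hy, e⟩ := hker (hN n.2)
    have : Subgroup.inclusion hNP n = y := Subtype.ext e.symm
    rw [this, MonoidHom.mem_ker.1 hy, Units.val_one]
  refine classInner_restrict_ne_zero N P hNP χ φ (H26.oneIrr ↥N) ?_ ?_
  · intro h0
    apply hφ
    have h1 := hc φ
    exact_mod_cast h1.symm.trans h0
  · rw [show (fun n : ↥N => φ.1 (Subgroup.inclusion hNP n)) = (H26.oneIrr ↥N).1 from
      funext htriv, H26.classInner_irr, if_pos rfl]
    exact one_ne_zero

/-- An elementary abelian normal `p`-subgroup inside `P'` is centralized by the `2`-elements. -/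
theorem centralizes_minimal {p : ℕ} [hp : Fact p.Prime] (hp2 : p ≠ 2) (hreal : RealPPrime p G)
    (P : Subgroup G) (hP : IsPGroup p P) (N : Subgroup G) [N.Normal] [IsMulCommutative N]
    (hN : IsPGroup p N) (hNP : N ≤ ⁅P, P⁆) {t : G} {k : ℕ} (hk : t ^ 2 ^ k = 1) :
    ∀ n ∈ N, t * n * t⁻¹ = n := by
  classical
  haveI := Fintype.ofFinite G
  haveI := Fintype.ofFinite ↥N
  obtain ⟨b, hb⟩ := hN.exists_card_eq
  have hodd : Odd (Nat.card N) := hb ▸ (hp.out.odd_of_ne_two hp2).pow
  refine centralizes_of_two_power hk fun s hs x hx => ?_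
  by_contra hne
  obtain ⟨lam, hlam, hinv⟩ := exists_inverted_hom hodd hs hx hne
  set I := linStab N lam with hI
  have hconj : ∀ g ∈ I, s * g * s⁻¹ ∈ I := by
    intro g hg
    rw [hI, mem_linStab] at hg ⊢
    intro n n' hn
    let a : ↥N := ⟨s⁻¹ * n * s, by simpa using ‹N.Normal›.conj_mem n n.2 s⁻¹⟩
    let c : ↥N := ⟨g * a * g⁻¹, ‹N.Normal›.conj_mem a a.2 g⟩
    have h1 : (n' : G) = s * c * s⁻¹ := by rw [hn]; simp [a, c, mul_assoc]
    have h2 : (n : G) = s * a * s⁻¹ := by simp [a, mul_assoc]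
    rw [hinv c n' h1, hinv a n h2, hg a c rfl]
  haveI : Fact (Nat.Prime 2) := ⟨Nat.prime_two⟩
  obtain ⟨S⟩ : Nonempty (Sylow 2 I) := inferInstance
  set S' : Subgroup G := (S : Subgroup I).map I.subtype with hS'
  have hS'I : S' ≤ I := Subgroup.map_subtype_le _
  -- correct `s` by an element of the stabilizer so that it normalizes `S'`
  let cs : ↥I →* ↥I := MonoidHom.mk' (fun g => ⟨s * g * s⁻¹, hconj g g.2⟩) fun a b =>
    Subtype.ext (by show s * ((a : G) * b) * s⁻¹ = s * a * s⁻¹ * (s * b * s⁻¹); group)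
  have hcs : Function.Injective cs := fun a b e => Subtype.ext (by
    simpa [cs] using congrArg Subtype.val e)
  let T : Sylow 2 I := S.mapSurjective (f := cs) (Finite.surjective_of_injective hcs)
  obtain ⟨i, hi⟩ := MulAction.exists_smul_eq I T S
  set t' : G := (i : G) * s
  have ht' : ∀ y ∈ S', t' * y * t'⁻¹ ∈ S' := by
    rintro _ ⟨y, hy, rfl⟩
    refine ⟨i * cs y * i⁻¹, ?_, ?_⟩
    · rw [← hi, Sylow.coe_subgroup_smul, SetLike.mem_coe,
        Subgroup.mem_pointwise_smul_iff_inv_smul_mem, ← map_inv, MulAut.smul_def,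
        MulAut.conj_apply]
      refine ⟨y, hy, ?_⟩
      group
    · show (i : G) * (s * y * s⁻¹) * (i : G)⁻¹ = i * s * y * (i * s)⁻¹
      group
  have hinv' : ∀ n n' : ↥N, (n' : G) = t' * n * t'⁻¹ → lam n' = (lam n)⁻¹ := by
    intro n n' hn
    let m : ↥N := ⟨s * n * s⁻¹, ‹N.Normal›.conj_mem n n.2 s⟩
    have h1 : (n' : G) = (i : G) * m * (i : G)⁻¹ := by rw [hn]; simp [m, t', mul_assoc]
    rw [(mem_linStab N).1 i.2 m n' h1, hinv n m rfl]
  have hdis : N ⊓ S' = ⊥ := by
    refine disjoint_iff.1 (IsPGroup.disjoint_of_ne p 2 hp2 _ _ hN (S.2.map I.subtype))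
  have hoddrel : Odd ((N ⊔ S').relIndex I) := by
    have h1 : ¬ 2 ∣ S'.relIndex I := by
      rw [Subgroup.relIndex, hS', Subgroup.subgroupOf,
        Subgroup.comap_map_eq_self_of_injective I.subtype_injective]
      exact S.not_dvd_index
    rw [Nat.odd_iff]
    have h2 : ¬ 2 ∣ (N ⊔ S').relIndex I :=
      fun h => h1 (h.trans (Subgroup.relIndex_dvd_of_le_left I le_sup_right))
    omega
  obtain ⟨χ, hχ, -, hχN⟩ := exists_real_over_complemented N lam S' hS'I hdis hoddrel t' ht' hinv'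
  let θ : Cfsg.IrrCharacter ↥N := ⟨_, H26.isIrrCharacter_hom lam⟩
  obtain ⟨g, hg⟩ := H27.exists_twist_of_constituents N χ.2 (H26.oneIrr ↥N).2 θ.2
    (classInner_oneIrr_ne_zero P hP N hNP χ (hreal χ hχ)) hχN
  refine hlam (MonoidHom.ext fun n => Units.ext ?_)
  exact (congrFun hg n).symm.trans (H26.oneIrr_val _)

/-- The `2`-elements centralize every normal `p`-subgroup inside `P'`. -/
theorem centralizes_normal {p : ℕ} [hp : Fact p.Prime] (hp2 : p ≠ 2) (hreal : RealPPrime p G)
    (P : Subgroup G) (hP : IsPGroup p P) (M : Subgroup G) [M.Normal] (hMP : M ≤ ⁅P, P⁆)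
    {t : G} {k : ℕ} (hk : t ^ 2 ^ k = 1) : ∀ m ∈ M, t * m * t⁻¹ = m := by
  induction hn : Nat.card G using Nat.strong_induction_on generalizing G with
  | _ n ih =>
  subst hn
  rcases eq_or_ne M ⊥ with rfl | hM
  · intro m hm
    rw [Subgroup.mem_bot] at hm
    simp [hm]
  have hMp : IsPGroup p M := hP.to_le (hMP.trans (Subgroup.commutator_le_self P))
  haveI : Group.IsNilpotent M := hMp.isNilpotent
  obtain ⟨L, hLn, hL1, hLM, hmin⟩ := H19.exists_minimalNormal_le M hM
  have hLsol : Group.IsSolvable L :=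
    Group.isSolvable_of_isSolvable_injective (f := Subgroup.inclusion hLM)
      (Subgroup.inclusion_injective hLM)
  obtain ⟨hLc, -⟩ := H19.minimalNormal_elementary L hLsol hL1 hmin
  haveI := hLc
  have hcL := centralizes_minimal hp2 hreal P hP L (hMp.to_le hLM) (hLM.trans hMP) hk
  set π := QuotientGroup.mk' L
  have hs := QuotientGroup.mk'_surjective L
  have hlt : Nat.card (G ⧸ L) < Nat.card G := by
    conv_rhs => rw [Subgroup.card_eq_card_quotient_mul_card_subgroup L]
    exact lt_mul_of_one_lt_right Nat.card_pos (Subgroup.one_lt_card_iff_ne_bot L |>.2 hL1)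
  haveI : (M.map π).Normal := ‹M.Normal›.map π hs
  have hq := ih _ hlt (hreal.quotient L) (P.map π) (hP.map π) (M.map π)
    (by rw [← Subgroup.map_commutator]; exact Subgroup.map_mono hMP) (t := π t)
    (by rw [← map_pow, hk, map_one]) rfl
  intro m hm
  have hl : m⁻¹ * (t * m * t⁻¹) ∈ L := by
    rw [← QuotientGroup.eq]
    have := hq (π m) (Subgroup.mem_map_of_mem _ hm)
    show π m = π (t * m * t⁻¹)
    rw [map_mul, map_mul, map_inv, this]
  set l := m⁻¹ * (t * m * t⁻¹) with hldef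
  have hiter : ∀ j : ℕ, t ^ j * m * (t ^ j)⁻¹ = m * l ^ j := by
    intro j
    induction j with
    | zero => simp
    | succ j ihj =>
      calc t ^ (j + 1) * m * (t ^ (j + 1))⁻¹
          = t * (t ^ j * m * (t ^ j)⁻¹) * t⁻¹ := by rw [pow_succ']; group
        _ = (t * m * t⁻¹) * (t * l ^ j * t⁻¹) := by rw [ihj]; group
        _ = m * l ^ (j + 1) := by
          rw [hcL _ (L.pow_mem hl j), show t * m * t⁻¹ = m * l by rw [hldef]; group, pow_succ',
            mul_assoc]
  have h1 : l ^ 2 ^ k = 1 := by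
    have := hiter (2 ^ k)
    rw [hk] at this
    simpa using this.symm
  obtain ⟨j, hj⟩ := hMp ⟨l, hLM hl⟩
  have h2 : l ^ p ^ j = 1 := by simpa using congrArg Subtype.val hj
  have hcop : Nat.Coprime (2 ^ k) (p ^ j) :=
    ((Nat.coprime_primes Nat.prime_two hp.out).2 hp2.symm).pow k j
  have hl1 := pow_gcd_eq_one.2 ⟨h1, h2⟩
  rw [hcop, pow_one, hldef, inv_mul_eq_one] at hl1
  exact hl1.symm

end Cfsg.Agent.H45
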